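import Mathlib

set_option autoImplicit false

namespace Cfsg.Agent.Lib.Helper1

/-- two-term weighted AM-GM in natural-number form. -/
theorem apb_amgm2 (x y d e : ℕ) :
    x ^ d * y ^ e * (d + e) ^ (d + e) ≤ (x + y) ^ (d + e) * (d ^ d * e ^ e) := by
  rcases Nat.eq_zero_or_pos d with hd | hd
  · subst hd
    simp only [pow_zero, one_mul, zero_add]
    exact Nat.mul_le_mul_right _ (Nat.pow_le_pow_left (Nat.le_add_left y x) e)
  rcases Nat.eq_zero_or_pos e with he | he
  · subst he
    simp only [pow_zero, mul_one, add_zero]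
    exact Nat.mul_le_mul_right _ (Nat.pow_le_pow_left (Nat.le_add_right x y) d)
  have hdR : (0:ℝ) < (d:ℝ) := by exact_mod_cast hd
  have heR : (0:ℝ) < (e:ℝ) := by exact_mod_cast he
  have hKR : (0:ℝ) < (d:ℝ) + (e:ℝ) := by positivity
  have key := Real.geom_mean_le_arith_mean2_weighted (w₁ := (d:ℝ) / ((d:ℝ) + e))
    (w₂ := (e:ℝ) / ((d:ℝ) + e)) (p₁ := (x:ℝ) / d) (p₂ := (y:ℝ) / e)
    (by positivity) (by positivity) (by positivity) (by positivity) (by field_simp)
  have h2 : (d:ℝ) / ((d:ℝ) + e) * ((x:ℝ) / d) + (e:ℝ) / ((d:ℝ) + e) * ((y:ℝ) / e)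
      = ((x:ℝ) + y) / ((d:ℝ) + e) := by
    field_simp
  rw [h2] at key
  have h3 := pow_le_pow_left₀ (by positivity) key (d + e)
  have h4 : (((x:ℝ) / d) ^ ((d:ℝ) / ((d:ℝ) + e)) * ((y:ℝ) / e) ^ ((e:ℝ) / ((d:ℝ) + e))) ^ (d + e)
      = ((x:ℝ) / d) ^ d * ((y:ℝ) / e) ^ e := by
    have e1 : (d:ℝ) / ((d:ℝ) + e) * (((d + e : ℕ)) : ℝ) = (d : ℝ) := by
      push_cast; field_simp
    have e2 : (e:ℝ) / ((d:ℝ) + e) * (((d + e : ℕ)) : ℝ) = (e : ℝ) := by
      push_cast; field_simp
    rw [mul_pow, ← Real.rpow_natCast (((x:ℝ) / d) ^ ((d:ℝ) / ((d:ℝ) + e))) (d + e),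
      ← Real.rpow_natCast (((y:ℝ) / e) ^ ((e:ℝ) / ((d:ℝ) + e))) (d + e),
      ← Real.rpow_mul (by positivity), ← Real.rpow_mul (by positivity), e1, e2,
      Real.rpow_natCast, Real.rpow_natCast]
  rw [h4] at h3
  rw [div_pow, div_pow, div_pow, div_mul_div_comm,
    div_le_div_iff₀ (by positivity) (by positivity)] at h3
  exact_mod_cast h3

theorem apb_key (x y d e : ℕ) (hd : 1 ≤ d) (hx : 2 ^ d ≤ x) :
    x * y ^ e * (d + e) ^ (d + e) ≤ (x + y) ^ (d + e) * e ^ e := by
  have ha : x * d ^ d ≤ x ^ d := by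
    obtain ⟨c, rfl⟩ : ∃ c, d = c + 1 := ⟨d - 1, by omega⟩
    have h1 : c + 1 ≤ 2 ^ c := Nat.lt_two_pow_self
    have h2 : (c + 1) ^ (c + 1) ≤ x ^ c := by
      calc (c + 1) ^ (c + 1) ≤ (2 ^ c) ^ (c + 1) := Nat.pow_le_pow_left h1 _
        _ = (2 ^ (c + 1)) ^ c := by rw [← pow_mul, ← pow_mul, mul_comm]
        _ ≤ x ^ c := Nat.pow_le_pow_left hx _
    calc x * (c + 1) ^ (c + 1) ≤ x * x ^ c := Nat.mul_le_mul_left _ h2
      _ = x ^ (c + 1) := by rw [pow_succ, mul_comm]
  have hb := apb_amgm2 x y d e
  have hdd : 0 < d ^ d := Nat.pow_pos (by omega)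
  apply Nat.le_of_mul_le_mul_right _ hdd
  calc x * y ^ e * (d + e) ^ (d + e) * d ^ d
      = (x * d ^ d) * y ^ e * (d + e) ^ (d + e) := by ring
    _ ≤ x ^ d * y ^ e * (d + e) ^ (d + e) :=
        Nat.mul_le_mul_right _ (Nat.mul_le_mul_right _ ha)
    _ ≤ (x + y) ^ (d + e) * (d ^ d * e ^ e) := hb
    _ = (x + y) ^ (d + e) * e ^ e * d ^ d := by ring

section grp
universe u v

/-- the subgroup of elements of order dividing p in a commutative group. -/
def apbOmega (p : ℕ) (B : Type u) [Group B] (hc : ∀ a b : B, a * b = b * a) : Subgroup B where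
  carrier := {b | b ^ p = 1}
  mul_mem' := by
    intro a b ha hb
    rw [Set.mem_ofPred_eq] at ha hb ⊢
    rw [(show Commute a b from hc a b).mul_pow, ha, hb, one_mul]
  one_mem' := one_pow p
  inv_mem' := by
    intro a ha
    rw [Set.mem_ofPred_eq] at ha ⊢
    rw [inv_pow, ha, inv_one]

theorem apb_aux (p : ℕ) (hp : p.Prime) : ∀ (N : ℕ) (B : Type u) [Group B] [Finite B]
    (X : Type v) [Finite X] [MulAction B X] [FaithfulSMul B X],
    (∀ a b : B, a * b = b * a) → IsPGroup p B →
    Nat.card B ≤ N → ∀ k : ℕ, Nat.card {b : B // b ^ p = 1} = p ^ k →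
    Nat.card B * k ^ k ≤ Nat.card X ^ k := by
  classical
  intro N
  induction N with
  | zero =>
    intro B _ _ X _ _ _ hc hpB hN
    have := Nat.card_pos (α := B)
    exact absurd this (by omega)
  | succ N ih =>
    intro B _ _ X _ _ _ hc hpB hN k hk
    haveI : Fact p.Prime := ⟨hp⟩
    rcases Nat.eq_zero_or_pos k with hk0 | hk0
    · subst hk0
      simp only [pow_zero, mul_one] at hk ⊢
      by_contra hlt
      push_neg at hlt
      obtain ⟨n, hn⟩ := IsPGroup.iff_card.mp hpB
      have hn0 : n ≠ 0 := by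
        rintro rfl
        rw [pow_zero] at hn
        omega
      have hdvd : p ∣ Nat.card B := by rw [hn]; exact dvd_pow_self p hn0
      obtain ⟨g, hg⟩ := exists_prime_orderOf_dvd_card' p hdvd
      have hsub : Subsingleton {b : B // b ^ p = 1} :=
        Finite.card_le_one_iff_subsingleton.mp hk.le
      have h1 : (⟨g, by rw [← hg]; exact pow_orderOf_eq_one g⟩ : {b : B // b ^ p = 1})
          = ⟨1, one_pow p⟩ := Subsingleton.elim _ _
      have h2 : g = 1 := congrArg Subtype.val h1
      rw [h2, orderOf_one] at hg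
      exact hp.one_lt.ne hg
    · -- k ≥ 1
      set E : Subgroup B := apbOmega p B hc with hEdef
      have hE : Nat.card E = p ^ k := hk
      have hE1 : 1 < Nat.card E := by rw [hE]; exact Nat.one_lt_pow hk0.ne' hp.one_lt
      haveI : Nontrivial E := Finite.one_lt_card_iff_nontrivial.mp hE1
      obtain ⟨b₀, hb₀⟩ := exists_ne (1 : E)
      have hb₀' : (b₀ : B) ≠ 1 := fun h => hb₀ (Subtype.ext h)
      obtain ⟨ω, hω⟩ : ∃ ω : X, (b₀ : B) • ω ≠ ω := by
        by_contra h
        push_neg at h
        exact hb₀' (FaithfulSMul.eq_of_smul_eq_smul (α := X) (fun x => by rw [h x, one_smul]))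
      set B' : Subgroup B := MulAction.stabilizer B ω with hB'def
      have hfix : ∀ b ∈ B', ∀ x ∈ MulAction.orbit B ω, b • x = x := by
        intro b hb x hx
        obtain ⟨c, rfl⟩ := hx
        show b • c • ω = c • ω
        rw [smul_smul, hc b c, mul_smul, MulAction.mem_stabilizer_iff.mp hb]
      -- the action of B' on the complement of the orbit
      letI act : MulAction B' {x : X // x ∉ MulAction.orbit B ω} :=
        { smul := fun b x => ⟨(b : B) • (x : X), fun h => x.2 (by
            obtain ⟨c, hc'⟩ := h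
            exact ⟨(b : B)⁻¹ * c, by
              show ((b : B)⁻¹ * c) • ω = (x : X)
              rw [mul_smul]
              have : c • ω = (b : B) • (x : X) := hc'
              rw [this, inv_smul_smul]⟩)⟩
          one_smul := fun x => Subtype.ext (one_smul B (x : X))
          mul_smul := fun a b x => Subtype.ext (mul_smul (a : B) (b : B) (x : X)) }
      have hact : ∀ (b : B') (x : {x : X // x ∉ MulAction.orbit B ω}),
          ((b • x : {x : X // x ∉ MulAction.orbit B ω}) : X) = (b : B) • (x : X) :=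
        fun _ _ => rfl
      haveI : FaithfulSMul B' {x : X // x ∉ MulAction.orbit B ω} := by
        refine ⟨fun {b1 b2} h => ?_⟩
        apply Subtype.ext
        apply FaithfulSMul.eq_of_smul_eq_smul (α := X)
        intro x
        by_cases hx : x ∈ MulAction.orbit B ω
        · rw [hfix _ b1.2 x hx, hfix _ b2.2 x hx]
        · have := congrArg Subtype.val (h ⟨x, hx⟩)
          rw [hact, hact] at this
          exact this
      -- cardinalities
      have hBcard : Nat.card B' * B'.index = Nat.card B := Subgroup.card_mul_index B'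
      have hidx : B'.index = (MulAction.orbit B ω).ncard := MulAction.index_stabilizer B ω
      have hXcard : Nat.card X = B'.index + Nat.card {x : X // x ∉ MulAction.orbit B ω} := by
        rw [hidx, ← Nat.card_coe_set_eq, ← Nat.card_sum]
        exact Nat.card_congr (Equiv.sumCompl (· ∈ MulAction.orbit B ω)).symm
      -- the subgroup B' ∩ E inside E
      set F : Subgroup E := B'.subgroupOf E with hFdef
      have hFcard : Nat.card F * F.index = Nat.card E := Subgroup.card_mul_index F
      have hFidx : F.index ≤ B'.index := by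
        have h1 := Subgroup.relIndex_le_of_le_right (H := B') (K := E) (L := ⊤) le_top
          (by rw [Subgroup.relIndex_top_right]; exact Subgroup.index_ne_zero_of_finite)
        rw [Subgroup.relIndex_top_right] at h1
        exact h1
      have hFne : F.index ≠ 1 := by
        intro h
        rw [Subgroup.index_eq_one] at h
        have : b₀ ∈ F := by rw [h]; exact Subgroup.mem_top _
        exact hω (MulAction.mem_stabilizer_iff.mp (Subgroup.mem_subgroupOf.mp this))
      obtain ⟨k', hk'⟩ := IsPGroup.iff_card.mp ((hpB.to_subgroup E).to_subgroup F)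
      -- Ω_1(B') has the same cardinality as F
      have hΩ' : Nat.card {b : B' // b ^ p = 1} = p ^ k' := by
        rw [← hk']
        refine Nat.card_congr
          { toFun := fun b => ⟨⟨(b.1 : B), ?_⟩, ?_⟩
            invFun := fun f => ⟨⟨(f.1 : B), ?_⟩, ?_⟩
            left_inv := fun b => rfl
            right_inv := fun f => rfl }
        · have := congrArg Subtype.val b.2
          exact this
        · exact Subgroup.mem_subgroupOf.mpr b.1.2
        · exact Subgroup.mem_subgroupOf.mp f.2
        · exact Subtype.ext f.1.2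
      have hk'le : k' ≤ k := by
        have : p ^ k' ∣ p ^ k := by rw [← hk', ← hE, ← hFcard]; exact dvd_mul_right _ _
        exact (Nat.pow_dvd_pow_iff_le_right hp.one_lt).mp this
      have hFi : F.index = p ^ (k - k') := by
        have h1 : p ^ k' * F.index = p ^ k' * p ^ (k - k') := by
          rw [← pow_add, Nat.add_sub_cancel' hk'le, ← hE, ← hFcard, hk']
        exact Nat.eq_of_mul_eq_mul_left (Nat.pow_pos hp.pos) h1
      have hd : 1 ≤ k - k' := by
        rcases Nat.eq_zero_or_pos (k - k') with h0 | h0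
        · rw [h0, pow_zero] at hFi; exact absurd hFi hFne
        · exact h0
      have hpd : p ^ (k - k') ≤ B'.index := by rw [← hFi]; exact hFidx
      -- induction hypothesis
      have hB'lt : Nat.card B' ≤ N := by
        have h2 : 2 ≤ B'.index := by
          calc 2 ≤ p := hp.two_le
            _ = p ^ 1 := (pow_one p).symm
            _ ≤ p ^ (k - k') := Nat.pow_le_pow_right hp.pos hd
            _ ≤ B'.index := hpd
        have hpos : 0 < Nat.card B' := Nat.card_pos
        have h3 : Nat.card B' * 2 ≤ Nat.card B' * B'.index := Nat.mul_le_mul_left _ h2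
        omega
      have ih' := ih B' {x : X // x ∉ MulAction.orbit B ω} (fun a b => Subtype.ext (hc a b))
        (hpB.to_subgroup B') hB'lt k' hΩ'
      -- key inequality
      have hx : 2 ^ (k - k') ≤ B'.index :=
        le_trans (Nat.pow_le_pow_left hp.two_le _) hpd
      have key := apb_key B'.index (Nat.card {x : X // x ∉ MulAction.orbit B ω}) (k - k') k'
        hd hx
      rw [Nat.sub_add_cancel hk'le] at key
      have hee : 0 < k' ^ k' := by
        rcases Nat.eq_zero_or_pos k' with h0 | h0
        · rw [h0]; norm_num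
        · exact Nat.pow_pos h0
      apply Nat.le_of_mul_le_mul_right _ hee
      calc Nat.card B * k ^ k * k' ^ k'
          = B'.index * (Nat.card B' * k' ^ k') * k ^ k := by rw [← hBcard]; ring
        _ ≤ B'.index * (Nat.card {x : X // x ∉ MulAction.orbit B ω}) ^ k' * k ^ k :=
            Nat.mul_le_mul_right _ (Nat.mul_le_mul_left _ ih')
        _ ≤ (B'.index + Nat.card {x : X // x ∉ MulAction.orbit B ω}) ^ k * k' ^ k' := key
        _ = Nat.card X ^ k * k' ^ k' := by rw [hXcard]

theorem apb_main {Ω : Type u} [Finite Ω] (p : ℕ) (hp : p.Prime) (A : Subgroup (Equiv.Perm Ω))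
    (hA : IsPGroup p A) (hab : ∀ a b : A, a * b = b * a) (k : ℕ)
    (hk : Nat.card {x : A // x ^ p = 1} = p ^ k) : Nat.card A * k ^ k ≤ Nat.card Ω ^ k := by
  haveI : FaithfulSMul A Ω := ⟨fun {a b} h => Subtype.ext (Equiv.ext h)⟩
  exact apb_aux p hp (Nat.card A) A Ω hab hA le_rfl k hk

end grp

end Cfsg.Agent.Lib.Helper1
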