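import Mathlib
import Cfsg.Prelude.Def_Local

set_option autoImplicit false

namespace Cfsg.Agent.Lib.Helper1

/-- `|Aut F| ≤ (|F| - 1)!` for a finite group `F`. -/
theorem card_mulAut_le (F : Type*) [Group F] [Finite F] :
    Nat.card (MulAut F) ≤ (Nat.card F - 1).factorial := by
  classical
  let θ : MulAut F → Equiv.Perm {x : F // x ≠ 1} := fun e =>
    e.toEquiv.subtypeEquiv (fun a => by simp)
  have hθ : Function.Injective θ := by
    intro e₁ e₂ h
    apply MulEquiv.ext
    intro a
    by_cases ha : a = 1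
    · subst ha; simp
    · have := congrArg (fun f => (f ⟨a, ha⟩ : F)) h
      simpa [θ] using this
  have h1 : Nat.card {x : F // x ≠ 1} = Nat.card F - 1 := by
    have : {x : F | x ≠ 1} = ({1} : Set F)ᶜ := by ext x; simp
    change Nat.card ↥{x : F | x ≠ 1} = _
    rw [Nat.card_coe_set_eq, this, Set.ncard_compl, Set.ncard_singleton]
  calc Nat.card (MulAut F) ≤ Nat.card (Equiv.Perm {x : F // x ≠ 1}) :=
        Nat.card_le_card_of_injective θ hθ
    _ = (Nat.card F - 1).factorial := by rw [Nat.card_perm, h1]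

/-- If a normal subgroup `F` contains its centralizer then `|H| ≤ |F|!`. -/
theorem card_le_factorial_of_centralizer_le {H : Type*} [Group H] [Finite H] (F : Subgroup H)
    [F.Normal] (hC : Subgroup.centralizer (F : Set H) ≤ F) :
    Nat.card H ≤ (Nat.card ↥F).factorial := by
  let φ : H →* MulAut ↥F := MulAut.conjNormal
  have hker : φ.ker ≤ F := by
    refine le_trans ?_ hC
    intro x hx
    rw [Subgroup.mem_centralizer_iff]
    intro f hf
    have h1 : φ x ⟨f, hf⟩ = ⟨f, hf⟩ := by
      rw [MonoidHom.mem_ker] at hx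
      rw [hx]; rfl
    have h2 : x * f * x⁻¹ = f := by
      have := congrArg Subtype.val h1
      simpa [φ, MulAut.conjNormal_apply] using this
    calc f * x = (x * f * x⁻¹) * x := by rw [h2]
      _ = x * f := by group
  have h1 : Nat.card H = Nat.card ↥φ.ker * Nat.card ↥φ.range := by
    rw [← Subgroup.index_ker, Subgroup.card_mul_index]
  have h2 : Nat.card ↥φ.ker ≤ Nat.card ↥F := Subgroup.card_le_of_le hker
  have h3 : Nat.card ↥φ.range ≤ (Nat.card ↥F - 1).factorial :=
    (Nat.card_le_card_of_injective _ (Subgroup.subtype_injective _)).trans (card_mulAut_le ↥F)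
  have hpos : 0 < Nat.card ↥F := Nat.card_pos
  calc Nat.card H = Nat.card ↥φ.ker * Nat.card ↥φ.range := h1
    _ ≤ Nat.card ↥F * (Nat.card ↥F - 1).factorial := Nat.mul_le_mul h2 h3
    _ = (Nat.card ↥F).factorial := Nat.mul_factorial_pred (Nat.pos_iff_ne_zero.mp hpos)

end Cfsg.Agent.Lib.Helper1
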