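import Mathlib

set_option autoImplicit false

namespace Cfsg.Agent.Lib.Helper1

/-- If `⟨c⟩` is a cyclic subgroup of order `2^M` and index `2` containing every element of order
`2^M`, then the automorphism group is a `2`-group. -/
theorem aut_pgroup_of_cyc_max {X : Type*} [Group X] [Finite X] (M : ℕ) (hM : 1 ≤ M) (c : X)
    (hc : orderOf c = 2 ^ M) (hidx : (Subgroup.zpowers c).index = 2)
    (hchar : ∀ g : X, orderOf g = 2 ^ M → g ∈ Subgroup.zpowers c) : IsPGroup 2 (MulAut X) := by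
  classical
  have hcM : c ^ 2 ^ M = 1 := by rw [← hc]; exact pow_orderOf_eq_one c
  intro α
  -- α c = c ^ u
  obtain ⟨u, hu⟩ : ∃ u : ℕ, α c = c ^ u := by
    have h1 : α c ∈ Subgroup.zpowers c := hchar _ (by rw [MulEquiv.orderOf_eq]; exact hc)
    rw [← mem_powers_iff_mem_zpowers, Submonoid.mem_powers_iff] at h1
    obtain ⟨u, hu⟩ := h1
    exact ⟨u, hu.symm⟩
  have hucop : Nat.Coprime u (2 ^ M) := by
    have h1 : orderOf (c ^ u) = 2 ^ M := by rw [← hu, MulEquiv.orderOf_eq]; exact hc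
    rw [orderOf_pow, hc] at h1
    have h4 : Nat.gcd (2 ^ M) u = 1 := by
      rcases Nat.div_eq_self.mp h1 with h | h
      · exfalso
        have : 0 < 2 ^ M := by positivity
        omega
      · exact h
    rw [Nat.Coprime, Nat.gcd_comm]; exact h4
  have hpow : ∀ k : ℕ, (α ^ k) c = c ^ (u ^ k) := by
    intro k
    induction k with
    | zero => simp
    | succ k ih =>
      rw [pow_succ, MulAut.mul_apply, hu, map_pow, ih, ← pow_mul, ← pow_succ]
  have htot : u ^ 2 ^ (M - 1) ≡ 1 [MOD 2 ^ M] := by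
    have h1 := Nat.ModEq.pow_totient hucop
    rw [Nat.totient_prime_pow Nat.prime_two (by omega)] at h1
    simpa using h1
  have hβc : (α ^ 2 ^ (M - 1)) c = c := by
    rw [hpow]
    have h1 : c ^ u ^ 2 ^ (M - 1) = c ^ 1 := by
      apply pow_eq_pow_iff_modEq.mpr
      rw [hc]; exact htot
    rw [h1, pow_one]
  obtain ⟨β, hβ⟩ : ∃ β : MulAut X, β = α ^ 2 ^ (M - 1) := ⟨_, rfl⟩
  rw [← hβ] at hβc
  have hβA : ∀ a ∈ Subgroup.zpowers c, β a = a := by
    intro a ha
    obtain ⟨j, rfl⟩ := Subgroup.mem_zpowers_iff.mp ha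
    rw [map_zpow, hβc]
  obtain ⟨s, hs⟩ : ∃ s : X, s ∉ Subgroup.zpowers c := by
    by_contra h
    have htop : Subgroup.zpowers c = ⊤ := by
      rw [eq_top_iff]; intro g _
      by_contra hg
      exact h ⟨g, hg⟩
    rw [htop, Subgroup.index_top] at hidx
    omega
  have hsinv : s⁻¹ ∉ Subgroup.zpowers c := fun h => hs (by simpa using Subgroup.inv_mem _ h)
  have hβs : β s ∉ Subgroup.zpowers c := by
    intro h
    apply hs
    have h1 := hβA _ h
    exact (β.injective h1) ▸ h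
  obtain ⟨w, hw⟩ : ∃ w : ℕ, β s = s * c ^ w := by
    have h1 : s⁻¹ * β s ∈ Subgroup.zpowers c :=
      (Subgroup.mul_mem_iff_of_index_two hidx).mpr (iff_of_false hsinv hβs)
    rw [← mem_powers_iff_mem_zpowers, Submonoid.mem_powers_iff] at h1
    obtain ⟨w, hw⟩ := h1
    exact ⟨w, by rw [hw]; group⟩
  have hβjc : ∀ j : ℕ, (β ^ j) c = c := by
    intro j
    induction j with
    | zero => simp
    | succ j ih => rw [pow_succ, MulAut.mul_apply, hβc, ih]
  have hβjs : ∀ j : ℕ, (β ^ j) s = s * c ^ (w * j) := by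
    intro j
    induction j with
    | zero => simp
    | succ j ih =>
      rw [pow_succ, MulAut.mul_apply, hw, map_mul, map_pow, ih, hβjc, mul_assoc, ← pow_add,
        Nat.mul_succ]
  refine ⟨(M - 1) + M, ?_⟩
  rw [pow_add, pow_mul, ← hβ]
  apply MulEquiv.ext
  intro g
  have hs' : (β ^ 2 ^ M) s = s := by
    rw [hβjs, mul_comm w, pow_mul, hcM, one_pow, mul_one]
  show (β ^ 2 ^ M) g = g
  by_cases hg : g ∈ Subgroup.zpowers c
  · obtain ⟨j, rfl⟩ := Subgroup.mem_zpowers_iff.mp hg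
    rw [map_zpow, hβjc]
  · have h1 : s⁻¹ * g ∈ Subgroup.zpowers c :=
      (Subgroup.mul_mem_iff_of_index_two hidx).mpr (iff_of_false hsinv hg)
    obtain ⟨j, hj⟩ := Subgroup.mem_zpowers_iff.mp h1
    have h2 : g = s * c ^ j := by rw [hj]; group
    rw [h2, map_mul, map_zpow, hβjc, hs']

end Cfsg.Agent.Lib.Helper1
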