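import Mathlib

/-! Coprime action on an abelian group: `P = C_P(A) × [P, A]`. -/

set_option autoImplicit false

namespace Cfsg.Agent.Lib.Helper1

open scoped IsMulCommutative

/-- the norm map of a finite group of automorphisms of an abelian group -/
noncomputable def normHom {P : Type*} [Group P] [IsMulCommutative P] [Finite P]
    (A : Subgroup (MulAut P)) : P →* P :=
  letI : Fintype A := Fintype.ofFinite _
  MonoidHom.mk' (fun x => ∏ α : A, (α : MulAut P) x) (by
    intro x y
    simp only [map_mul]
    exact Finset.prod_mul_distrib)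

theorem normHom_apply {P : Type*} [Group P] [IsMulCommutative P] [Finite P]
    (A : Subgroup (MulAut P)) (x : P) :
    normHom A x = @Finset.prod A P _ (@Finset.univ A (Fintype.ofFinite A))
      (fun α => (α : MulAut P) x) := rfl

theorem normHom_comp {P : Type*} [Group P] [IsMulCommutative P] [Finite P]
    (A : Subgroup (MulAut P)) (α₀ : MulAut P) (h : α₀ ∈ A) (x : P) :
    normHom A (α₀ x) = normHom A x := by
  classical
  letI : Fintype A := Fintype.ofFinite _
  rw [normHom_apply, normHom_apply]
  exact Fintype.prod_equiv (Equiv.mulRight (⟨α₀, h⟩ : A)) _ _ (fun α => rfl)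

theorem normHom_fix {P : Type*} [Group P] [IsMulCommutative P] [Finite P]
    (A : Subgroup (MulAut P)) (β : MulAut P) (h : β ∈ A) (x : P) :
    β (normHom A x) = normHom A x := by
  classical
  letI : Fintype A := Fintype.ofFinite _
  rw [normHom_apply, map_prod]
  exact Fintype.prod_equiv (Equiv.mulLeft (⟨β, h⟩ : A)) _ _ (fun α => rfl)

theorem normHom_of_fixed {P : Type*} [Group P] [IsMulCommutative P] [Finite P]
    (A : Subgroup (MulAut P)) (y : P) (hy : ∀ α ∈ A, α y = y) :
    normHom A y = y ^ Nat.card A := by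
  classical
  letI : Fintype A := Fintype.ofFinite _
  rw [normHom_apply]
  have : ∀ α : A, (α : MulAut P) y = y := fun α => hy α α.2
  simp_rw [this]
  rw [Finset.prod_const, Finset.card_univ, Nat.card_eq_fintype_card]

theorem normHom_closure {P : Type*} [Group P] [IsMulCommutative P] [Finite P]
    (A : Subgroup (MulAut P)) (y : P)
    (hy : y ∈ Subgroup.closure {z : P | ∃ α ∈ A, ∃ x : P, z = x⁻¹ * α x}) :
    normHom A y = 1 := by
  have hle : Subgroup.closure {z : P | ∃ α ∈ A, ∃ x : P, z = x⁻¹ * α x} ≤ (normHom A).ker := by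
    rw [Subgroup.closure_le]
    rintro _ ⟨α, hα, x, rfl⟩
    show normHom A (x⁻¹ * α x) = 1
    rw [map_mul, map_inv, normHom_comp A α hα, inv_mul_cancel]
  exact hle hy

/-- `C_P(A) ∩ [P, A] = 1` for a coprime action on an abelian group -/
theorem coprime_abelian_fix_inter {P : Type*} [Group P] [IsMulCommutative P] [Finite P]
    (A : Subgroup (MulAut P)) (hcop : (Nat.card P).Coprime (Nat.card A)) (y : P)
    (hy : ∀ α ∈ A, α y = y)
    (hy' : y ∈ Subgroup.closure {z : P | ∃ α ∈ A, ∃ x : P, z = x⁻¹ * α x}) : y = 1 := by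
  have h1 := normHom_of_fixed A y hy
  rw [normHom_closure A y hy'] at h1
  apply (powCoprime hcop).injective
  show y ^ Nat.card A = 1 ^ Nat.card A
  rw [← h1, one_pow]

/-- `P = C_P(A) [P, A]` for a coprime action on an abelian group -/
theorem coprime_abelian_decomp {P : Type*} [Group P] [IsMulCommutative P] [Finite P]
    (A : Subgroup (MulAut P)) (hcop : (Nat.card P).Coprime (Nat.card A)) (x : P) :
    ∃ c f : P, (∀ α ∈ A, α c = c) ∧
      f ∈ Subgroup.closure {z : P | ∃ α ∈ A, ∃ x : P, z = x⁻¹ * α x} ∧ x = c * f := by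
  classical
  letI : Fintype A := Fintype.ofFinite _
  obtain ⟨y, hy⟩ : ∃ y : P, y ^ Nat.card A = x :=
    ⟨(powCoprime hcop).symm x, (powCoprime hcop).apply_symm_apply x⟩
  refine ⟨normHom A y, (normHom A y)⁻¹ * y ^ Nat.card A,
    fun α hα => normHom_fix A α hα y, ?_, ?_⟩
  · have e : (normHom A y)⁻¹ * y ^ Nat.card A = ∏ α : A, (y⁻¹ * (α : MulAut P) y)⁻¹ := by
      rw [normHom_apply, Finset.prod_inv_distrib, Finset.prod_mul_distrib, Finset.prod_inv_distrib,
        Finset.prod_const, Finset.card_univ, Nat.card_eq_fintype_card, mul_inv_rev, inv_inv]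
    rw [e]
    apply Subgroup.prod_mem
    intro α _
    exact Subgroup.inv_mem _ (Subgroup.subset_closure ⟨α, α.2, y, rfl⟩)
  · rw [hy, mul_inv_cancel_left]

end Cfsg.Agent.Lib.Helper1
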