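import Mathlib
import Cfsg.Prelude
import Cfsg.Agent.Lib.Helper1.PComp
import Cfsg.Agent.Lib.Helper1.PCore2
import Cfsg.Agent.Lib.Helper7.PCore

set_option autoImplicit false

namespace Cfsg.Agent.Lib.Helper1

open Cfsg Cfsg.Agent.Lib.Helper7

theorem normal_of_map_conj_le {X : Type*} [Group X] (H : Subgroup X)
    (h : ∀ g : X, H.map (MulAut.conj g).toMonoidHom ≤ H) : H.Normal :=
  ⟨fun n hn g => h g ⟨n, hn, rfl⟩⟩

theorem map_conj_le_of_normal {X : Type*} [Group X] (H : Subgroup X) [hH : H.Normal] (g : X) :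
    H.map (MulAut.conj g).toMonoidHom ≤ H := by
  rintro _ ⟨x, hx, rfl⟩
  exact hH.conj_mem x hx g

theorem pLayer_normal' (p : ℕ) (X : Type*) [Group X] : (Cfsg.pLayer p X).Normal := by
  apply normal_of_map_conj_le
  intro g
  rw [Subgroup.map_le_iff_le_comap]
  unfold Cfsg.pLayer
  apply sSup_le
  intro K hK
  rw [← Subgroup.map_le_iff_le_comap]
  exact le_sSup (IsPComponent.map_conj hK g)

theorem pPrimePCore_normal' (p : ℕ) (X : Type*) [Group X] : (Cfsg.pPrimePCore p X).Normal := by
  unfold Cfsg.pPrimePCore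
  haveI := pCore_normal p (X ⧸ Cfsg.pPrimeCore p X)
  exact Subgroup.Normal.comap inferInstance _

theorem centralizer_map_conj {X : Type*} [Group X] (B : Subgroup X) (g : X) :
    (Subgroup.centralizer (B : Set X)).map (MulAut.conj g).toMonoidHom =
      Subgroup.centralizer ((B.map (MulAut.conj g).toMonoidHom : Subgroup X) : Set X) := by
  ext y
  constructor
  · rintro ⟨c, hc, rfl⟩
    rw [Subgroup.mem_centralizer_iff]
    rintro _ ⟨b, hb, rfl⟩
    have h1 : b * c = c * b := Subgroup.mem_centralizer_iff.mp hc b hb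
    show g * b * g⁻¹ * (g * c * g⁻¹) = g * c * g⁻¹ * (g * b * g⁻¹)
    calc g * b * g⁻¹ * (g * c * g⁻¹) = g * (b * c) * g⁻¹ := by group
      _ = g * (c * b) * g⁻¹ := by rw [h1]
      _ = g * c * g⁻¹ * (g * b * g⁻¹) := by group
  · intro hy
    refine ⟨g⁻¹ * y * g, ?_, ?_⟩
    · show g⁻¹ * y * g ∈ Subgroup.centralizer (B : Set X)
      rw [Subgroup.mem_centralizer_iff]
      intro b hb
      have h1 : g * b * g⁻¹ * y = y * (g * b * g⁻¹) :=
        Subgroup.mem_centralizer_iff.mp hy (g * b * g⁻¹) ⟨b, hb, rfl⟩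
      calc b * (g⁻¹ * y * g) = g⁻¹ * (g * b * g⁻¹ * y) * g := by group
        _ = g⁻¹ * (y * (g * b * g⁻¹)) * g := by rw [h1]
        _ = g⁻¹ * y * g * b := by group
    · show g * (g⁻¹ * y * g) * g⁻¹ = y
      group

theorem pPrimeCore_subtype_map_conj (p : ℕ) {X : Type*} [Group X] (H H' : Subgroup X) (g : X)
    (h : H.map ((MulAut.conj g : X ≃* X) : X →* X) = H') :
    ((Cfsg.pPrimeCore p ↥H).map H.subtype).map (MulAut.conj g).toMonoidHom =
      (Cfsg.pPrimeCore p ↥H').map H'.subtype := by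
  subst h
  rw [← pPrimeCore_map_equiv p ((MulAut.conj g).subgroupMap H)]
  rw [Subgroup.map_map, Subgroup.map_map]
  rfl

/-- The core of the centralizer of `B`, viewed in `X`, is carried by conjugation to the core of the
centralizer of the conjugate. -/
theorem coreCentralizer_map_conj (p : ℕ) {X : Type*} [Group X] (B : Subgroup X) (g : X) :
    ((Cfsg.pPrimeCore p ↥(Subgroup.centralizer (B : Set X))).map
        (Subgroup.centralizer (B : Set X)).subtype).map (MulAut.conj g).toMonoidHom =
      (Cfsg.pPrimeCore p ↥(Subgroup.centralizer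
        ((B.map (MulAut.conj g).toMonoidHom : Subgroup X) : Set X))).map
        (Subgroup.centralizer ((B.map (MulAut.conj g).toMonoidHom : Subgroup X) : Set X)).subtype :=
  pPrimeCore_subtype_map_conj p _ _ g (centralizer_map_conj B g)

/-- Conjugating a Sylow subgroup of a normal subgroup. -/
theorem exists_sylow_conj_of_normal {p : ℕ} [Fact p.Prime] {X : Type*} [Group X] [Finite X]
    (N : Subgroup X) [hN : N.Normal] (T : Sylow p ↥N) (g : X) :
    ∃ T' : Sylow p ↥N, (T' : Subgroup ↥N).map N.subtype =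
      ((T : Subgroup ↥N).map N.subtype).map (MulAut.conj g).toMonoidHom := by
  have hs : Function.Surjective ((MulAut.conjNormal g : MulAut ↥N).toMonoidHom) :=
    (MulAut.conjNormal g : MulAut ↥N).surjective
  refine ⟨T.mapSurjective hs, ?_⟩
  rw [Sylow.coe_mapSurjective, Subgroup.map_map, Subgroup.map_map]
  rfl

end Cfsg.Agent.Lib.Helper1
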