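import Mathlib
import Cfsg.Prelude.Def_FusionSystem
import Cfsg.Agent.Lib.Helper1.FusAlp
import Cfsg.Agent.Lib.Helper1.FusHyp

/-! A relative form of Alperin's fusion theorem, for the maps of a saturated fusion system
between subgroups of a strongly closed subgroup. -/

set_option autoImplicit false

namespace Cfsg.Agent.Lib.Helper1

open Cfsg Cfsg.Agent.Lib.Helper8

variable {Ω : Type*} [Group Ω] {S : Subgroup Ω}

theorem fs_sc_fullyNormalized [Finite S] (F : FusionSystem S) (T : Subgroup Ω)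
    (hT : F.StronglyClosed T) : F.IsFullyNormalized T := by
  refine ⟨hT.1, fun Q hQ => ?_⟩
  have hc := fs_card_eq_of_isConj F hQ
  obtain ⟨χ, hχ, rfl⟩ := hQ
  have hle : χ.range ≤ T := by
    rintro _ ⟨x, rfl⟩; exact hT.2 T le_rfl χ hχ x
  haveI : Finite T := fs_finite_of_le hT.1
  have e : χ.range = T := Subgroup.eq_of_le_of_card_ge hle hc.ge
  rw [e]

theorem fs_alperin_rel [Finite S] (p : ℕ) [Fact p.Prime] (hS : IsPGroup p S)
    (F : FusionSystem S) (hF : F.IsSaturated p) (T : Subgroup Ω) (hT : F.StronglyClosed T)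
    (E : FusionSystem T)
    (hE : ∀ P : Subgroup Ω, P ≤ T → F.IsFullyNormalized P →
      (∀ R : Subgroup Ω, R ≤ T → Nat.card P < Nat.card R →
        ∀ φ : R →* Ω, φ ∈ F.Hom R → φ ∈ E.Hom R) → F.autGroup P ≤ E.autGroup P) :
    ∀ (P : Subgroup Ω) (φ : P →* Ω), P ≤ T → φ ∈ F.Hom P → φ ∈ E.Hom P := by
  have hTS := hT.1
  haveI : Finite T := fs_finite_of_le hTS
  have hTp : IsPGroup p T := hS.to_le hTS
  suffices h : ∀ d : ℕ, ∀ P : Subgroup Ω, P ≤ T → Nat.card T - Nat.card P = d →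
      ∀ φ : P →* Ω, φ ∈ F.Hom P → φ ∈ E.Hom P from
    fun P φ hPT hφ => h _ P hPT rfl φ hφ
  intro d
  induction d using Nat.strong_induction_on with
  | _ d ih =>
  intro P hPT hd φ hφ
  have hPS := hPT.trans hTS
  have ih' : ∀ P' : Subgroup Ω, P' ≤ T → Nat.card P < Nat.card P' →
      ∀ φ' : P' →* Ω, φ' ∈ F.Hom P' → φ' ∈ E.Hom P' := by
    intro P' hP' hc φ' hφ'
    have hle : Nat.card P' ≤ Nat.card T := Subgroup.card_le_of_le hP'
    exact ih (Nat.card T - Nat.card P') (by omega) P' hP' rfl φ' hφ'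
  have stepA : ∀ Pst : Subgroup Ω, Pst ≤ T → F.IsFullyNormalized Pst →
      Nat.card Pst = Nat.card P → ∀ β : Pst →* Ω, β ∈ F.Hom Pst → (∀ x, β x ∈ Pst) →
      β ∈ E.Hom Pst := by
    intro Pst hPstT hfn hc β hβ hβP
    have hA := hE Pst hPstT hfn
      (fun R hR hcR φ' hφ' => ih' R hR (by rw [← hc]; exact hcR) φ' hφ')
    obtain ⟨α, hα, hαβ⟩ := fs_aut_of_hom F (hPstT.trans hTS) hβ hβP
    have h1 := (fs_mem_autGroup_iff E hPstT α).mp (hA hα)
    have e : Pst.subtype.comp α.toMonoidHom = β := by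
      ext x; exact hαβ x
    rw [← e]; exact h1
  by_cases hPeq : P = T
  · exact stepA P hPT (hPeq ▸ fs_sc_fullyNormalized F T hT) rfl φ hφ
      (fun x => hPeq ▸ hT.2 P hPT φ hφ x)
  · have hlt : P < T := lt_of_le_of_ne hPT hPeq
    obtain ⟨Pst, hconj, hfn⟩ := fs_exists_fullyNormalized F hPS
    have hcPst : Nat.card Pst = Nat.card P := fs_card_eq_of_isConj F hconj
    have hPstS := hfn.1
    have hPstT : Pst ≤ T := by
      obtain ⟨χ, hχ, rfl⟩ := hconj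
      rintro _ ⟨x, rfl⟩; exact hT.2 P hPT χ hχ x
    have hfa := fs_fullyAutomized_of_fullyNormalized p hS F hF Pst hfn
    have hr := fs_receptive_of_fullyCentralized p hS F hF Pst
      (fs_fullyCentralized_of_fullyNormalized p hS F hF Pst hfn)
    obtain ⟨ψ₁, hψ₁, hψ₁N, hψ₁P⟩ := fs_normalizer_map p hS F Pst P hfa hr hconj
    have hQconj : F.IsConj φ.range Pst :=
      fs_isConj_trans F (fs_isConj_symm F ⟨φ, hφ, rfl⟩) hconj
    obtain ⟨ψ₂, hψ₂, hψ₂N, hψ₂Q⟩ := fs_normalizer_map p hS F Pst φ.range hfa hr hQconj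
    have hcQ : Nat.card φ.range = Nat.card P := fs_card_eq_of_isConj F ⟨φ, hφ, rfl⟩
    have hQS : φ.range ≤ S := fs_range_le F hφ
    have hQT : φ.range ≤ T := by
      rintro _ ⟨x, rfl⟩; exact hT.2 P hPT φ hφ x
    have hQlt : φ.range < T := by
      refine lt_of_le_of_ne hQT ?_
      intro e
      have h1 : Nat.card ↥φ.range = Nat.card ↥T :=
        congrArg (fun K : Subgroup Ω => Nat.card K) e
      have h2 := fs_card_lt_of_lt hTS hlt
      omega
    -- restrictions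
    have hPN : P ≤ FusionSystem.normalizerIn S P := fs_le_normalizerIn hPS
    have hQN : φ.range ≤ FusionSystem.normalizerIn S φ.range := fs_le_normalizerIn hQS
    have hρ₁F := fs_restrict F hPN hψ₁
    have hρ₂F := fs_restrict F hQN hψ₂
    have hρ₁E : ψ₁.comp (Subgroup.inclusion hPN) ∈ E.Hom P := by
      have hNle : FusionSystem.normalizerIn T P ≤ FusionSystem.normalizerIn S P :=
        inf_le_inf_right _ hTS
      have h1 := fs_restrict F hNle hψ₁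
      have h2 := ih' _ inf_le_left
        (fs_card_lt_of_lt (inf_le_left.trans hTS) (fs_lt_normalizerIn hTp hlt)) _ h1
      exact fs_restrict' E (fs_le_normalizerIn hPT) h2 _ (fun x => rfl)
    have hρ₂E : ψ₂.comp (Subgroup.inclusion hQN) ∈ E.Hom φ.range := by
      have hNle : FusionSystem.normalizerIn T φ.range ≤ FusionSystem.normalizerIn S φ.range :=
        inf_le_inf_right _ hTS
      have h1 := fs_restrict F hNle hψ₂
      have h2 := ih' _ inf_le_left (by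
        rw [← hcQ]
        exact fs_card_lt_of_lt (inf_le_left.trans hTS) (fs_lt_normalizerIn hTp hQlt)) _ h1
      exact fs_restrict' E (fs_le_normalizerIn hQT) h2 _ (fun x => rfl)
    set ρ₁ : P →* Ω := ψ₁.comp (Subgroup.inclusion hPN) with hρ₁def
    set ρ₂ : φ.range →* Ω := ψ₂.comp (Subgroup.inclusion hQN) with hρ₂def
    have hρ₁P : ∀ x : P, ρ₁ x ∈ Pst := fun x =>
      hψ₁P.le ⟨_, Subgroup.mem_subgroupOf.mpr x.2, rfl⟩
    have hρ₂P : ∀ y : φ.range, ρ₂ y ∈ Pst := fun y =>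
      hψ₂Q.le ⟨_, Subgroup.mem_subgroupOf.mpr y.2, rfl⟩
    have hρ₁r : ρ₁.range = Pst := by
      ext y
      constructor
      · rintro ⟨x, rfl⟩
        exact hρ₁P x
      · intro hy
        have hy' : y ∈ (P.subgroupOf (FusionSystem.normalizerIn S P)).map ψ₁ := by
          rw [hψ₁P]; exact hy
        obtain ⟨z, hz, rfl⟩ := hy'
        exact ⟨⟨z, Subgroup.mem_subgroupOf.mp hz⟩, rfl⟩
    have hρ₂r : ρ₂.range = Pst := by
      ext y
      constructor
      · rintro ⟨x, rfl⟩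
        exact hρ₂P x
      · intro hy
        have hy' : y ∈ (φ.range.subgroupOf (FusionSystem.normalizerIn S φ.range)).map ψ₂ := by
          rw [hψ₂Q]; exact hy
        obtain ⟨z, hz, rfl⟩ := hy'
        exact ⟨⟨z, Subgroup.mem_subgroupOf.mp hz⟩, rfl⟩
    obtain ⟨σ₁, hσ₁, hσ₁ρ, hσ₁r⟩ := fs_inv F hρ₁F hρ₁r
    obtain ⟨σ₂, hσ₂, hσ₂ρ, -⟩ := fs_inv E hρ₂E hρ₂r
    have hσ₁P : ∀ y : Pst, σ₁ y ∈ P := fun y => by rw [← hσ₁r]; exact ⟨y, rfl⟩
    have hφσ := F.comp_mem hσ₁ hφ hσ₁P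
    have hφσr : ∀ y : Pst, (φ.comp (σ₁.codRestrict P hσ₁P)) y ∈ φ.range := fun y => ⟨_, rfl⟩
    have hβF := F.comp_mem hφσ hρ₂F hφσr
    set β : Pst →* Ω := ρ₂.comp ((φ.comp (σ₁.codRestrict P hσ₁P)).codRestrict φ.range hφσr)
      with hβdef
    have hβP : ∀ y : Pst, β y ∈ Pst := fun y => hρ₂P _
    have hβE : β ∈ E.Hom Pst := stepA Pst hPstT hfn hcPst β hβF hβP
    have hχ₁ := E.comp_mem hρ₁E hβE hρ₁P
    have hχ₁P : ∀ x : P, (β.comp (ρ₁.codRestrict Pst hρ₁P)) x ∈ Pst := fun x => hβP _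
    refine fs_comp' E hχ₁ hσ₂ hχ₁P φ ?_
    intro x
    have h1 : σ₁ ⟨ρ₁ x, hρ₁P x⟩ = x := hσ₁ρ x (hρ₁P x)
    have h2 := hσ₂ρ ⟨φ x, ⟨x, rfl⟩⟩ (hρ₂P _)
    have h3 : (φ x : Ω) = ((⟨φ x, ⟨x, rfl⟩⟩ : φ.range) : Ω) := rfl
    rw [h3, ← h2]
    congr 1
    apply Subtype.ext
    show ρ₂ ⟨φ x, _⟩ = ρ₂ ⟨φ ⟨σ₁ ⟨ρ₁ x, hρ₁P x⟩, _⟩, _⟩
    congr 2
    congr 1
    exact Subtype.ext h1.symm

end Cfsg.Agent.Lib.Helper1
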