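import Mathlib
import Cfsg.Agent.Lib.Helper2.PGroup
import Cfsg.Agent.Lib.Helper1.FusCoprime

/-! Complements to `FusCoprime`: the subgroup generated by commutators and `p`-th powers, and the
exponent of a `p`-group `R = [R, β]` on whose Frattini subgroup `β` acts trivially. -/

set_option autoImplicit false

namespace Cfsg.Agent.Lib.Helper1

open scoped commutatorElement

/-- the subgroup of `R` generated by the commutators and the `p`-th powers -/
def cop_phi {Γ : Type*} [Group Γ] (p : ℕ) (R : Subgroup Γ) : Subgroup Γ :=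
  Subgroup.closure ({c | ∃ a ∈ R, ∃ b ∈ R, c = b⁻¹ * a⁻¹ * b * a} ∪ {c | ∃ a ∈ R, c = a ^ p})

theorem cop_phi_le {Γ : Type*} [Group Γ] (p : ℕ) (R : Subgroup Γ) : cop_phi p R ≤ R := by
  unfold cop_phi
  rw [Subgroup.closure_le]
  rintro c (⟨a, ha, b, hb, rfl⟩ | ⟨a, ha, rfl⟩)
  · exact R.mul_mem (R.mul_mem (R.mul_mem (R.inv_mem hb) (R.inv_mem ha)) hb) ha
  · exact R.pow_mem ha p

theorem cop_phi_comm {Γ : Type*} [Group Γ] (p : ℕ) (R : Subgroup Γ) {a b : Γ} (ha : a ∈ R)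
    (hb : b ∈ R) : b⁻¹ * a⁻¹ * b * a ∈ cop_phi p R :=
  Subgroup.subset_closure (Or.inl ⟨a, ha, b, hb, rfl⟩)

theorem cop_phi_pow {Γ : Type*} [Group Γ] (p : ℕ) (R : Subgroup Γ) {a : Γ} (ha : a ∈ R) :
    a ^ p ∈ cop_phi p R :=
  Subgroup.subset_closure (Or.inr ⟨a, ha, rfl⟩)

theorem cop_phi_hom {Γ : Type*} [Group Γ] (p : ℕ) (R : Subgroup Γ) (f : Γ →* Γ)
    (hf : ∀ g ∈ R, f g ∈ R) : ∀ z ∈ cop_phi p R, f z ∈ cop_phi p R := by
  intro z hz
  have hle : cop_phi p R ≤ (cop_phi p R).comap f := by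
    conv_lhs => unfold cop_phi
    rw [Subgroup.closure_le]
    rintro c (⟨a, ha, b, hb, rfl⟩ | ⟨a, ha, rfl⟩)
    · simp only [SetLike.mem_coe, Subgroup.mem_comap, map_mul, map_inv]
      exact cop_phi_comm p R (hf a ha) (hf b hb)
    · simp only [SetLike.mem_coe, Subgroup.mem_comap, map_pow]
      exact cop_phi_pow p R (hf a ha)
  exact hle hz

theorem cop_phi_ne {Γ : Type*} [Group Γ] (p : ℕ) [Fact p.Prime] (R : Subgroup Γ) [Finite R]
    (hR : IsPGroup p R) (hbot : R ≠ ⊥) : cop_phi p R ≠ R := by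
  intro hEq
  have hfr : cop_phi p R ≤ (frattini ↥R).map R.subtype := by
    unfold cop_phi
    rw [Subgroup.closure_le]
    rintro c (⟨a, ha, b, hb, rfl⟩ | ⟨a, ha, rfl⟩)
    · refine ⟨⁅(⟨b, hb⟩ : ↥R)⁻¹, (⟨a, ha⟩ : ↥R)⁻¹⁆, ?_, ?_⟩
      · apply Helper2.commutator_le_frattini_of_pGroup hR
        rw [commutator_def]
        exact Subgroup.commutator_mem_commutator (Subgroup.mem_top _) (Subgroup.mem_top _)
      · simp [commutatorElement_def]
    · exact ⟨(⟨a, ha⟩ : ↥R) ^ p, Helper2.pow_mem_frattini_of_pGroup hR _, by simp⟩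
  have htop : frattini ↥R = ⊤ := by
    rw [eq_top_iff]
    intro z _
    have hzR : (z : Γ) ∈ cop_phi p R := by rw [hEq]; exact z.2
    have hz : (z : Γ) ∈ (frattini ↥R).map R.subtype := hfr hzR
    obtain ⟨w, hw, hwz⟩ := hz
    have hwz' : w = z := Subtype.ext hwz
    exact hwz' ▸ hw
  have h1 : (⊥ : Subgroup ↥R) = ⊤ := frattini_nongenerating (by rw [htop]; simp)
  apply hbot
  rw [eq_bot_iff]
  intro g hg
  have h2 : (⟨g, hg⟩ : R) ∈ (⊥ : Subgroup ↥R) := h1 ▸ Subgroup.mem_top _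
  rw [Subgroup.mem_bot] at h2
  rw [Subgroup.mem_bot]
  exact congrArg Subtype.val h2

/-- if `β` fixes `cop_phi p R` pointwise and `R` is generated by the elements `g⁻¹ β(g)`, then
`R` has exponent dividing `p` (dividing `4` when `p = 2`) -/
theorem cop_exp {Γ : Type*} [Group Γ] (p : ℕ) [Fact p.Prime] (β : MulAut Γ) (R : Subgroup Γ)
    (hinv : ∀ g ∈ R, β g ∈ R) (hΦfix : ∀ z ∈ cop_phi p R, β z = z)
    (hD : Subgroup.closure {y | ∃ g ∈ R, y = g⁻¹ * β g} = R) :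
    ∀ g ∈ R, g ^ (if p = 2 then 4 else p) = 1 := by
  have hp : p.Prime := Fact.out
  obtain ⟨e, he⟩ : ∃ e : ℕ, e = (if p = 2 then 4 else p) := ⟨_, rfl⟩
  rw [← he]
  have hpe : ∃ e', e = p * e' := by
    by_cases h2 : p = 2
    · exact ⟨2, by rw [he, if_pos h2, h2]⟩
    · exact ⟨1, by rw [he, if_neg h2, mul_one]⟩
  have hTe : ∃ t, e * (e - 1) / 2 = p * t := by
    by_cases h2 : p = 2
    · exact ⟨3, by rw [he, if_pos h2, h2]⟩
    · rw [he, if_neg h2]
      obtain ⟨k, hk⟩ := hp.odd_of_ne_two h2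
      refine ⟨k, ?_⟩
      have h1 : p * (p - 1) = 2 * (p * k) := by
        rw [show p - 1 = 2 * k by omega]; ring
      rw [h1, Nat.mul_div_cancel_left _ (by norm_num : 0 < 2)]
  have hΦconj : ∀ g ∈ R, ∀ z ∈ cop_phi p R, g * z * g⁻¹ ∈ cop_phi p R := fun g hg z hz =>
    cop_phi_hom p R (MulAut.conj g).toMonoidHom
      (fun r hr => R.mul_mem (R.mul_mem hg hr) (R.inv_mem hg)) z hz
  have hcent : ∀ z ∈ cop_phi p R, ∀ r ∈ R, r * z = z * r := by
    intro z hz r hr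
    rw [← hD] at hr
    refine Subgroup.closure_induction (p := fun r _ => r * z = z * r) ?_ ?_ ?_ ?_ hr
    · rintro y ⟨g, hg, rfl⟩
      have h1 : β (g * z * g⁻¹) = g * z * g⁻¹ := hΦfix _ (hΦconj g hg z hz)
      rw [map_mul, map_mul, map_inv, hΦfix z hz] at h1
      calc g⁻¹ * β g * z = g⁻¹ * (β g * z * (β g)⁻¹) * β g := by group
        _ = g⁻¹ * (g * z * g⁻¹) * β g := by rw [h1]
        _ = z * (g⁻¹ * β g) := by group
    · simp
    · intro x y _ _ hx hy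
      rw [mul_assoc, hy, ← mul_assoc, hx, mul_assoc]
    · intro x _ hx
      calc x⁻¹ * z = x⁻¹ * (z * x) * x⁻¹ := by group
        _ = x⁻¹ * (x * z) * x⁻¹ := by rw [hx]
        _ = z * x⁻¹ := by group
  have hmul : ∀ a ∈ R, ∀ b ∈ R, (a * b) ^ e = a ^ e * b ^ e := by
    intro a ha b hb
    obtain ⟨c, hc⟩ : ∃ c : Γ, c = b⁻¹ * a⁻¹ * b * a := ⟨_, rfl⟩
    have hcΦ : c ∈ cop_phi p R := by
      rw [hc]; exact cop_phi_comm p R ha hb
    have h1 : b * a = a * b * c := by rw [hc]; group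
    have h2 : c * a = a * c := (hcent c hcΦ a ha).symm
    have h3 : c * b = b * c := (hcent c hcΦ b hb).symm
    have hbp : b ^ p ∈ cop_phi p R := cop_phi_pow p R hb
    have h4 := (cop_class2 a b c h1 h2 h3 p).1
    have h5 : a * b ^ p = b ^ p * a := hcent _ hbp a ha
    have hcp : c ^ p = 1 := by
      rw [← h5] at h4
      exact mul_eq_left.mp h4.symm
    obtain ⟨t, ht⟩ := hTe
    rw [(cop_class2 a b c h1 h2 h3 e).2, ht, pow_mul, hcp, one_pow, mul_one]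
  have hgen : ∀ g ∈ R, (g⁻¹ * β g) ^ e = 1 := by
    intro g hg
    obtain ⟨e', he'⟩ := hpe
    have hge : g ^ e ∈ cop_phi p R := by
      have hgp : g ^ p ∈ cop_phi p R := cop_phi_pow p R hg
      rw [he', pow_mul]
      exact (cop_phi p R).pow_mem hgp _
    rw [hmul _ (R.inv_mem hg) _ (hinv g hg), ← map_pow, hΦfix _ hge, inv_pow, inv_mul_cancel]
  intro g hg
  have hg' := hg
  rw [← hD] at hg'
  have key : ∀ x ∈ Subgroup.closure {y | ∃ g ∈ R, y = g⁻¹ * β g}, x ∈ R ∧ x ^ e = 1 := by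
    intro x hx
    refine Subgroup.closure_induction (p := fun r _ => r ∈ R ∧ r ^ e = 1) ?_ ?_ ?_ ?_ hx
    · rintro y ⟨g, hg, rfl⟩
      exact ⟨R.mul_mem (R.inv_mem hg) (hinv g hg), hgen g hg⟩
    · exact ⟨R.one_mem, one_pow _⟩
    · intro x y _ _ hx hy
      refine ⟨R.mul_mem hx.1 hy.1, ?_⟩
      rw [hmul x hx.1 y hy.1, hx.2, hy.2, one_mul]
    · intro x _ hx
      refine ⟨R.inv_mem hx.1, ?_⟩
      rw [inv_pow, hx.2, inv_one]
  exact (key g hg').2

end Cfsg.Agent.Lib.Helper1
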