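import Mathlib
import Cfsg.Agent.Lib.Helper1.FusCoprime
import Cfsg.Agent.Lib.Helper1.FusCoprime2

/-! A characteristic subgroup of small exponent of a finite `p`-group on which every nontrivial
automorphism of order prime to `p` acts nontrivially (after Thompson's critical subgroups). -/

set_option autoImplicit false

namespace Cfsg.Agent.Lib.Helper1

/-- a nontrivial normal subgroup of a finite `p`-group contains a central element of order `p` -/
theorem crit_normal_center {G : Type*} [Group G] [Finite G] (p : ℕ) [Fact p.Prime]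
    (hG : IsPGroup p G) (N : Subgroup G) [hNn : N.Normal] (hN : N ≠ ⊥) :
    ∃ x ∈ N, x ≠ 1 ∧ x ^ p = 1 ∧ ∀ y : G, x * y = y * x := by
  classical
  haveI : Group.IsNilpotent G := hG.isNilpotent
  obtain ⟨c, hc⟩ := Group.IsNilpotent.nilpotent G
  obtain ⟨⟨x₀, hx₀N⟩, hx₀⟩ := (Subgroup.ne_bot_iff_exists_ne_one).mp hN
  have hx₀1 : x₀ ≠ 1 := fun h => hx₀ (Subtype.ext h)
  have hex : ∃ i : ℕ, ∃ x ∈ N, x ≠ 1 ∧ x ∈ Subgroup.upperCentralSeries G i :=
    ⟨c, x₀, hx₀N, hx₀1, by rw [hc]; exact Subgroup.mem_top _⟩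
  obtain ⟨x, hxN, hx1, hxi⟩ := Nat.find_spec hex
  have hmin := fun j (hj : j < Nat.find hex) => Nat.find_min hex hj
  have hcent : ∀ y : G, x * y = y * x := by
    intro y
    rcases Nat.eq_zero_or_pos (Nat.find hex) with h0 | hpos
    · rw [h0, Subgroup.upperCentralSeries_zero, Subgroup.mem_bot] at hxi
      exact absurd hxi hx1
    · obtain ⟨j, hj⟩ : ∃ j, Nat.find hex = j + 1 := ⟨Nat.find hex - 1, by omega⟩
      rw [hj] at hxi
      have h1 := Subgroup.mem_upperCentralSeries_succ_iff.mp hxi y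
      have h2 : x * y * x⁻¹ * y⁻¹ ∈ N := by
        have h3 : y * x⁻¹ * y⁻¹ ∈ N := hNn.conj_mem _ (N.inv_mem hxN) y
        have e : x * y * x⁻¹ * y⁻¹ = x * (y * x⁻¹ * y⁻¹) := by group
        rw [e]; exact N.mul_mem hxN h3
      by_contra hne
      have h4 : x * y * x⁻¹ * y⁻¹ ≠ 1 := by
        intro h5
        apply hne
        calc x * y = (x * y * x⁻¹ * y⁻¹) * (y * x) := by group
          _ = y * x := by rw [h5, one_mul]
      exact hmin j (by omega) ⟨_, h2, h4, h1⟩
  -- pass to a power of order `p`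
  have hexk : ∃ k : ℕ, x ^ (p ^ k) = 1 := hG x
  have hk0 : Nat.find hexk ≠ 0 := by
    intro h0
    have h1 := Nat.find_spec hexk
    rw [h0, pow_zero, pow_one] at h1
    exact hx1 h1
  obtain ⟨k, hk⟩ : ∃ k, Nat.find hexk = k + 1 := ⟨Nat.find hexk - 1, by omega⟩
  refine ⟨x ^ (p ^ k), N.pow_mem hxN _, ?_, ?_, ?_⟩
  · exact Nat.find_min hexk (by omega : k < Nat.find hexk)
  · rw [← pow_mul, ← pow_succ, ← hk]
    exact Nat.find_spec hexk
  · intro y
    have hc : Commute x y := hcent y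
    exact (hc.pow_left (p ^ k)).eq

theorem crit_exists {P : Type*} [Group P] [Finite P] (p : ℕ) [Fact p.Prime] (hP : IsPGroup p P) :
    ∃ U : Subgroup P, U.Characteristic ∧ (∀ x ∈ U, x ^ (if p = 2 then 4 else p) = 1) ∧
      ∀ (β : MulAut P) (m : ℕ), Nat.Coprime m p → β ^ m = 1 → (∀ x ∈ U, β x = x) → β = 1 := by
  classical
  have hp : p.Prime := Fact.out
  have hchar : ∀ K : Subgroup P, K.Characteristic → ∀ φ : P ≃* P, ∀ x ∈ K, φ x ∈ K :=
    fun K hK φ x hx => (Subgroup.characteristic_iff_le_comap.mp hK φ) hx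
  -- a maximal characteristic abelian subgroup
  obtain ⟨M, ⟨hMchar, hMab⟩, hMmax⟩ := Set.Finite.exists_maximalFor
    (fun M : Subgroup P => Nat.card M)
    {M : Subgroup P | M.Characteristic ∧ ∀ a ∈ M, ∀ b ∈ M, a * b = b * a} (Set.toFinite _)
    ⟨⊥, Subgroup.botCharacteristic, by
      intro a ha b hb
      rw [Subgroup.mem_bot] at ha hb
      rw [ha, hb]⟩
  haveI := hMchar
  have hMmax' : ∀ M' : Subgroup P, M'.Characteristic → (∀ a ∈ M', ∀ b ∈ M', a * b = b * a) →
      M ≤ M' → M' = M := by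
    intro M' h1 h2 hle
    have hc := hMmax ⟨h1, h2⟩ (Subgroup.card_le_of_le hle)
    exact (Subgroup.eq_of_le_of_card_ge hle hc).symm
  obtain ⟨H, hHdef⟩ : ∃ H : Subgroup P, H = Subgroup.centralizer (M : Set P) := ⟨_, rfl⟩
  have hHchar : H.Characteristic := by rw [hHdef]; infer_instance
  have hHmem : ∀ x, x ∈ H ↔ ∀ a ∈ M, a * x = x * a := by
    intro x; rw [hHdef, Subgroup.mem_centralizer_iff]; rfl
  have hMH : M ≤ H := fun a ha => (hHmem a).mpr (fun b hb => hMab b hb a ha)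
  -- the subgroup `C`
  obtain ⟨C, hCdef⟩ : ∃ C : Subgroup P, C = H ⊓ Subgroup.comap (QuotientGroup.mk' M)
      { carrier := {z : P ⧸ M | (∀ w, w * z = z * w) ∧ z ^ p = 1}
        one_mem' := ⟨fun w => by rw [mul_one, one_mul], one_pow _⟩
        mul_mem' := by
          rintro a b ⟨ha1, ha2⟩ ⟨hb1, hb2⟩
          refine ⟨fun w => ?_, ?_⟩
          · rw [← mul_assoc, ha1 w, mul_assoc, hb1 w, mul_assoc]
          · have hc : Commute a b := (ha1 b).symm
            rw [hc.mul_pow, ha2, hb2, one_mul]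
        inv_mem' := by
          rintro a ⟨ha1, ha2⟩
          refine ⟨fun w => ?_, ?_⟩
          · have h1 := ha1 w
            calc w * a⁻¹ = a⁻¹ * (a * w) * a⁻¹ := by group
              _ = a⁻¹ * (w * a) * a⁻¹ := by rw [h1]
              _ = a⁻¹ * w := by group
          · rw [inv_pow, ha2, inv_one] } := ⟨_, rfl⟩
  have hCmem : ∀ x, x ∈ C ↔ (x ∈ H ∧ (∀ y : P, x * y * x⁻¹ * y⁻¹ ∈ M) ∧ x ^ p ∈ M) := by
    intro x
    rw [hCdef, Subgroup.mem_inf, Subgroup.mem_comap]
    constructor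
    · rintro ⟨h1, h2, h3⟩
      refine ⟨h1, fun y => ?_, ?_⟩
      · have h4 := h2 (QuotientGroup.mk' M y)
        rw [← QuotientGroup.eq_one_iff]
        have e : ((x * y * x⁻¹ * y⁻¹ : P) : P ⧸ M) =
            (QuotientGroup.mk' M x) * (QuotientGroup.mk' M y) * (QuotientGroup.mk' M x)⁻¹ *
              (QuotientGroup.mk' M y)⁻¹ := rfl
        rw [e, ← h4]
        group
      · rw [← QuotientGroup.eq_one_iff]
        exact h3
    · rintro ⟨h1, h2, h3⟩
      refine ⟨h1, fun w => ?_, ?_⟩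
      · obtain ⟨y, rfl⟩ := QuotientGroup.mk_surjective w
        have h4 := (QuotientGroup.eq_one_iff _).mpr (h2 y)
        have e : ((x * y * x⁻¹ * y⁻¹ : P) : P ⧸ M) =
            (QuotientGroup.mk' M x) * (y : P ⧸ M) * (QuotientGroup.mk' M x)⁻¹ *
              (y : P ⧸ M)⁻¹ := rfl
        rw [e] at h4
        calc (y : P ⧸ M) * QuotientGroup.mk' M x
            = ((QuotientGroup.mk' M x) * (y : P ⧸ M) * (QuotientGroup.mk' M x)⁻¹ *
              (y : P ⧸ M)⁻¹)⁻¹ * (QuotientGroup.mk' M x * (y : P ⧸ M)) := by group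
          _ = QuotientGroup.mk' M x * (y : P ⧸ M) := by rw [h4, inv_one, one_mul]
      · exact (QuotientGroup.eq_one_iff _).mpr h3
  have hMC : M ≤ C := by
    intro x hx
    rw [hCmem]
    refine ⟨hMH hx, fun y => ?_, M.pow_mem hx p⟩
    have h3 : y * x⁻¹ * y⁻¹ ∈ M :=
      (Subgroup.normal_of_characteristic M).conj_mem _ (M.inv_mem hx) y
    have e : x * y * x⁻¹ * y⁻¹ = x * (y * x⁻¹ * y⁻¹) := by group
    rw [e]; exact M.mul_mem hx h3
  have hCchar : C.Characteristic := by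
    rw [Subgroup.characteristic_iff_le_comap]
    intro φ x hx
    rw [hCmem] at hx
    obtain ⟨h1, h2, h3⟩ := hx
    show φ x ∈ C
    rw [hCmem]
    refine ⟨hchar H hHchar φ x h1, fun y => ?_, ?_⟩
    · have h4 := hchar M hMchar φ _ (h2 (φ.symm y))
      rw [map_mul, map_mul, map_mul, map_inv, map_inv, MulEquiv.apply_symm_apply] at h4
      exact h4
    · rw [← map_pow]; exact hchar M hMchar φ _ h3
  haveI := hCchar
  -- the centre of `C` is `M`
  have hZ : ∀ z ∈ C, (∀ x ∈ C, x * z = z * x) → z ∈ M := by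
    intro z hzC hz
    have hchar' : (C ⊓ Subgroup.centralizer (C : Set P)).Characteristic := inferInstance
    have hab : ∀ a ∈ C ⊓ Subgroup.centralizer (C : Set P),
        ∀ b ∈ C ⊓ Subgroup.centralizer (C : Set P), a * b = b * a := by
      intro a ha b hb
      exact Subgroup.mem_centralizer_iff.mp (Subgroup.mem_inf.mp hb).2 a (Subgroup.mem_inf.mp ha).1
    have hle : M ≤ C ⊓ Subgroup.centralizer (C : Set P) := by
      intro a ha
      refine Subgroup.mem_inf.mpr ⟨hMC ha, Subgroup.mem_centralizer_iff.mpr (fun h hh => ?_)⟩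
      exact ((hHmem h).mp ((hCmem h).mp hh).1 a ha).symm
    have heq := hMmax' _ hchar' hab hle
    rw [← heq]
    exact Subgroup.mem_inf.mpr ⟨hzC, Subgroup.mem_centralizer_iff.mpr hz⟩
  -- `C` is self-centralizing
  have hself : ∀ q : P, (∀ x ∈ C, x * q = q * x) → q ∈ C := by
    intro q hq
    by_contra hqC
    obtain ⟨Q, hQdef⟩ : ∃ Q : Subgroup P, Q = Subgroup.centralizer (C : Set P) := ⟨_, rfl⟩
    have hQn : Q.Normal := by rw [hQdef]; infer_instance
    have hQmem : ∀ x, x ∈ Q ↔ ∀ a ∈ C, a * x = x * a := by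
      intro x; rw [hQdef, Subgroup.mem_centralizer_iff]; rfl
    haveI : (Q.map (QuotientGroup.mk' M)).Normal :=
      hQn.map (QuotientGroup.mk' M) (QuotientGroup.mk'_surjective M)
    have hne : Q.map (QuotientGroup.mk' M) ≠ ⊥ := by
      intro hbot
      have h1 : QuotientGroup.mk' M q ∈ Q.map (QuotientGroup.mk' M) :=
        ⟨q, (hQmem q).mpr hq, rfl⟩
      rw [hbot, Subgroup.mem_bot] at h1
      exact hqC (hMC ((QuotientGroup.eq_one_iff q).mp h1))
    obtain ⟨z, ⟨x, hxQ, rfl⟩, hz1, hzp, hzc⟩ :=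
      crit_normal_center p (hP.to_quotient M) (Q.map (QuotientGroup.mk' M)) hne
    have hxC : x ∈ C := by
      rw [hCmem]
      refine ⟨?_, fun y => ?_, ?_⟩
      · rw [hHmem]
        intro a ha
        exact (hQmem x).mp hxQ a (hMC ha)
      · rw [← QuotientGroup.eq_one_iff]
        have e : ((x * y * x⁻¹ * y⁻¹ : P) : P ⧸ M) =
            (QuotientGroup.mk' M x) * (QuotientGroup.mk' M y) * (QuotientGroup.mk' M x)⁻¹ *
              (QuotientGroup.mk' M y)⁻¹ := rfl
        rw [e, hzc (QuotientGroup.mk' M y)]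
        group
      · rw [← QuotientGroup.eq_one_iff]
        exact hzp
    have hxM : x ∈ M := hZ x hxC (fun a ha => (hQmem x).mp hxQ a ha)
    exact hz1 ((QuotientGroup.eq_one_iff x).mpr hxM)
  -- the power map on `C`
  obtain ⟨e, he⟩ : ∃ e : ℕ, e = (if p = 2 then 4 else p) := ⟨_, rfl⟩
  rw [← he]
  have hTe : ∃ t, e * (e - 1) / 2 = p * t := by
    by_cases h2 : p = 2
    · exact ⟨3, by rw [he, if_pos h2, h2]⟩
    · rw [he, if_neg h2]
      obtain ⟨k, hk⟩ := hp.odd_of_ne_two h2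
      refine ⟨k, ?_⟩
      have h1 : p * (p - 1) = 2 * (p * k) := by
        rw [show p - 1 = 2 * k by omega]; ring
      rw [h1, Nat.mul_div_cancel_left _ (by norm_num : 0 < 2)]
  have hcentM : ∀ z ∈ M, ∀ r ∈ C, r * z = z * r := by
    intro z hz r hr
    exact ((hHmem r).mp ((hCmem r).mp hr).1 z hz).symm
  have hmul : ∀ a ∈ C, ∀ b ∈ C, (a * b) ^ e = a ^ e * b ^ e := by
    intro a ha b hb
    obtain ⟨c, hc⟩ : ∃ c : P, c = b⁻¹ * a⁻¹ * b * a := ⟨_, rfl⟩
    have hcM : c ∈ M := by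
      have h1 := ((hCmem _).mp (C.inv_mem hb)).2.1 a⁻¹
      rw [inv_inv, inv_inv] at h1
      rw [hc]; exact h1
    have h1 : b * a = a * b * c := by rw [hc]; group
    have h2 : c * a = a * c := (hcentM c hcM a ha).symm
    have h3 : c * b = b * c := (hcentM c hcM b hb).symm
    have hbp : b ^ p ∈ M := ((hCmem b).mp hb).2.2
    have h4 := (cop_class2 a b c h1 h2 h3 p).1
    have h5 : a * b ^ p = b ^ p * a := hcentM _ hbp a ha
    have hcp : c ^ p = 1 := by
      rw [← h5] at h4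
      exact mul_eq_left.mp h4.symm
    obtain ⟨t, ht⟩ := hTe
    rw [(cop_class2 a b c h1 h2 h3 e).2, ht, pow_mul, hcp, one_pow, mul_one]
  obtain ⟨U, hUdef⟩ : ∃ U : Subgroup P, U = Subgroup.closure {x : P | x ∈ C ∧ x ^ e = 1} :=
    ⟨_, rfl⟩
  have hUmem : ∀ x ∈ U, x ∈ C ∧ x ^ e = 1 := by
    intro x hx
    rw [hUdef] at hx
    refine Subgroup.closure_induction (p := fun r _ => r ∈ C ∧ r ^ e = 1) ?_ ?_ ?_ ?_ hx
    · intro y hy; exact hy
    · exact ⟨C.one_mem, one_pow _⟩
    · intro x y _ _ hx hy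
      refine ⟨C.mul_mem hx.1 hy.1, ?_⟩
      rw [hmul x hx.1 y hy.1, hx.2, hy.2, one_mul]
    · intro x _ hx
      refine ⟨C.inv_mem hx.1, ?_⟩
      rw [inv_pow, hx.2, inv_one]
  refine ⟨U, ?_, fun x hx => (hUmem x hx).2, ?_⟩
  · rw [Subgroup.characteristic_iff_le_comap]
    intro φ
    conv_lhs => rw [hUdef]
    rw [Subgroup.closure_le]
    rintro x ⟨hxC, hxe⟩
    show φ x ∈ U
    rw [hUdef]
    apply Subgroup.subset_closure
    refine ⟨hchar C hCchar φ x hxC, ?_⟩
    rw [← map_pow, hxe, map_one]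
  · intro β m hm hβ hfix
    have hβC : ∀ g ∈ C, β g ∈ C := fun g hg => hchar C hCchar β g hg
    have hCfix : ∀ g ∈ C, β g = g := by
      apply cop_fix' p β m hm hβ C (hP.to_subgroup C) hβC
      intro g hg hcond
      apply hfix
      rw [hUdef]
      apply Subgroup.subset_closure
      refine ⟨hg, ?_⟩
      rw [he]
      rcases hcond with h | ⟨h2, h⟩
      · by_cases h2 : p = 2
        · rw [if_pos h2]
          rw [h2] at h
          rw [show 4 = 2 * 2 by norm_num, pow_mul, h, one_pow]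
        · rw [if_neg h2]; exact h
      · rw [if_pos h2]; exact h
    apply MulEquiv.ext
    intro x
    obtain ⟨k, hk⟩ := hP (x⁻¹ * β x)
    apply cop_fix_of_comm p β m hm hβ x k hk
    apply hCfix
    apply hself
    intro z hz
    have h1 : β (x * z * x⁻¹) = x * z * x⁻¹ :=
      hCfix _ ((Subgroup.normal_of_characteristic C).conj_mem z hz x)
    rw [map_mul, map_mul, map_inv, hCfix z hz] at h1
    calc z * (x⁻¹ * β x) = x⁻¹ * (x * z * x⁻¹) * β x := by group
      _ = x⁻¹ * (β x * z * (β x)⁻¹) * β x := by rw [h1]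
      _ = x⁻¹ * β x * z := by group

end Cfsg.Agent.Lib.Helper1
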