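import Mathlib
import Cfsg.Prelude.Def_FusionSystem
import Cfsg.Agent.Lib.Helper1.FusCentric

/-! Saturation criterion: Sylow condition for `S` and receptivity of fully normalized subgroups. -/

set_option autoImplicit false

namespace Cfsg.Agent.Lib.Helper1

open Cfsg Cfsg.Agent.Lib.Helper8 Cfsg.Agent.Lib.Helper7

variable {Ω : Type*} [Group Ω] {S : Subgroup Ω}

/-- a `p`-element of `Aut_F(P)` becomes conjugation by an element of `S` after moving `P` onto a
fully automized conjugate -/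
theorem fs_pelement_conj [Finite S] (p : ℕ) [Fact p.Prime] (F : FusionSystem S) (P : Subgroup Ω)
    (hPS : P ≤ S) (χ : P →* Ω) (hχ : χ ∈ F.Hom P) (hP'a : F.IsFullyAutomized p χ.range)
    (θ : MulAut P) (hθ : θ ∈ F.autGroup P) (k : ℕ) (hk : θ ^ (p ^ k) = 1) :
    ∃ χ₂ : P →* Ω, χ₂ ∈ F.Hom P ∧ χ₂.range = χ.range ∧ ∃ n ∈ S,
      n ∈ Subgroup.normalizer (χ.range : Set Ω) ∧ ∀ g : P, χ₂ (θ g) = n * χ₂ g * n⁻¹ := by
  have hinj := F.injective_of_mem hχ
  have hP'S : χ.range ≤ S := hP'a.1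
  haveI : Finite P := fs_finite_of_le hPS
  haveI : Finite χ.range := fs_finite_of_le hP'S
  have hθ' : MulAut.congr (MonoidHom.ofInjective hinj) θ ∈ F.autGroup χ.range :=
    fs_autGroup_congr F hPS hP'S χ hχ (MonoidHom.ofInjective hinj) (fun x => rfl) θ hθ
  obtain ⟨-, R, hR⟩ := hP'a
  have htk : (⟨MulAut.congr (MonoidHom.ofInjective hinj) θ, hθ'⟩ : ↥(F.autGroup χ.range)) ^ (p ^ k)
      = 1 := by
    apply Subtype.ext
    show (MulAut.congr (MonoidHom.ofInjective hinj) θ) ^ (p ^ k) = 1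
    rw [← map_pow, hk, map_one]
  have hzp := Cfsg.Agent.Lib.Helper2.isPGroup_zpowers_of_pow_eq_one' htk
  obtain ⟨R', hR'⟩ := hzp.exists_le_sylow
  obtain ⟨u, hu⟩ := MulAction.exists_smul_eq ↥(F.autGroup χ.range) R' R
  have h1 : u * ⟨MulAut.congr (MonoidHom.ofInjective hinj) θ, hθ'⟩ * u⁻¹ ∈
      (R : Subgroup ↥(F.autGroup χ.range)) := by
    rw [← hu]
    exact Cfsg.Agent.Lib.Helper2.conj_mem_sylow_smul R' u _ (hR' (Subgroup.mem_zpowers _))
  rw [hR, Subgroup.mem_subgroupOf, Cfsg.Agent.S5076.autInducedBy_eq_map] at h1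
  obtain ⟨n, hn, hnt⟩ := h1
  have hnS : (n : Ω) ∈ S := Subgroup.mem_subgroupOf.mp hn
  have huF : χ.range.subtype.comp (u : MulAut χ.range).toMonoidHom ∈ F.Hom χ.range :=
    (fs_mem_autGroup_iff F hP'S _).mp u.2
  have hχ₂ : (χ.range.subtype.comp (u : MulAut χ.range).toMonoidHom).comp
      (MonoidHom.ofInjective hinj).toMonoidHom ∈ F.Hom P :=
    fs_comp' F hχ huF (fun x => ⟨x, rfl⟩) _ (fun x => rfl)
  refine ⟨_, hχ₂, ?_, (n : Ω), hnS, n.2, ?_⟩
  · ext y
    constructor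
    · rintro ⟨x, rfl⟩
      exact ((u : MulAut χ.range) (MonoidHom.ofInjective hinj x)).2
    · intro hy
      refine ⟨(MonoidHom.ofInjective hinj).symm ((u : MulAut χ.range)⁻¹ ⟨y, hy⟩), ?_⟩
      show (((u : MulAut χ.range) (MonoidHom.ofInjective hinj
        ((MonoidHom.ofInjective hinj).symm ((u : MulAut χ.range)⁻¹ ⟨y, hy⟩))) : χ.range) : Ω) = y
      rw [MulEquiv.apply_symm_apply, MulAut.apply_inv_self]
  · intro g
    have h3 : (((u * ⟨MulAut.congr (MonoidHom.ofInjective hinj) θ, hθ'⟩ * u⁻¹ :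
        ↥(F.autGroup χ.range)) : MulAut χ.range)
        ((u : MulAut χ.range) (MonoidHom.ofInjective hinj g))) =
        (u : MulAut χ.range) (MonoidHom.ofInjective hinj (θ g)) := by
      show (u : MulAut χ.range) ((MulAut.congr (MonoidHom.ofInjective hinj) θ)
        ((u : MulAut χ.range)⁻¹ ((u : MulAut χ.range) (MonoidHom.ofInjective hinj g)))) = _
      rw [MulAut.inv_apply_self]
      show (u : MulAut χ.range) ((MonoidHom.ofInjective hinj) (θ
        ((MonoidHom.ofInjective hinj).symm (MonoidHom.ofInjective hinj g)))) = _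
      rw [MulEquiv.symm_apply_apply]
    rw [← hnt] at h3
    show (((u : MulAut χ.range) (MonoidHom.ofInjective hinj (θ g)) : χ.range) : Ω) = _
    rw [← h3]
    rfl

/-- an automorphism of `Q` in the system normalizing `Aut_S(Q)` extends, when `Q` is receptive,
to an automorphism of `N_S(Q)` in the system -/
theorem fs_extend_normalizing [Finite S] (F : FusionSystem S) (Q : Subgroup Ω)
    (hQr : F.IsReceptive Q) (α : MulAut Q) (hα : α ∈ F.autGroup Q)
    (hnorm : ∀ g ∈ S, ∀ hg : g ∈ Subgroup.normalizer (Q : Set Ω), ∃ h ∈ S,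
      ∀ x : Q, ((α (Q.normalizerMonoidHom ⟨g, hg⟩ x) : Q) : Ω) = h * ((α x : Q) : Ω) * h⁻¹) :
    ∃ β : MulAut ↥(FusionSystem.normalizerIn S Q), β ∈ F.autGroup (FusionSystem.normalizerIn S Q) ∧
      ∀ (x : Q) (hx : (x : Ω) ∈ FusionSystem.normalizerIn S Q),
        ((β ⟨x, hx⟩ : ↥(FusionSystem.normalizerIn S Q)) : Ω) = ((α x : Q) : Ω) := by
  have hQS := hQr.1
  haveI : Finite Q := fs_finite_of_le hQS
  have hNS : FusionSystem.normalizerIn S Q ≤ S := inf_le_left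
  haveI : Finite ↥(FusionSystem.normalizerIn S Q) := fs_finite_of_le hNS
  have hQN : Q ≤ FusionSystem.normalizerIn S Q := fs_le_normalizerIn hQS
  have hαF : Q.subtype.comp α.toMonoidHom ∈ F.Hom Q := (fs_mem_autGroup_iff F hQS α).mp hα
  have hr : (Q.subtype.comp α.toMonoidHom).range = Q := by
    ext y
    constructor
    · rintro ⟨x, rfl⟩
      exact (α x).2
    · intro hy
      exact ⟨α.symm ⟨y, hy⟩, by simp⟩
  obtain ⟨ψ, hψ, hψφ⟩ := hQr.2 Q _ hαF hr
  have hNle : FusionSystem.normalizerIn S Q ≤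
      FusionSystem.extender S Q (Q.subtype.comp α.toMonoidHom) := by
    intro g hg
    obtain ⟨hgS, hgN⟩ := Subgroup.mem_inf.mp hg
    obtain ⟨h, hhS, hh⟩ := hnorm g hgS hgN
    exact Subgroup.subset_closure ⟨hgS, hgN, h, hhS, fun x hx => hh x⟩
  have hψ' : ψ.comp (Subgroup.inclusion hNle) ∈ F.Hom (FusionSystem.normalizerIn S Q) :=
    fs_restrict F hNle hψ
  have hagree : ∀ (x : Q) (hx : (x : Ω) ∈ FusionSystem.normalizerIn S Q),
      (ψ.comp (Subgroup.inclusion hNle)) ⟨x, hx⟩ = ((α x : Q) : Ω) := fun x hx =>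
    hψφ x x.2 (hNle hx)
  have hmapN : ∀ g : ↥(FusionSystem.normalizerIn S Q),
      (ψ.comp (Subgroup.inclusion hNle)) g ∈ FusionSystem.normalizerIn S Q := by
    intro g
    refine Subgroup.mem_inf.mpr ⟨(F.le_of_mem hψ').2 g, ?_⟩
    apply Cfsg.Agent.Lib.Helper6.sy_mem_normalizer_of_conj_le Q
    intro y hy
    have hgN : (g : Ω) ∈ Subgroup.normalizer (Q : Set Ω) := (Subgroup.mem_inf.mp g.2).2
    have hconj : (g : Ω) * ((α⁻¹ ⟨y, hy⟩ : Q) : Ω) * (g : Ω)⁻¹ ∈ Q :=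
      (Subgroup.mem_normalizer_iff.mp hgN _).mp (α⁻¹ ⟨y, hy⟩).2
    have e1 : y = (ψ.comp (Subgroup.inclusion hNle)) ⟨(α⁻¹ ⟨y, hy⟩ : Q), hQN (α⁻¹ ⟨y, hy⟩).2⟩ := by
      rw [hagree]; simp
    have e2 : (ψ.comp (Subgroup.inclusion hNle)) g * y * ((ψ.comp (Subgroup.inclusion hNle)) g)⁻¹ =
        (ψ.comp (Subgroup.inclusion hNle)) ⟨(g : Ω) * ((α⁻¹ ⟨y, hy⟩ : Q) : Ω) * (g : Ω)⁻¹,
          hQN hconj⟩ := by
      conv_lhs => rw [e1]
      rw [← map_inv, ← map_mul, ← map_mul]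
      rfl
    rw [e2, hagree ⟨_, hconj⟩ (hQN hconj)]
    exact (α _).2
  have hinj : Function.Injective ((ψ.comp (Subgroup.inclusion hNle)).codRestrict
      (FusionSystem.normalizerIn S Q) hmapN) := by
    intro a b hab
    exact F.injective_of_mem hψ' (congrArg Subtype.val hab)
  have hbij : Function.Bijective ((ψ.comp (Subgroup.inclusion hNle)).codRestrict
      (FusionSystem.normalizerIn S Q) hmapN) := ⟨hinj, Finite.injective_iff_surjective.mp hinj⟩
  refine ⟨MulEquiv.ofBijective _ hbij, ?_, fun x hx => hagree x hx⟩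
  rw [fs_mem_autGroup_iff F hNS]
  exact fs_mem_of_eq F rfl _ _ hψ' (fun x hx hx' => rfl)

/-- if `S` is fully automized and fully normalized subgroups are receptive, then fully normalized
subgroups are fully automized -/
theorem fs_fullyAutomized_of_receptive [Finite S] (p : ℕ) [Fact p.Prime] (hS : IsPGroup p S)
    (F : FusionSystem S) (h1 : F.IsFullyAutomized p S)
    (h2 : ∀ P : Subgroup Ω, F.IsFullyNormalized P → F.IsReceptive P) :
    ∀ d : ℕ, ∀ Q : Subgroup Ω, F.IsFullyNormalized Q → Nat.card S - Nat.card Q = d →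
      F.IsFullyAutomized p Q := by
  have hp : p.Prime := Fact.out
  intro d
  induction d using Nat.strong_induction_on with
  | _ d ih =>
  intro Q hQfn hd
  have hQS := hQfn.1
  by_cases hQeq : Q = S
  · rw [hQeq]; exact h1
  have hQlt : Q < S := lt_of_le_of_ne hQS hQeq
  haveI : Finite Q := fs_finite_of_le hQS
  haveI : Finite ↥(F.autGroup Q) := inferInstance
  have hNS : FusionSystem.normalizerIn S Q ≤ S := inf_le_left
  haveI : Finite ↥(FusionSystem.normalizerIn S Q) := fs_finite_of_le hNS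
  have hQN : Q ≤ FusionSystem.normalizerIn S Q := fs_le_normalizerIn hQS
  refine ⟨hQS, ?_⟩
  have hUp : IsPGroup p ↥((autInducedBy S Q).subgroupOf (F.autGroup Q)) := by
    apply IsPGroup.comap_subtype
    rw [Cfsg.Agent.S5076.autInducedBy_eq_map]
    exact (hS.comap_subtype).map _
  obtain ⟨R, hR⟩ := hUp.exists_le_sylow
  refine ⟨R, ?_⟩
  by_contra hne
  have hne' : (autInducedBy S Q).subgroupOf (F.autGroup Q) ≠ (R : Subgroup ↥(F.autGroup Q)) :=
    fun e => hne e.symm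
  obtain ⟨a, haR, haN, haU⟩ := fs_normalizer_growth R.isPGroup' hR hne'
  -- extension of `a` to the normalizer
  have hnorm : ∀ g ∈ S, ∀ hg : g ∈ Subgroup.normalizer (Q : Set Ω), ∃ h ∈ S,
      ∀ x : Q, (((a : MulAut Q) (Q.normalizerMonoidHom ⟨g, hg⟩ x) : Q) : Ω) =
        h * (((a : MulAut Q) x : Q) : Ω) * h⁻¹ := by
    intro g hgS hgN
    have hu : (⟨Q.normalizerMonoidHom ⟨g, hgN⟩, fs_nmh_mem_autGroup F hQS ⟨g, hgN⟩ hgS⟩ :
        ↥(F.autGroup Q)) ∈ (autInducedBy S Q).subgroupOf (F.autGroup Q) := by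
      rw [Subgroup.mem_subgroupOf]
      exact Subgroup.subset_closure ⟨g, hgS, fun x => rfl⟩
    have h3 := (Subgroup.mem_normalizer_iff.mp haN _).mp hu
    rw [Subgroup.mem_subgroupOf, Cfsg.Agent.S5076.autInducedBy_eq_map] at h3
    obtain ⟨n, hn, hnt⟩ := h3
    refine ⟨(n : Ω), Subgroup.mem_subgroupOf.mp hn, fun x => ?_⟩
    have h4 : (Q.normalizerMonoidHom n) ((a : MulAut Q) x) =
        (a : MulAut Q) (Q.normalizerMonoidHom ⟨g, hgN⟩ x) := by
      rw [hnt]
      show (a : MulAut Q) (Q.normalizerMonoidHom ⟨g, hgN⟩ ((a : MulAut Q)⁻¹ ((a : MulAut Q) x))) = _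
      rw [MulAut.inv_apply_self]
    rw [← h4]
    rfl
  obtain ⟨β, hβ, hβα⟩ := fs_extend_normalizing F Q (h2 Q hQfn) (a : MulAut Q) a.2 hnorm
  -- powers of `β` restrict to powers of `a`
  have hpow : ∀ i : ℕ, ∀ x : Q, (((β ^ i) ⟨x, hQN x.2⟩ : ↥(FusionSystem.normalizerIn S Q)) : Ω) =
      ((((a : MulAut Q) ^ i) x : Q) : Ω) := by
    intro i
    induction i with
    | zero => intro x; rfl
    | succ i ih =>
      intro x
      rw [pow_succ, MulAut.mul_apply, pow_succ, MulAut.mul_apply, ← ih]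
      congr 2
      exact Subtype.ext (hβα x (hQN x.2))
  obtain ⟨j, m, hm, ho⟩ := Nat.exists_eq_pow_mul_and_not_dvd (orderOf_pos β).ne' p hp.ne_one
  have hβm : (β ^ m) ^ (p ^ j) = 1 := by
    rw [← pow_mul, mul_comm, ← ho, pow_orderOf_eq_one]
  -- a fully normalized conjugate of the normalizer
  obtain ⟨N', ⟨χ, hχ, rfl⟩, hN'fn⟩ := fs_exists_fullyNormalized F hNS
  have hcardN' : Nat.card χ.range = Nat.card ↥(FusionSystem.normalizerIn S Q) :=
    fs_card_eq_of_isConj F ⟨χ, hχ, rfl⟩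
  have hNlt := fs_lt_normalizerIn hS hQlt
  have hcard1 := fs_card_lt_of_lt hNS hNlt
  have hcard2 := Subgroup.card_le_of_le hNS
  have hN'a : F.IsFullyAutomized p χ.range :=
    ih (Nat.card S - Nat.card χ.range) (by omega) χ.range hN'fn rfl
  obtain ⟨χ₂, hχ₂, hχ₂r, s, hsS, hsN, hkey⟩ := fs_pelement_conj p F _ hNS χ hχ hN'a (β ^ m)
    (pow_mem hβ m) j hβm
  have hχ₂inj := F.injective_of_mem hχ₂
  have hχ₂S : ∀ g, χ₂ g ∈ S := (F.le_of_mem hχ₂).2
  -- the image `Q'` of `Q`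
  have hβQ : ∀ x ∈ Q.subgroupOf (FusionSystem.normalizerIn S Q),
      (β ^ m) x ∈ Q.subgroupOf (FusionSystem.normalizerIn S Q) := by
    intro x hx
    rw [Subgroup.mem_subgroupOf] at hx ⊢
    have := hpow m ⟨x, hx⟩
    rw [this]
    exact (((a : MulAut Q) ^ m) ⟨x, hx⟩).2
  have hQ'S : (Q.subgroupOf (FusionSystem.normalizerIn S Q)).map χ₂ ≤ S := by
    rintro _ ⟨x, -, rfl⟩
    exact hχ₂S x
  haveI : Finite ↥((Q.subgroupOf (FusionSystem.normalizerIn S Q)).map χ₂) := fs_finite_of_le hQ'S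
  have hsQ' : s ∈ Subgroup.normalizer
      (((Q.subgroupOf (FusionSystem.normalizerIn S Q)).map χ₂ : Subgroup Ω) : Set Ω) := by
    apply Cfsg.Agent.Lib.Helper6.sy_mem_normalizer_of_conj_le
    rintro _ ⟨x, hx, rfl⟩
    rw [← hkey x]
    exact ⟨_, hβQ x hx, rfl⟩
  have hN'le : χ.range ≤ FusionSystem.normalizerIn S
      ((Q.subgroupOf (FusionSystem.normalizerIn S Q)).map χ₂) := by
    rw [← hχ₂r]
    rintro _ ⟨g, rfl⟩
    refine Subgroup.mem_inf.mpr ⟨hχ₂S g, ?_⟩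
    apply Cfsg.Agent.Lib.Helper6.sy_mem_normalizer_of_conj_le
    rintro _ ⟨x, hx, rfl⟩
    refine ⟨g * x * g⁻¹, ?_, by rw [map_mul, map_mul, map_inv]⟩
    have hx' : (x : Ω) ∈ Q := Subgroup.mem_subgroupOf.mp hx
    exact Subgroup.mem_subgroupOf.mpr
      ((Subgroup.mem_normalizer_iff.mp (Subgroup.mem_inf.mp g.2).2 _).mp hx')
  have hcard3 := hQfn.2 _ (fs_isConj_map F hQN hχ₂)
  have heq : χ.range = FusionSystem.normalizerIn S
      ((Q.subgroupOf (FusionSystem.normalizerIn S Q)).map χ₂) := by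
    haveI : Finite ↥(FusionSystem.normalizerIn S
        ((Q.subgroupOf (FusionSystem.normalizerIn S Q)).map χ₂)) := fs_finite_of_le inf_le_left
    exact Subgroup.eq_of_le_of_card_ge hN'le (by rw [hcardN']; exact hcard3)
  have hsr : s ∈ χ₂.range := by
    rw [hχ₂r, heq]
    exact Subgroup.mem_inf.mpr ⟨hsS, hsQ'⟩
  obtain ⟨g₀, hg₀⟩ := hsr
  have hβc : ∀ g : ↥(FusionSystem.normalizerIn S Q), (β ^ m) g = g₀ * g * g₀⁻¹ := by
    intro g
    apply hχ₂inj
    rw [hkey g, map_mul, map_mul, map_inv, hg₀]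
  -- conclusion: `a ^ m`, hence `a`, is induced by an element of `S`
  have ham : ((a ^ m : ↥(F.autGroup Q)) : MulAut Q) ∈ autInducedBy S Q := by
    apply Subgroup.subset_closure
    refine ⟨(g₀ : Ω), hNS g₀.2, fun x => ?_⟩
    have h5 := hpow m x
    rw [hβc ⟨x, hQN x.2⟩] at h5
    show ((((a : MulAut Q) ^ m) x : Q) : Ω) = _
    rw [← h5]
    rfl
  obtain ⟨k, hk⟩ := R.isPGroup' ⟨a, haR⟩
  have hk' : a ^ (p ^ k) = 1 := congrArg Subtype.val hk
  have hcop : m.Coprime (orderOf a) := by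
    apply Nat.Coprime.coprime_dvd_right (orderOf_dvd_of_pow_eq_one hk')
    exact (Nat.Coprime.pow_left k ((Nat.Prime.coprime_iff_not_dvd hp).mpr hm)).symm
  obtain ⟨m', hm'⟩ := exists_pow_eq_self_of_coprime hcop
  apply haU
  rw [← hm']
  exact Subgroup.pow_mem _ (Subgroup.mem_subgroupOf.mpr ham) m'

end Cfsg.Agent.Lib.Helper1
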