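import Mathlib
import Cfsg.Prelude.Def_FusionSystem
import Cfsg.Agent.Lib.Helper1.FusSatCrit
import Cfsg.Agent.Lib.Helper1.FusCent3
import Cfsg.Agent.Lib.Helper1.FusMorph
import Cfsg.Agent.Lib.Helper1.FusQuot
import Cfsg.Agent.Lib.Helper6.FixedPts

/-! Helpers for normalizer and centralizer subsystems: maps on a join `P ⊔ Q`. -/

set_option autoImplicit false

namespace Cfsg.Agent.Lib.Helper1

open Cfsg Cfsg.FusionSystem

variable {Ω : Type*} [Group Ω] {S : Subgroup Ω}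

/-- a subgroup of `P ⊔ Q` containing `P` and `Q` is everything -/
theorem nc_sup_induction {P Q : Subgroup Ω} (K : Subgroup ↥(P ⊔ Q))
    (hP : ∀ x : P, Subgroup.inclusion le_sup_left x ∈ K)
    (hQ : ∀ x : Q, Subgroup.inclusion le_sup_right x ∈ K) (z : ↥(P ⊔ Q)) : z ∈ K := by
  have h : (⊤ : Subgroup ↥(P ⊔ Q)) ≤ K := by
    rw [← Subgroup.subgroupOf_self (P ⊔ Q),
      Subgroup.subgroupOf_sup (le_sup_left : P ≤ P ⊔ Q) (le_sup_right : Q ≤ P ⊔ Q)]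
    apply sup_le
    · intro x hx
      exact hP ⟨x, Subgroup.mem_subgroupOf.mp hx⟩
    · intro x hx
      exact hQ ⟨x, Subgroup.mem_subgroupOf.mp hx⟩
  exact h (Subgroup.mem_top z)

/-- two homomorphisms on `P ⊔ Q` agreeing on `P` and on `Q` are equal -/
theorem nc_hom_eq_on_sup {Ω' : Type*} [Group Ω'] {P Q : Subgroup Ω} (A B : ↥(P ⊔ Q) →* Ω')
    (hP : ∀ x : P, A (Subgroup.inclusion le_sup_left x) = B (Subgroup.inclusion le_sup_left x))
    (hQ : ∀ x : Q, A (Subgroup.inclusion le_sup_right x) = B (Subgroup.inclusion le_sup_right x)) :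
    A = B :=
  MonoidHom.ext (fun z => nc_sup_induction (MonoidHom.eqLocus A B) hP hQ z)

/-- a map on `P ⊔ Q` sending `P` into `P'` and `Q` into `Q'` has values in `P' ⊔ Q'` -/
theorem nc_map_sup_mem {Ω' : Type*} [Group Ω'] {P Q : Subgroup Ω} {P' Q' : Subgroup Ω'}
    (ψ : ↥(P ⊔ Q) →* Ω')
    (hP : ∀ x : P, ψ (Subgroup.inclusion le_sup_left x) ∈ P')
    (hQ : ∀ x : Q, ψ (Subgroup.inclusion le_sup_right x) ∈ Q') (z : ↥(P ⊔ Q)) : ψ z ∈ P' ⊔ Q' :=
  nc_sup_induction ((P' ⊔ Q').comap ψ) (fun x => Subgroup.mem_sup_left (hP x))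
    (fun x => Subgroup.mem_sup_right (hQ x)) z

/-- elements normalizing `P` and `Q` normalize `P ⊔ Q` -/
theorem nc_normalizer_sup {P Q : Subgroup Ω} {g : Ω} (hP : g ∈ Subgroup.normalizer (P : Set Ω))
    (hQ : g ∈ Subgroup.normalizer (Q : Set Ω)) :
    g ∈ Subgroup.normalizer ((P ⊔ Q : Subgroup Ω) : Set Ω) := by
  have key : ∀ g : Ω, g ∈ Subgroup.normalizer (P : Set Ω) → g ∈ Subgroup.normalizer (Q : Set Ω) →
      ∀ h ∈ P ⊔ Q, g * h * g⁻¹ ∈ P ⊔ Q := by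
    intro g hP hQ h hh
    have hle : P ⊔ Q ≤ (P ⊔ Q).comap (MulAut.conj g).toMonoidHom := by
      apply sup_le
      · intro x hx
        exact Subgroup.mem_sup_left ((Subgroup.mem_normalizer_iff.mp hP x).mp hx)
      · intro x hx
        exact Subgroup.mem_sup_right ((Subgroup.mem_normalizer_iff.mp hQ x).mp hx)
    exact hle hh
  rw [Subgroup.mem_normalizer_iff]
  intro h
  constructor
  · exact key g hP hQ h
  · intro hh
    have := key g⁻¹ (Subgroup.inv_mem _ hP) (Subgroup.inv_mem _ hQ) _ hh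
    have e : g⁻¹ * (g * h * g⁻¹) * g⁻¹⁻¹ = h := by group
    rwa [e] at this

/-- an extension to `P ⊔ Q` mapping `P` and `Q` into themselves is an automorphism of `P ⊔ Q`
in the system -/
theorem nc_aut_of_ext [Finite S] (F : FusionSystem S) {P Q : Subgroup Ω}
    (ψ : ↥(P ⊔ Q) →* Ω) (hψ : ψ ∈ F.Hom (P ⊔ Q))
    (hP : ∀ x : P, ψ (Subgroup.inclusion le_sup_left x) ∈ P)
    (hQ : ∀ x : Q, ψ (Subgroup.inclusion le_sup_right x) ∈ Q) :
    ∃ θ : MulAut ↥(P ⊔ Q), θ ∈ F.autGroup (P ⊔ Q) ∧ ∀ z, ((θ z : ↥(P ⊔ Q)) : Ω) = ψ z := by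
  have hRS : P ⊔ Q ≤ S := (F.le_of_mem hψ).1
  haveI : Finite ↥(P ⊔ Q) := fs_finite_of_le hRS
  have hmem : ∀ z, ψ z ∈ P ⊔ Q := nc_map_sup_mem ψ hP hQ
  let f : ↥(P ⊔ Q) →* ↥(P ⊔ Q) := ψ.codRestrict (P ⊔ Q) hmem
  have hinj : Function.Injective f := by
    intro a b hab
    exact F.injective_of_mem hψ (congrArg Subtype.val hab)
  let θ : MulAut ↥(P ⊔ Q) :=
    MulEquiv.ofBijective f ⟨hinj, Finite.injective_iff_surjective.mp hinj⟩
  refine ⟨θ, ?_, fun z => rfl⟩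
  rw [fs_mem_autGroup_iff F hRS]
  have e : (P ⊔ Q).subtype.comp θ.toMonoidHom = ψ := MonoidHom.ext (fun z => rfl)
  rw [e]; exact hψ

end Cfsg.Agent.Lib.Helper1
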