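import Mathlib
import Cfsg.Prelude.Def_FusionSystem
import Cfsg.Agent.Lib.Helper1.FusNC

/-! The normalizer subsystem `N_F(Q)` of a saturated system: transport and saturation lemmas. -/

set_option autoImplicit false

namespace Cfsg.Agent.Lib.Helper1

open Cfsg Cfsg.FusionSystem

variable {Ω : Type*} [Group Ω] {S : Subgroup Ω}

/-- an extension carrying `Q` onto `Q` maps `Q` into `Q` -/
theorem nrm_mem_of_map_eq {P Q : Subgroup Ω} (ψ : ↥(P ⊔ Q) →* Ω)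
    (h : (Q.subgroupOf (P ⊔ Q)).map ψ = Q) (q : Q) :
    ψ (Subgroup.inclusion le_sup_right q) ∈ Q :=
  h.le ⟨_, Subgroup.mem_subgroupOf.mpr q.2, rfl⟩

/-- an injective map of `P ⊔ Q` sending the finite `Q` into itself is onto `Q` -/
theorem nrm_surj_on {P Q : Subgroup Ω} [Finite Q] (ψ : ↥(P ⊔ Q) →* Ω)
    (hinj : Function.Injective ψ)
    (h : ∀ q : Q, ψ (Subgroup.inclusion le_sup_right q) ∈ Q) (q : Ω) (hq : q ∈ Q) :
    ∃ q₀ : Q, ψ (Subgroup.inclusion le_sup_right q₀) = q := by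
  have hi : Function.Injective (fun q₀ : Q => (⟨ψ (Subgroup.inclusion le_sup_right q₀), h q₀⟩ : Q)) := by
    intro a b hab
    have h1 := hinj (congrArg Subtype.val hab)
    exact Subtype.ext (congrArg (fun z : ↥(P ⊔ Q) => (z : Ω)) h1)
  obtain ⟨q₀, hq₀⟩ := (Finite.injective_iff_surjective.mp hi) ⟨q, hq⟩
  exact ⟨q₀, congrArg Subtype.val hq₀⟩

theorem nrm_map_eq_of_mem {P Q : Subgroup Ω} [Finite Q] (ψ : ↥(P ⊔ Q) →* Ω)
    (hinj : Function.Injective ψ)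
    (h : ∀ q : Q, ψ (Subgroup.inclusion le_sup_right q) ∈ Q) :
    (Q.subgroupOf (P ⊔ Q)).map ψ = Q := by
  apply le_antisymm
  · rintro _ ⟨z, hz, rfl⟩
    exact h ⟨z, Subgroup.mem_subgroupOf.mp hz⟩
  · intro q hq
    obtain ⟨q₀, hq₀⟩ := nrm_surj_on ψ hinj h q hq
    exact ⟨_, Subgroup.mem_subgroupOf.mpr q₀.2, hq₀⟩

/-- a map of `F` on `P ⊔ Q` preserving `Q` restricts to a map of the normalizer system on `P` -/
theorem nrm_hom_of_ext [Finite S] (F : FusionSystem S) (Q : Subgroup Ω) (hQS : Q ≤ S)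
    (E : FusionSystem (normalizerIn S Q)) (hE : F.IsNormalizerSystem Q E) (P : Subgroup Ω)
    (hPN : P ≤ normalizerIn S Q) (ζ : ↥(P ⊔ Q) →* Ω) (hζ : ζ ∈ F.Hom (P ⊔ Q))
    (hζQ : ∀ q : Q, ζ (Subgroup.inclusion le_sup_right q) ∈ Q) :
    ζ.comp (Subgroup.inclusion le_sup_left) ∈ E.Hom P := by
  haveI : Finite Q := fs_finite_of_le hQS
  have hinj := F.injective_of_mem hζ
  rw [hE]
  refine ⟨fs_restrict F le_sup_left hζ, hPN, fun x => ?_, ζ, hζ, fun x => rfl,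
    nrm_map_eq_of_mem ζ hinj hζQ⟩
  refine Subgroup.mem_inf.mpr ⟨(F.le_of_mem hζ).2 _, ?_⟩
  apply Cfsg.Agent.Lib.Helper6.sy_mem_normalizer_of_conj_le
  intro q hq
  obtain ⟨q₀, hq₀⟩ := nrm_surj_on ζ hinj hζQ q hq
  have hxN : (x : Ω) ∈ Subgroup.normalizer (Q : Set Ω) := (Subgroup.mem_inf.mp (hPN x.2)).2
  have hq' : (x : Ω) * q₀ * (x : Ω)⁻¹ ∈ Q := (Subgroup.mem_normalizer_iff.mp hxN _).mp q₀.2
  have e : Subgroup.inclusion (le_sup_left : P ≤ P ⊔ Q) x * Subgroup.inclusion le_sup_right q₀ *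
      (Subgroup.inclusion (le_sup_left : P ≤ P ⊔ Q) x)⁻¹ =
      Subgroup.inclusion le_sup_right (⟨(x : Ω) * q₀ * (x : Ω)⁻¹, hq'⟩ : Q) := Subtype.ext rfl
  have h2 := congrArg ζ e
  rw [map_mul, map_mul, map_inv, hq₀] at h2
  show ζ (Subgroup.inclusion le_sup_left x) * q * (ζ (Subgroup.inclusion le_sup_left x))⁻¹ ∈ Q
  rw [h2]
  exact hζQ _

/-- transport: an `F`-map `ζ` of `P ⊔ Q` can be followed by a map into `N_S(Q)`, producing a
conjugate `P'` of `P` in the normalizer system with `|N_S(ζP) ∩ N_S(ζQ)| ≤ |N_{N_S(Q)}(P')|` -/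
theorem nrm_transport [Finite S] (p : ℕ) [Fact p.Prime] (hS : IsPGroup p S)
    (F : FusionSystem S) (hF : F.IsSaturated p) (Q : Subgroup Ω) (hQ : F.IsFullyNormalized Q)
    (E : FusionSystem (normalizerIn S Q)) (hE : F.IsNormalizerSystem Q E) (P : Subgroup Ω)
    (hPN : P ≤ normalizerIn S Q) (ζ : ↥(P ⊔ Q) →* Ω) (hζ : ζ ∈ F.Hom (P ⊔ Q)) :
    ∃ P' : Subgroup Ω, E.IsConj P P' ∧
      Nat.card (normalizerIn (normalizerIn S (ζ.comp (Subgroup.inclusion le_sup_right)).range)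
        (ζ.comp (Subgroup.inclusion le_sup_left)).range) ≤
      Nat.card (normalizerIn (normalizerIn S Q) P') := by
  have hQS : Q ≤ S := hQ.1
  haveI : Finite Q := fs_finite_of_le hQS
  have hQa := fs_fullyAutomized_of_fullyNormalized p hS F hF Q hQ
  have hQr := fs_receptive_of_fullyCentralized p hS F hF Q
    (fs_fullyCentralized_of_fullyNormalized p hS F hF Q hQ)
  have hinj := F.injective_of_mem hζ
  let ζQ : Q →* Ω := ζ.comp (Subgroup.inclusion (le_sup_right : Q ≤ P ⊔ Q))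
  let ζP : P →* Ω := ζ.comp (Subgroup.inclusion (le_sup_left : P ≤ P ⊔ Q))
  have hζQ : ζQ ∈ F.Hom Q := fs_restrict F le_sup_right hζ
  have hζP : ζP ∈ F.Hom P := fs_restrict F le_sup_left hζ
  have hQ₁S : ζQ.range ≤ S := fs_range_le F hζQ
  have hconj₁ : F.IsConj ζQ.range Q := fs_isConj_symm F ⟨_, hζQ, rfl⟩
  obtain ⟨ψ, hψ, hψN, hψQ⟩ := fs_normalizer_map p hS F Q _ hQa hQr hconj₁
  have hψinj := F.injective_of_mem hψ
  haveI : Finite ζQ.range := fs_finite_of_le hQ₁S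
  have hζN₁ : ∀ z : ↥(P ⊔ Q), ζ z ∈ normalizerIn S ζQ.range := by
    intro z
    refine nc_sup_induction ((normalizerIn S ζQ.range).comap ζ) (fun x => ?_) (fun q => ?_) z
    · rw [Subgroup.mem_comap]
      refine Subgroup.mem_inf.mpr ⟨(F.le_of_mem hζ).2 _, ?_⟩
      apply Cfsg.Agent.Lib.Helper6.sy_mem_normalizer_of_conj_le
      rintro _ ⟨q, rfl⟩
      have hxN : (x : Ω) ∈ Subgroup.normalizer (Q : Set Ω) := (Subgroup.mem_inf.mp (hPN x.2)).2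
      have hq' : (x : Ω) * q * (x : Ω)⁻¹ ∈ Q := (Subgroup.mem_normalizer_iff.mp hxN _).mp q.2
      have e : Subgroup.inclusion (le_sup_left : P ≤ P ⊔ Q) x * Subgroup.inclusion le_sup_right q *
          (Subgroup.inclusion (le_sup_left : P ≤ P ⊔ Q) x)⁻¹ =
          Subgroup.inclusion le_sup_right (⟨(x : Ω) * q * (x : Ω)⁻¹, hq'⟩ : Q) := Subtype.ext rfl
      have h2 := congrArg ζ e
      rw [map_mul, map_mul, map_inv] at h2
      exact ⟨⟨_, hq'⟩, h2.symm⟩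
    · rw [Subgroup.mem_comap]
      exact fs_le_normalizerIn hQ₁S ⟨q, rfl⟩
  let ζ' : ↥(P ⊔ Q) →* Ω := ψ.comp (ζ.codRestrict _ hζN₁)
  have hζ' : ζ' ∈ F.Hom (P ⊔ Q) := F.comp_mem hζ hψ hζN₁
  have hζ'Q : ∀ q : Q, ζ' (Subgroup.inclusion le_sup_right q) ∈ Q := by
    intro q
    exact hψQ.le ⟨⟨ζ (Subgroup.inclusion le_sup_right q), hζN₁ _⟩,
      Subgroup.mem_subgroupOf.mpr ⟨q, rfl⟩, rfl⟩
  have hθE := nrm_hom_of_ext F Q hQS E hE P hPN ζ' hζ' hζ'Q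
  let θ' : P →* Ω := ζ'.comp (Subgroup.inclusion (le_sup_left : P ≤ P ⊔ Q))
  refine ⟨θ'.range, ⟨_, hθE, rfl⟩, ?_⟩
  have hP'S : θ'.range ≤ S := fs_range_le F (fs_restrict F le_sup_left hζ')
  haveI : Finite θ'.range := fs_finite_of_le hP'S
  haveI : Finite ↥(normalizerIn (normalizerIn S Q) θ'.range) :=
    fs_finite_of_le (inf_le_left.trans inf_le_left)
  have hM₁le : normalizerIn (normalizerIn S ζQ.range) ζP.range ≤ normalizerIn S ζQ.range :=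
    inf_le_left
  have hmem : ∀ m : normalizerIn (normalizerIn S ζQ.range) ζP.range,
      ψ ⟨m, hM₁le m.2⟩ ∈ normalizerIn (normalizerIn S Q) θ'.range := by
    intro m
    refine Subgroup.mem_inf.mpr ⟨hψN _, ?_⟩
    apply Cfsg.Agent.Lib.Helper6.sy_mem_normalizer_of_conj_le
    rintro _ ⟨x, rfl⟩
    have hmN : (m : Ω) ∈ Subgroup.normalizer ((ζP.range : Subgroup Ω) : Set Ω) :=
      (Subgroup.mem_inf.mp m.2).2
    have h1 : (m : Ω) * ζP x * (m : Ω)⁻¹ ∈ ζP.range :=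
      (Subgroup.mem_normalizer_iff.mp hmN _).mp ⟨x, rfl⟩
    obtain ⟨x', hx'⟩ := h1
    refine ⟨x', ?_⟩
    have e : (⟨ζ (Subgroup.inclusion le_sup_left x'), hζN₁ _⟩ : normalizerIn S ζQ.range) =
        ⟨m, hM₁le m.2⟩ * ⟨ζ (Subgroup.inclusion le_sup_left x), hζN₁ _⟩ * ⟨m, hM₁le m.2⟩⁻¹ :=
      Subtype.ext hx'
    show ψ ⟨ζ (Subgroup.inclusion le_sup_left x'), hζN₁ _⟩ = _
    rw [e, map_mul, map_mul, map_inv]
    rfl
  apply Nat.card_le_card_of_injective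
    (fun m : normalizerIn (normalizerIn S ζQ.range) ζP.range =>
      (⟨ψ ⟨m, hM₁le m.2⟩, hmem m⟩ : normalizerIn (normalizerIn S Q) θ'.range))
  intro a b hab
  have h1 := hψinj (congrArg Subtype.val hab)
  exact Subtype.ext (congrArg (fun z : normalizerIn S ζQ.range => (z : Ω)) h1)

/-- for `P` fully normalized in the normalizer system, `P ⊔ Q` is fully centralized in `F` -/
theorem nrm_fullyCentralized [Finite S] (p : ℕ) [Fact p.Prime] (hS : IsPGroup p S)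
    (F : FusionSystem S) (hF : F.IsSaturated p) (Q : Subgroup Ω) (hQ : F.IsFullyNormalized Q)
    (E : FusionSystem (normalizerIn S Q)) (hE : F.IsNormalizerSystem Q E) (P : Subgroup Ω)
    (hPfn : E.IsFullyNormalized P) : F.IsFullyCentralized (P ⊔ Q) := by
  have hQS : Q ≤ S := hQ.1
  have hNS : normalizerIn S Q ≤ S := inf_le_left
  have hPN : P ≤ normalizerIn S Q := hPfn.1
  have hPS : P ≤ S := hPN.trans hNS
  have hRS : P ⊔ Q ≤ S := sup_le hPS hQS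
  obtain ⟨R', φ, hconj, hR'a, hR'r, hφ, hφN, hφR⟩ := fs_sat_setup p hS F hF (P ⊔ Q) hRS
  have hinj := F.injective_of_mem hφ
  have hRN : P ⊔ Q ≤ normalizerIn S (P ⊔ Q) := fs_le_normalizerIn hRS
  have hPNR : P ≤ normalizerIn S (P ⊔ Q) := le_sup_left.trans hRN
  have hQNR : Q ≤ normalizerIn S (P ⊔ Q) := le_sup_right.trans hRN
  have hNle : normalizerIn (normalizerIn S Q) P ≤ normalizerIn S (P ⊔ Q) := by
    intro g hg
    obtain ⟨hgN, hgNP⟩ := Subgroup.mem_inf.mp hg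
    exact Subgroup.mem_inf.mpr ⟨hNS hgN, nc_normalizer_sup hgNP (Subgroup.mem_inf.mp hgN).2⟩
  let ζ : ↥(P ⊔ Q) →* Ω := φ.comp (Subgroup.inclusion hRN)
  have hζ : ζ ∈ F.Hom (P ⊔ Q) := fs_restrict F hRN hφ
  obtain ⟨P', hconjE, hcard⟩ := nrm_transport p hS F hF Q hQ E hE P hPN ζ hζ
  have hcard1 := hPfn.2 P' hconjE
  let ζQ : Q →* Ω := ζ.comp (Subgroup.inclusion (le_sup_right : Q ≤ P ⊔ Q))
  let ζP : P →* Ω := ζ.comp (Subgroup.inclusion (le_sup_left : P ≤ P ⊔ Q))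
  haveI : Finite ζQ.range := fs_finite_of_le (fs_range_le F (fs_restrict F le_sup_right hζ))
  haveI : Finite ζP.range := fs_finite_of_le (fs_range_le F (fs_restrict F le_sup_left hζ))
  haveI : Finite ↥(normalizerIn (normalizerIn S Q) P) := fs_finite_of_le (inf_le_left.trans hNS)
  haveI : Finite ↥(normalizerIn (normalizerIn S ζQ.range) ζP.range) :=
    fs_finite_of_le (inf_le_left.trans inf_le_left)
  have hφNM : ∀ n : normalizerIn (normalizerIn S Q) P,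
      φ ⟨n, hNle n.2⟩ ∈ normalizerIn (normalizerIn S ζQ.range) ζP.range := by
    intro n
    obtain ⟨hnN, hnP⟩ := Subgroup.mem_inf.mp n.2
    have hnQ : (n : Ω) ∈ Subgroup.normalizer (Q : Set Ω) := (Subgroup.mem_inf.mp hnN).2
    refine Subgroup.mem_inf.mpr ⟨Subgroup.mem_inf.mpr ⟨(F.le_of_mem hφ).2 _, ?_⟩, ?_⟩
    · apply Cfsg.Agent.Lib.Helper6.sy_mem_normalizer_of_conj_le
      rintro _ ⟨q, rfl⟩
      have hq' : (n : Ω) * q * (n : Ω)⁻¹ ∈ Q := (Subgroup.mem_normalizer_iff.mp hnQ _).mp q.2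
      refine ⟨⟨_, hq'⟩, ?_⟩
      have e : (⟨(n : Ω) * q * (n : Ω)⁻¹, hQNR hq'⟩ : normalizerIn S (P ⊔ Q)) =
          ⟨n, hNle n.2⟩ * ⟨q, hQNR q.2⟩ * ⟨n, hNle n.2⟩⁻¹ := Subtype.ext rfl
      show φ ⟨(n : Ω) * q * (n : Ω)⁻¹, hQNR hq'⟩ =
        φ ⟨n, hNle n.2⟩ * φ ⟨q, hQNR q.2⟩ * (φ ⟨n, hNle n.2⟩)⁻¹
      rw [e, map_mul, map_mul, map_inv]
    · apply Cfsg.Agent.Lib.Helper6.sy_mem_normalizer_of_conj_le
      rintro _ ⟨x, rfl⟩
      have hx' : (n : Ω) * x * (n : Ω)⁻¹ ∈ P := (Subgroup.mem_normalizer_iff.mp hnP _).mp x.2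
      refine ⟨⟨_, hx'⟩, ?_⟩
      have e : (⟨(n : Ω) * x * (n : Ω)⁻¹, hPNR hx'⟩ : normalizerIn S (P ⊔ Q)) =
          ⟨n, hNle n.2⟩ * ⟨x, hPNR x.2⟩ * ⟨n, hNle n.2⟩⁻¹ := Subtype.ext rfl
      show φ ⟨(n : Ω) * x * (n : Ω)⁻¹, hPNR hx'⟩ =
        φ ⟨n, hNle n.2⟩ * φ ⟨x, hPNR x.2⟩ * (φ ⟨n, hNle n.2⟩)⁻¹
      rw [e, map_mul, map_mul, map_inv]
  have hbij : Function.Bijective (fun n : normalizerIn (normalizerIn S Q) P =>
      (⟨φ ⟨n, hNle n.2⟩, hφNM n⟩ : normalizerIn (normalizerIn S ζQ.range) ζP.range)) := by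
    apply Function.Injective.bijective_of_nat_card_le
    · intro a b hab
      have h1 := hinj (congrArg Subtype.val hab)
      exact Subtype.ext (congrArg (fun z : normalizerIn S (P ⊔ Q) => (z : Ω)) h1)
    · exact hcard.trans hcard1
  have hR'fc := fs_fullyCentralized_of_receptive F hR'r
  refine ⟨hRS, fun R'' hconj'' => ?_⟩
  have h1 := hR'fc.2 R'' (fs_isConj_trans F (fs_isConj_symm F hconj) hconj'')
  refine h1.trans ?_
  have hφR' : ∀ z : ↥(P ⊔ Q), φ ⟨z, hRN z.2⟩ ∈ R' := by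
    intro z
    rw [← hφR]
    exact ⟨⟨z, hRN z.2⟩, Subgroup.mem_subgroupOf.mpr z.2, rfl⟩
  have hsurj : ∀ c' ∈ centralizerIn S R', ∃ c : centralizerIn S (P ⊔ Q),
      φ ⟨c, fs_centralizerIn_le_normalizerIn S _ c.2⟩ = c' := by
    intro c' hc'
    obtain ⟨hc'S, hc'C⟩ := Subgroup.mem_inf.mp hc'
    rw [Subgroup.mem_centralizer_iff] at hc'C
    have hc'M : c' ∈ normalizerIn (normalizerIn S ζQ.range) ζP.range := by
      refine Subgroup.mem_inf.mpr ⟨Subgroup.mem_inf.mpr ⟨hc'S, ?_⟩, ?_⟩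
      · apply Cfsg.Agent.Lib.Helper6.sy_mem_normalizer_of_conj_le
        rintro _ ⟨q, rfl⟩
        have hcomm : φ ⟨q, hQNR q.2⟩ * c' = c' * φ ⟨q, hQNR q.2⟩ :=
          hc'C _ (hφR' (Subgroup.inclusion le_sup_right q))
        have e : c' * ζQ q * c'⁻¹ = ζQ q := by
          show c' * φ ⟨q, hQNR q.2⟩ * c'⁻¹ = φ ⟨q, hQNR q.2⟩
          rw [← hcomm]; group
        rw [e]; exact ⟨q, rfl⟩
      · apply Cfsg.Agent.Lib.Helper6.sy_mem_normalizer_of_conj_le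
        rintro _ ⟨x, rfl⟩
        have hcomm : φ ⟨x, hPNR x.2⟩ * c' = c' * φ ⟨x, hPNR x.2⟩ :=
          hc'C _ (hφR' (Subgroup.inclusion le_sup_left x))
        have e : c' * ζP x * c'⁻¹ = ζP x := by
          show c' * φ ⟨x, hPNR x.2⟩ * c'⁻¹ = φ ⟨x, hPNR x.2⟩
          rw [← hcomm]; group
        rw [e]; exact ⟨x, rfl⟩
    obtain ⟨n, hn⟩ := hbij.2 ⟨c', hc'M⟩
    have hn' : φ ⟨n, hNle n.2⟩ = c' := congrArg Subtype.val hn
    refine ⟨⟨n, Subgroup.mem_inf.mpr ⟨hNS (Subgroup.mem_inf.mp n.2).1, ?_⟩⟩, hn'⟩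
    rw [Subgroup.mem_centralizer_iff]
    intro r hr
    have hcomm : φ ⟨r, hRN hr⟩ * c' = c' * φ ⟨r, hRN hr⟩ := hc'C _ (hφR' ⟨r, hr⟩)
    rw [← hn', ← map_mul, ← map_mul] at hcomm
    exact congrArg (fun z : normalizerIn S (P ⊔ Q) => (z : Ω)) (hinj hcomm)
  haveI : Finite ↥(centralizerIn S (P ⊔ Q)) := fs_finite_of_le inf_le_left
  choose f hf using hsurj
  apply Nat.card_le_card_of_injective (fun c' : centralizerIn S R' => f c' c'.2)
  intro a b hab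
  have hab' : f a a.2 = f b b.2 := hab
  apply Subtype.ext
  have e := congrArg (fun c : centralizerIn S (P ⊔ Q) =>
    φ ⟨c, fs_centralizerIn_le_normalizerIn S _ c.2⟩) hab'
  exact (hf a a.2).symm.trans (e.trans (hf b b.2))

/-- a `p`-element of `Aut_F(P ⊔ Q)` preserving `P` and `Q` whose conjugates of the automorphisms
induced by `N_{N_S(Q)}(P)` are induced by elements of `S` is itself induced by an element of
`N_{N_S(Q)}(P)`, when `P` is fully normalized in the normalizer system -/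
theorem nrm_pelement [Finite S] (p : ℕ) [Fact p.Prime] (hS : IsPGroup p S)
    (F : FusionSystem S) (hF : F.IsSaturated p) (Q : Subgroup Ω) (hQ : F.IsFullyNormalized Q)
    (E : FusionSystem (normalizerIn S Q)) (hE : F.IsNormalizerSystem Q E) (P : Subgroup Ω)
    (hPfn : E.IsFullyNormalized P) (θ : MulAut ↥(P ⊔ Q)) (hθ : θ ∈ F.autGroup (P ⊔ Q))
    (hθP : ∀ x : P, ((θ (Subgroup.inclusion le_sup_left x) : ↥(P ⊔ Q)) : Ω) ∈ P)
    (hθQ : ∀ q : Q, ((θ (Subgroup.inclusion le_sup_right q) : ↥(P ⊔ Q)) : Ω) ∈ Q)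
    (k : ℕ) (hk : θ ^ (p ^ k) = 1)
    (hnorm : ∀ g ∈ normalizerIn (normalizerIn S Q) P, ∃ h ∈ S,
      ∀ (x : ↥(P ⊔ Q)) (hx : g * (x : Ω) * g⁻¹ ∈ P ⊔ Q),
        ((θ ⟨g * x * g⁻¹, hx⟩ : ↥(P ⊔ Q)) : Ω) = h * ((θ x : ↥(P ⊔ Q)) : Ω) * h⁻¹) :
    ∃ c ∈ normalizerIn (normalizerIn S Q) P,
      ∀ x : ↥(P ⊔ Q), ((θ x : ↥(P ⊔ Q)) : Ω) = c * x * c⁻¹ := by
  have hp : p.Prime := Fact.out
  have hQS : Q ≤ S := hQ.1
  have hNS : normalizerIn S Q ≤ S := inf_le_left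
  have hPN : P ≤ normalizerIn S Q := hPfn.1
  have hPS : P ≤ S := hPN.trans hNS
  have hRS : P ⊔ Q ≤ S := sup_le hPS hQS
  haveI : Finite P := fs_finite_of_le hPS
  haveI : Finite Q := fs_finite_of_le hQS
  haveI : Finite ↥(P ⊔ Q) := fs_finite_of_le hRS
  set M := normalizerIn (normalizerIn S Q) P with hMdef
  have hMS : M ≤ S := inf_le_left.trans hNS
  have hMP : ∀ g ∈ M, g ∈ Subgroup.normalizer (P : Set Ω) := fun g hg => (Subgroup.mem_inf.mp hg).2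
  have hMQ : ∀ g ∈ M, g ∈ Subgroup.normalizer (Q : Set Ω) :=
    fun g hg => (Subgroup.mem_inf.mp (Subgroup.mem_inf.mp hg).1).2
  have hMR : ∀ g ∈ M, g ∈ Subgroup.normalizer ((P ⊔ Q : Subgroup Ω) : Set Ω) :=
    fun g hg => nc_normalizer_sup (hMP g hg) (hMQ g hg)
  have hRfc := nrm_fullyCentralized p hS F hF Q hQ E hE P hPfn
  have hRr := fs_receptive_of_fullyCentralized p hS F hF _ hRfc
  have hζ : (P ⊔ Q).subtype.comp θ.toMonoidHom ∈ F.Hom (P ⊔ Q) :=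
    (fs_mem_autGroup_iff F hRS θ).mp hθ
  have hζr : ((P ⊔ Q).subtype.comp θ.toMonoidHom).range = P ⊔ Q := by
    ext y
    constructor
    · rintro ⟨x, rfl⟩
      exact (θ x).2
    · intro hy
      refine ⟨θ⁻¹ ⟨y, hy⟩, ?_⟩
      show ((θ (θ⁻¹ ⟨y, hy⟩) : ↥(P ⊔ Q)) : Ω) = y
      rw [MulAut.apply_inv_self]
  obtain ⟨ζh, hζh, hext⟩ := hRr.2 (P ⊔ Q) _ hζ hζr
  have hRX : P ⊔ Q ≤ extender S (P ⊔ Q) ((P ⊔ Q).subtype.comp θ.toMonoidHom) :=
    fs_le_extender F hζ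
  have hMX : M ≤ extender S (P ⊔ Q) ((P ⊔ Q).subtype.comp θ.toMonoidHom) := by
    intro g hg
    obtain ⟨h, hhS, hgh⟩ := hnorm g hg
    apply Subgroup.subset_closure
    exact ⟨hMS hg, hMR g hg, h, hhS, fun x hx => hgh x hx⟩
  have hMRX : M ⊔ (P ⊔ Q) ≤ extender S (P ⊔ Q) ((P ⊔ Q).subtype.comp θ.toMonoidHom) :=
    sup_le hMX hRX
  have hMRS : M ⊔ (P ⊔ Q) ≤ S := sup_le hMS hRS
  have hθP' : ∀ y ∈ P, ∃ x : P, ((θ (Subgroup.inclusion le_sup_left x) : ↥(P ⊔ Q)) : Ω) = y := by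
    intro y hy
    have hi : Function.Injective (fun x : P => (⟨_, hθP x⟩ : P)) := by
      intro c d hcd
      have h1 : θ (Subgroup.inclusion le_sup_left c) = θ (Subgroup.inclusion le_sup_left d) :=
        Subtype.ext (congrArg (fun z : P => (z : Ω)) hcd)
      exact Subtype.ext (congrArg (fun z : ↥(P ⊔ Q) => (z : Ω)) (θ.injective h1))
    obtain ⟨x, hx⟩ := (Finite.injective_iff_surjective.mp hi) ⟨y, hy⟩
    exact ⟨x, congrArg Subtype.val hx⟩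
  have hθQ' : ∀ y ∈ Q, ∃ x : Q, ((θ (Subgroup.inclusion le_sup_right x) : ↥(P ⊔ Q)) : Ω) = y := by
    intro y hy
    have hi : Function.Injective (fun x : Q => (⟨_, hθQ x⟩ : Q)) := by
      intro c d hcd
      have h1 : θ (Subgroup.inclusion le_sup_right c) = θ (Subgroup.inclusion le_sup_right d) :=
        Subtype.ext (congrArg (fun z : Q => (z : Ω)) hcd)
      exact Subtype.ext (congrArg (fun z : ↥(P ⊔ Q) => (z : Ω)) (θ.injective h1))
    obtain ⟨x, hx⟩ := (Finite.injective_iff_surjective.mp hi) ⟨y, hy⟩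
    exact ⟨x, congrArg Subtype.val hx⟩
  let β₀ : ↥(M ⊔ (P ⊔ Q)) →* Ω := ζh.comp (Subgroup.inclusion hMRX)
  have hβ₀ : β₀ ∈ F.Hom (M ⊔ (P ⊔ Q)) := fs_restrict F hMRX hζh
  have hβ₀R : ∀ x : ↥(P ⊔ Q), β₀ (Subgroup.inclusion le_sup_right x) = ((θ x : ↥(P ⊔ Q)) : Ω) :=
    fun x => hext x x.2 _
  have hβ₀M : ∀ g : M, β₀ (Subgroup.inclusion le_sup_left g) ∈ M := by
    intro g
    refine Subgroup.mem_inf.mpr ⟨Subgroup.mem_inf.mpr ⟨(F.le_of_mem hβ₀).2 _, ?_⟩, ?_⟩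
    · apply Cfsg.Agent.Lib.Helper6.sy_mem_normalizer_of_conj_le
      intro q hq
      obtain ⟨q₀, hq₀⟩ := hθQ' q hq
      have hq' : (g : Ω) * q₀ * (g : Ω)⁻¹ ∈ Q :=
        (Subgroup.mem_normalizer_iff.mp (hMQ g g.2) _).mp q₀.2
      have e : Subgroup.inclusion (le_sup_left : M ≤ M ⊔ (P ⊔ Q)) g *
          Subgroup.inclusion le_sup_right (Subgroup.inclusion (le_sup_right : Q ≤ P ⊔ Q) q₀) *
          (Subgroup.inclusion (le_sup_left : M ≤ M ⊔ (P ⊔ Q)) g)⁻¹ =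
          Subgroup.inclusion le_sup_right
            (Subgroup.inclusion (le_sup_right : Q ≤ P ⊔ Q) ⟨(g : Ω) * q₀ * (g : Ω)⁻¹, hq'⟩) :=
        Subtype.ext rfl
      have h2 := congrArg β₀ e
      rw [map_mul, map_mul, map_inv, hβ₀R, hβ₀R, hq₀] at h2
      rw [h2]
      exact hθQ _
    · apply Cfsg.Agent.Lib.Helper6.sy_mem_normalizer_of_conj_le
      intro y hy
      obtain ⟨x₀, hx₀⟩ := hθP' y hy
      have hx' : (g : Ω) * x₀ * (g : Ω)⁻¹ ∈ P :=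
        (Subgroup.mem_normalizer_iff.mp (hMP g g.2) _).mp x₀.2
      have e : Subgroup.inclusion (le_sup_left : M ≤ M ⊔ (P ⊔ Q)) g *
          Subgroup.inclusion le_sup_right (Subgroup.inclusion (le_sup_left : P ≤ P ⊔ Q) x₀) *
          (Subgroup.inclusion (le_sup_left : M ≤ M ⊔ (P ⊔ Q)) g)⁻¹ =
          Subgroup.inclusion le_sup_right
            (Subgroup.inclusion (le_sup_left : P ≤ P ⊔ Q) ⟨(g : Ω) * x₀ * (g : Ω)⁻¹, hx'⟩) :=
        Subtype.ext rfl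
      have h2 := congrArg β₀ e
      rw [map_mul, map_mul, map_inv, hβ₀R, hβ₀R, hx₀] at h2
      rw [h2]
      exact hθP _
  obtain ⟨β, hβ, hββ₀⟩ := nc_aut_of_ext F β₀ hβ₀ hβ₀M
    (fun x => by rw [hβ₀R]; exact (θ x).2)
  have hβR : ∀ x : ↥(P ⊔ Q), β (Subgroup.inclusion le_sup_right x) =
      Subgroup.inclusion le_sup_right (θ x) := by
    intro x
    apply Subtype.ext
    rw [hββ₀, hβ₀R]
    rfl
  have hpowR : ∀ i : ℕ, ∀ x : ↥(P ⊔ Q), (β ^ i) (Subgroup.inclusion le_sup_right x) =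
      Subgroup.inclusion le_sup_right ((θ ^ i) x) := by
    intro i
    induction i with
    | zero => intro x; rfl
    | succ i ih =>
      intro x
      rw [pow_succ, MulAut.mul_apply, hβR, ih, pow_succ, MulAut.mul_apply]
  haveI : Finite ↥(M ⊔ (P ⊔ Q)) := fs_finite_of_le hMRS
  obtain ⟨a, m, hm, ho⟩ := Nat.exists_eq_pow_mul_and_not_dvd (orderOf_pos β).ne' p hp.ne_one
  have hcop : Nat.Coprime m (p ^ (k + 1)) :=
    Nat.Coprime.pow_right (k + 1) ((hp.coprime_iff_not_dvd.mpr hm).symm)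
  have h1lt : 1 < p ^ (k + 1) := Nat.one_lt_pow (Nat.succ_ne_zero k) hp.one_lt
  obtain ⟨m', -, hm'⟩ := Nat.exists_mul_mod_eq_one_of_coprime hcop h1lt
  have hγa : (β ^ (m * m')) ^ (p ^ a) = 1 := by
    rw [← pow_mul]
    have e : m * m' * p ^ a = orderOf β * m' := by rw [ho]; ring
    rw [e, pow_mul, pow_orderOf_eq_one, one_pow]
  have hθK : θ ^ (p ^ (k + 1)) = 1 := by rw [pow_succ, pow_mul, hk, one_pow]
  have hθj : θ ^ (m * m') = θ := by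
    have hj : m * m' = p ^ (k + 1) * (m * m' / p ^ (k + 1)) + 1 := by
      have := Nat.div_add_mod (m * m') (p ^ (k + 1))
      rw [hm'] at this
      exact this.symm
    rw [hj, pow_succ, pow_mul, hθK, one_pow, one_mul]
  have hγR : ∀ x : ↥(P ⊔ Q), (β ^ (m * m')) (Subgroup.inclusion le_sup_right x) =
      Subgroup.inclusion le_sup_right (θ x) := by
    intro x
    rw [hpowR, hθj]
  have hγ : β ^ (m * m') ∈ F.autGroup (M ⊔ (P ⊔ Q)) := Subgroup.pow_mem _ hβ _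
  obtain ⟨M', hconj', hM'a, -⟩ := hF (M ⊔ (P ⊔ Q)) hMRS
  obtain ⟨χ, hχ, rfl⟩ := hconj'
  obtain ⟨χ₂, hχ₂, -, n, hnS, -, hχ₂γ⟩ :=
    fs_pelement_conj p F (M ⊔ (P ⊔ Q)) hMRS χ hχ hM'a (β ^ (m * m')) hγ a hγa
  have hχ₂inj := F.injective_of_mem hχ₂
  let ζ₂ : ↥(P ⊔ Q) →* Ω := χ₂.comp (Subgroup.inclusion (le_sup_right : P ⊔ Q ≤ M ⊔ (P ⊔ Q)))
  have hζ₂ : ζ₂ ∈ F.Hom (P ⊔ Q) := fs_restrict F le_sup_right hχ₂
  obtain ⟨P', hconjE, hcard⟩ := nrm_transport p hS F hF Q hQ E hE P hPN ζ₂ hζ₂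
  have hcard1 := hPfn.2 P' hconjE
  let ζQ : Q →* Ω := ζ₂.comp (Subgroup.inclusion (le_sup_right : Q ≤ P ⊔ Q))
  let ζP : P →* Ω := ζ₂.comp (Subgroup.inclusion (le_sup_left : P ≤ P ⊔ Q))
  haveI : Finite ζQ.range := fs_finite_of_le (fs_range_le F (fs_restrict F le_sup_right hζ₂))
  haveI : Finite ζP.range := fs_finite_of_le (fs_range_le F (fs_restrict F le_sup_left hζ₂))
  haveI : Finite ↥M := fs_finite_of_le hMS
  haveI : Finite ↥(normalizerIn (normalizerIn S ζQ.range) ζP.range) :=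
    fs_finite_of_le (inf_le_left.trans inf_le_left)
  have hχ₂M : ∀ g : M, χ₂ (Subgroup.inclusion le_sup_left g) ∈
      normalizerIn (normalizerIn S ζQ.range) ζP.range := by
    intro g
    refine Subgroup.mem_inf.mpr ⟨Subgroup.mem_inf.mpr ⟨(F.le_of_mem hχ₂).2 _, ?_⟩, ?_⟩
    · apply Cfsg.Agent.Lib.Helper6.sy_mem_normalizer_of_conj_le
      rintro _ ⟨q, rfl⟩
      have hq' : (g : Ω) * q * (g : Ω)⁻¹ ∈ Q :=
        (Subgroup.mem_normalizer_iff.mp (hMQ g g.2) _).mp q.2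
      refine ⟨⟨_, hq'⟩, ?_⟩
      have e : Subgroup.inclusion (le_sup_right : P ⊔ Q ≤ M ⊔ (P ⊔ Q))
          (Subgroup.inclusion (le_sup_right : Q ≤ P ⊔ Q) ⟨(g : Ω) * q * (g : Ω)⁻¹, hq'⟩) =
          Subgroup.inclusion (le_sup_left : M ≤ M ⊔ (P ⊔ Q)) g *
          Subgroup.inclusion le_sup_right (Subgroup.inclusion (le_sup_right : Q ≤ P ⊔ Q) q) *
          (Subgroup.inclusion (le_sup_left : M ≤ M ⊔ (P ⊔ Q)) g)⁻¹ := Subtype.ext rfl
      show χ₂ (Subgroup.inclusion (le_sup_right : P ⊔ Q ≤ M ⊔ (P ⊔ Q))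
          (Subgroup.inclusion (le_sup_right : Q ≤ P ⊔ Q) ⟨(g : Ω) * q * (g : Ω)⁻¹, hq'⟩)) = _
      rw [e, map_mul, map_mul, map_inv]
      rfl
    · apply Cfsg.Agent.Lib.Helper6.sy_mem_normalizer_of_conj_le
      rintro _ ⟨x, rfl⟩
      have hx' : (g : Ω) * x * (g : Ω)⁻¹ ∈ P :=
        (Subgroup.mem_normalizer_iff.mp (hMP g g.2) _).mp x.2
      refine ⟨⟨_, hx'⟩, ?_⟩
      have e : Subgroup.inclusion (le_sup_right : P ⊔ Q ≤ M ⊔ (P ⊔ Q))
          (Subgroup.inclusion (le_sup_left : P ≤ P ⊔ Q) ⟨(g : Ω) * x * (g : Ω)⁻¹, hx'⟩) =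
          Subgroup.inclusion (le_sup_left : M ≤ M ⊔ (P ⊔ Q)) g *
          Subgroup.inclusion le_sup_right (Subgroup.inclusion (le_sup_left : P ≤ P ⊔ Q) x) *
          (Subgroup.inclusion (le_sup_left : M ≤ M ⊔ (P ⊔ Q)) g)⁻¹ := Subtype.ext rfl
      show χ₂ (Subgroup.inclusion (le_sup_right : P ⊔ Q ≤ M ⊔ (P ⊔ Q))
          (Subgroup.inclusion (le_sup_left : P ≤ P ⊔ Q) ⟨(g : Ω) * x * (g : Ω)⁻¹, hx'⟩)) = _
      rw [e, map_mul, map_mul, map_inv]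
      rfl
  have hbij : Function.Bijective (fun g : M =>
      (⟨χ₂ (Subgroup.inclusion le_sup_left g), hχ₂M g⟩ :
        normalizerIn (normalizerIn S ζQ.range) ζP.range)) := by
    apply Function.Injective.bijective_of_nat_card_le
    · intro c d hcd
      have h1 := hχ₂inj (congrArg Subtype.val hcd)
      exact Subtype.ext (congrArg (fun z : ↥(M ⊔ (P ⊔ Q)) => (z : Ω)) h1)
    · exact hcard.trans hcard1
  have hnM : n ∈ normalizerIn (normalizerIn S ζQ.range) ζP.range := by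
    refine Subgroup.mem_inf.mpr ⟨Subgroup.mem_inf.mpr ⟨hnS, ?_⟩, ?_⟩
    · apply Cfsg.Agent.Lib.Helper6.sy_mem_normalizer_of_conj_le
      rintro _ ⟨q, rfl⟩
      have h := hχ₂γ (Subgroup.inclusion le_sup_right
        (Subgroup.inclusion (le_sup_right : Q ≤ P ⊔ Q) q))
      rw [hγR] at h
      exact ⟨⟨_, hθQ q⟩, h⟩
    · apply Cfsg.Agent.Lib.Helper6.sy_mem_normalizer_of_conj_le
      rintro _ ⟨x, rfl⟩
      have h := hχ₂γ (Subgroup.inclusion le_sup_right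
        (Subgroup.inclusion (le_sup_left : P ≤ P ⊔ Q) x))
      rw [hγR] at h
      exact ⟨⟨_, hθP x⟩, h⟩
  obtain ⟨c, hc⟩ := hbij.2 ⟨n, hnM⟩
  have hc' : χ₂ (Subgroup.inclusion le_sup_left c) = n := congrArg Subtype.val hc
  refine ⟨c, c.2, fun x => ?_⟩
  have h := hχ₂γ (Subgroup.inclusion le_sup_right x)
  rw [hγR, ← hc', ← map_inv, ← map_mul, ← map_mul] at h
  have h2 := hχ₂inj h
  exact congrArg (fun z : ↥(M ⊔ (P ⊔ Q)) => (z : Ω)) h2

/-- Sylow-type conjugation: if every `p`-element of `L` normalizing the `p`-subgroup `T` lies in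
`T`, then every `p`-subgroup of `L` is conjugate in `L` into `T` -/
theorem nrm_conj_into {G : Type*} [Group G] [Finite G] (p : ℕ) [Fact p.Prime] (L T A : Subgroup G)
    (hTL : T ≤ L) (hAL : A ≤ L) (hA : IsPGroup p A) (hT : IsPGroup p T)
    (hmax : ∀ n ∈ L, (∃ k : ℕ, n ^ (p ^ k) = 1) → n ∈ Subgroup.normalizer (T : Set G) → n ∈ T) :
    ∃ χ ∈ L, ∀ a ∈ A, χ * a * χ⁻¹ ∈ T := by
  have hT' : IsPGroup p ↥(T.subgroupOf L) := hT.comap_subtype
  obtain ⟨T₁, hT₁⟩ := hT'.exists_le_sylow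
  have hEq : T.subgroupOf L = (T₁ : Subgroup L) := by
    by_contra hne
    obtain ⟨n, hnT₁, hnN, hnT⟩ := fs_normalizer_growth T₁.isPGroup' hT₁ hne
    apply hnT
    rw [Subgroup.mem_subgroupOf]
    obtain ⟨k, hk⟩ := T₁.isPGroup' ⟨n, hnT₁⟩
    apply hmax (n : G) n.2 ⟨k, ?_⟩ ?_
    · have := congrArg (fun z : T₁ => ((z : L) : G)) hk
      simpa using this
    · rw [Subgroup.mem_normalizer_iff] at hnN ⊢
      intro h
      constructor
      · intro hh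
        have := (hnN ⟨h, hTL hh⟩).mp (Subgroup.mem_subgroupOf.mpr hh)
        exact Subgroup.mem_subgroupOf.mp this
      · intro hh
        have hhL : h ∈ L := by
          have h1 : (n : G)⁻¹ * ((n : G) * h * (n : G)⁻¹) * (n : G) ∈ L :=
            L.mul_mem (L.mul_mem (L.inv_mem n.2) (hTL hh)) n.2
          have e : (n : G)⁻¹ * ((n : G) * h * (n : G)⁻¹) * (n : G) = h := by group
          rwa [e] at h1
        have := (hnN ⟨h, hhL⟩).mpr (Subgroup.mem_subgroupOf.mpr hh)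
        exact Subgroup.mem_subgroupOf.mp this
  have hA' : IsPGroup p ↥(A.subgroupOf L) := hA.comap_subtype
  obtain ⟨A₁, hA₁⟩ := hA'.exists_le_sylow
  obtain ⟨u, hu⟩ := MulAction.exists_smul_eq ↥L A₁ T₁
  refine ⟨u, u.2, fun a ha => ?_⟩
  have h1 : u * ⟨a, hAL ha⟩ * u⁻¹ ∈ (T₁ : Subgroup L) := by
    rw [← hu]
    exact Cfsg.Agent.Lib.Helper2.conj_mem_sylow_smul A₁ u _ (hA₁ (Subgroup.mem_subgroupOf.mpr ha))
  rw [← hEq, Subgroup.mem_subgroupOf] at h1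
  exact h1

/-- the top group `N_S(Q)` is fully automized in the normalizer system -/
theorem nrm_top_automized [Finite S] (p : ℕ) [Fact p.Prime] (hS : IsPGroup p S)
    (F : FusionSystem S) (hF : F.IsSaturated p) (Q : Subgroup Ω) (hQ : F.IsFullyNormalized Q)
    (E : FusionSystem (normalizerIn S Q)) (hE : F.IsNormalizerSystem Q E) :
    E.IsFullyAutomized p (normalizerIn S Q) := by
  have hp : p.Prime := Fact.out
  have hQS : Q ≤ S := hQ.1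
  have hNS : normalizerIn S Q ≤ S := inf_le_left
  have hQN : Q ≤ normalizerIn S Q := fs_le_normalizerIn hQS
  haveI : Finite Q := fs_finite_of_le hQS
  haveI : Finite ↥(normalizerIn S Q) := fs_finite_of_le hNS
  refine ⟨le_rfl, ?_⟩
  have hUp : IsPGroup p ↥((autInducedBy (normalizerIn S Q) (normalizerIn S Q)).subgroupOf
      (E.autGroup (normalizerIn S Q))) := by
    apply IsPGroup.comap_subtype
    rw [Cfsg.Agent.S5076.autInducedBy_eq_map]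
    exact ((hS.to_le hNS).comap_subtype).map _
  obtain ⟨R, hR⟩ := hUp.exists_le_sylow
  refine ⟨R, le_antisymm ?_ hR⟩
  intro a haR
  rw [Subgroup.mem_subgroupOf]
  obtain ⟨k, hk⟩ := R.isPGroup' ⟨a, haR⟩
  have hak : (a : MulAut ↥(normalizerIn S Q)) ^ (p ^ k) = 1 := by
    have := congrArg (fun z : R => ((z : ↥(E.autGroup (normalizerIn S Q))) :
      MulAut ↥(normalizerIn S Q))) hk
    simpa using this
  have haE := (fs_mem_autGroup_iff E le_rfl (a : MulAut ↥(normalizerIn S Q))).mp a.2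
  rw [hE] at haE
  obtain ⟨haF, -, -, ab, hab, habN, habQ⟩ := haE
  have haQ : ∀ q : Q,
      (((a : MulAut ↥(normalizerIn S Q)) ⟨q, hQN q.2⟩ : ↥(normalizerIn S Q)) : Ω) ∈ Q := by
    intro q
    have h1 := nrm_mem_of_map_eq ab habQ q
    have e1 : Subgroup.inclusion (le_sup_right : Q ≤ normalizerIn S Q ⊔ Q) q =
        Subgroup.inclusion le_sup_left (⟨q, hQN q.2⟩ : ↥(normalizerIn S Q)) := Subtype.ext rfl
    rw [e1, habN] at h1
    exact h1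
  have haF' : (a : MulAut ↥(normalizerIn S Q)) ∈ F.autGroup (normalizerIn S Q) :=
    (fs_mem_autGroup_iff F hNS _).mpr haF
  obtain ⟨N', hconj, hN'a, -⟩ := hF (normalizerIn S Q) hNS
  obtain ⟨χ, hχ, rfl⟩ := hconj
  obtain ⟨χ₂, hχ₂, -, n, hnS, -, hχ₂a⟩ := fs_pelement_conj p F (normalizerIn S Q) hNS χ hχ hN'a
    (a : MulAut ↥(normalizerIn S Q)) haF' k hak
  have hχ₂inj := F.injective_of_mem hχ₂
  let χQ : Q →* Ω := χ₂.comp (Subgroup.inclusion hQN)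
  have hχQ : χQ ∈ F.Hom Q := fs_restrict F hQN hχ₂
  have hcard := hQ.2 χQ.range ⟨χQ, hχQ, rfl⟩
  haveI : Finite χQ.range := fs_finite_of_le (fs_range_le F hχQ)
  have hmem : ∀ x : normalizerIn S Q, χ₂ x ∈ normalizerIn S χQ.range := by
    intro x
    refine Subgroup.mem_inf.mpr ⟨(F.le_of_mem hχ₂).2 _, ?_⟩
    apply Cfsg.Agent.Lib.Helper6.sy_mem_normalizer_of_conj_le
    rintro _ ⟨q, rfl⟩
    have hxN : (x : Ω) ∈ Subgroup.normalizer (Q : Set Ω) := (Subgroup.mem_inf.mp x.2).2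
    have hq' : (x : Ω) * q * (x : Ω)⁻¹ ∈ Q := (Subgroup.mem_normalizer_iff.mp hxN _).mp q.2
    refine ⟨⟨_, hq'⟩, ?_⟩
    have e : (⟨(x : Ω) * q * (x : Ω)⁻¹, hQN hq'⟩ : normalizerIn S Q) =
        x * ⟨q, hQN q.2⟩ * x⁻¹ := Subtype.ext rfl
    show χ₂ ⟨(x : Ω) * q * (x : Ω)⁻¹, hQN hq'⟩ = χ₂ x * χ₂ ⟨q, hQN q.2⟩ * (χ₂ x)⁻¹
    rw [e, map_mul, map_mul, map_inv]
  haveI : Finite ↥(normalizerIn S χQ.range) := fs_finite_of_le inf_le_left
  have hbij : Function.Bijective (fun x : normalizerIn S Q =>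
      (⟨χ₂ x, hmem x⟩ : normalizerIn S χQ.range)) := by
    apply Function.Injective.bijective_of_nat_card_le
    · intro c d hcd
      exact hχ₂inj (congrArg Subtype.val hcd)
    · exact hcard
  have hnN : n ∈ normalizerIn S χQ.range := by
    refine Subgroup.mem_inf.mpr ⟨hnS, ?_⟩
    apply Cfsg.Agent.Lib.Helper6.sy_mem_normalizer_of_conj_le
    rintro _ ⟨q, rfl⟩
    have h := hχ₂a ⟨q, hQN q.2⟩
    exact ⟨⟨_, haQ q⟩, h⟩
  obtain ⟨c, hc⟩ := hbij.2 ⟨n, hnN⟩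
  have hc' : χ₂ c = n := congrArg Subtype.val hc
  apply Subgroup.subset_closure
  refine ⟨c, c.2, fun x => ?_⟩
  have h := hχ₂a x
  rw [← hc', ← map_inv, ← map_mul, ← map_mul] at h
  have h2 := hχ₂inj h
  exact congrArg (fun z : ↥(normalizerIn S Q) => (z : Ω)) h2

/-- subgroups fully normalized in the normalizer system are receptive in it -/
theorem nrm_receptive [Finite S] (p : ℕ) [Fact p.Prime] (hS : IsPGroup p S)
    (F : FusionSystem S) (hF : F.IsSaturated p) (Q : Subgroup Ω) (hQ : F.IsFullyNormalized Q)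
    (E : FusionSystem (normalizerIn S Q)) (hE : F.IsNormalizerSystem Q E) (P : Subgroup Ω)
    (hPfn : E.IsFullyNormalized P) : E.IsReceptive P := by
  have hp : p.Prime := Fact.out
  have hQS : Q ≤ S := hQ.1
  have hNS : normalizerIn S Q ≤ S := inf_le_left
  have hPN : P ≤ normalizerIn S Q := hPfn.1
  have hPS : P ≤ S := hPN.trans hNS
  have hRS : P ⊔ Q ≤ S := sup_le hPS hQS
  haveI : Finite P := fs_finite_of_le hPS
  haveI : Finite Q := fs_finite_of_le hQS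
  haveI : Finite ↥(P ⊔ Q) := fs_finite_of_le hRS
  set M := normalizerIn (normalizerIn S Q) P with hMdef
  have hMS : M ≤ S := inf_le_left.trans hNS
  have hMP : ∀ g ∈ M, g ∈ Subgroup.normalizer (P : Set Ω) := fun g hg => (Subgroup.mem_inf.mp hg).2
  have hMQ : ∀ g ∈ M, g ∈ Subgroup.normalizer (Q : Set Ω) :=
    fun g hg => (Subgroup.mem_inf.mp (Subgroup.mem_inf.mp hg).1).2
  have hMR : ∀ g ∈ M, g ∈ Subgroup.normalizer ((P ⊔ Q : Subgroup Ω) : Set Ω) :=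
    fun g hg => nc_normalizer_sup (hMP g hg) (hMQ g hg)
  have hRfc := nrm_fullyCentralized p hS F hF Q hQ E hE P hPfn
  have hRr := fs_receptive_of_fullyCentralized p hS F hF _ hRfc
  refine ⟨hPN, ?_⟩
  intro P₀ φ hφ hφr
  rw [hE P₀] at hφ
  obtain ⟨hφF, hP₀N, hφN, φb, hφb, hφbP, hφbQ⟩ := hφ
  have hφbinj := F.injective_of_mem hφb
  have hφbQ' : ∀ q : Q, φb (Subgroup.inclusion le_sup_right q) ∈ Q := nrm_mem_of_map_eq φb hφbQ
  have hR₀S : P₀ ⊔ Q ≤ S := (F.le_of_mem hφb).1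
  haveI : Finite ↥(P₀ ⊔ Q) := fs_finite_of_le hR₀S
  have hrange : φb.range = P ⊔ Q := by
    apply le_antisymm
    · rintro _ ⟨z, rfl⟩
      refine nc_map_sup_mem φb (fun x => ?_) hφbQ' z
      rw [hφbP, ← hφr]; exact ⟨x, rfl⟩
    · apply sup_le
      · intro y hy
        rw [← hφr] at hy
        obtain ⟨x, rfl⟩ := hy
        exact ⟨_, hφbP x⟩
      · intro q hq
        obtain ⟨q₀, hq₀⟩ := nrm_surj_on φb hφbinj hφbQ' q hq
        exact ⟨_, hq₀⟩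
  let e : ↥(P₀ ⊔ Q) ≃* ↥(P ⊔ Q) :=
    (MonoidHom.ofInjective hφbinj).trans (MulEquiv.subgroupCongr hrange)
  have he : ∀ z : ↥(P₀ ⊔ Q), ((e z : ↥(P ⊔ Q)) : Ω) = φb z := fun z => rfl
  have hXN : extender (normalizerIn S Q) P₀ φ ≤ normalizerIn S Q := fs_extender_le _ _ _
  have hXnorm : extender (normalizerIn S Q) P₀ φ ≤
      Subgroup.normalizer ((P₀ ⊔ Q : Subgroup Ω) : Set Ω) := by
    intro g hg
    obtain ⟨hgN, hgP₀, -⟩ := fs_mem_extender _ _ _ hg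
    exact nc_normalizer_sup hgP₀ (Subgroup.mem_inf.mp hgN).2
  let a : ↥(extender (normalizerIn S Q) P₀ φ) →* MulAut ↥(P ⊔ Q) :=
    (MulAut.congr e).toMonoidHom.comp
      ((P₀ ⊔ Q).normalizerMonoidHom.comp (Subgroup.inclusion hXnorm))
  have ha : ∀ (g : ↥(extender (normalizerIn S Q) P₀ φ)) (w : ↥(P₀ ⊔ Q))
      (hw : (g : Ω) * w * (g : Ω)⁻¹ ∈ P₀ ⊔ Q),
      ((a g (e w) : ↥(P ⊔ Q)) : Ω) = φb ⟨(g : Ω) * w * (g : Ω)⁻¹, hw⟩ := by
    intro g w hw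
    show ((e ((P₀ ⊔ Q).normalizerMonoidHom ⟨g, hXnorm g.2⟩ (e.symm (e w))) : ↥(P ⊔ Q)) : Ω) = _
    rw [MulEquiv.symm_apply_apply]
    rfl
  let L : Subgroup (MulAut ↥(P ⊔ Q)) :=
    { carrier := {β | β ∈ F.autGroup (P ⊔ Q) ∧
        (∀ q : Q, ((β (Subgroup.inclusion le_sup_right q) : ↥(P ⊔ Q)) : Ω) ∈ Q) ∧
        ∃ u ∈ M, ∀ x : P, ((β (Subgroup.inclusion le_sup_left x) : ↥(P ⊔ Q)) : Ω) = u * x * u⁻¹}
      one_mem' := ⟨Subgroup.one_mem _, fun q => q.2, 1, M.one_mem, fun x => by simp⟩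
      mul_mem' := by
        rintro β₁ β₂ ⟨h1, h1Q, u₁, hu₁, h1P⟩ ⟨h2, h2Q, u₂, hu₂, h2P⟩
        refine ⟨Subgroup.mul_mem _ h1 h2, fun q => ?_, u₁ * u₂, M.mul_mem hu₁ hu₂, fun x => ?_⟩
        · have e1 : β₂ (Subgroup.inclusion le_sup_right q) =
              Subgroup.inclusion le_sup_right ⟨_, h2Q q⟩ := Subtype.ext rfl
          show ((β₁ (β₂ (Subgroup.inclusion le_sup_right q)) : ↥(P ⊔ Q)) : Ω) ∈ Q
          rw [e1]; exact h1Q _
        · have hu₂P : u₂ * (x : Ω) * u₂⁻¹ ∈ P :=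
            (Subgroup.mem_normalizer_iff.mp (hMP u₂ hu₂) _).mp x.2
          have e1 : β₂ (Subgroup.inclusion le_sup_left x) =
              Subgroup.inclusion le_sup_left ⟨_, hu₂P⟩ := Subtype.ext (h2P x)
          show ((β₁ (β₂ (Subgroup.inclusion le_sup_left x)) : ↥(P ⊔ Q)) : Ω) = _
          rw [e1, h1P]
          show u₁ * (u₂ * (x : Ω) * u₂⁻¹) * u₁⁻¹ = u₁ * u₂ * x * (u₁ * u₂)⁻¹
          group
      inv_mem' := by
        rintro β ⟨h1, h1Q, u, hu, h1P⟩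
        refine ⟨Subgroup.inv_mem _ h1, fun q => ?_, u⁻¹, M.inv_mem hu, fun x => ?_⟩
        · have hi : Function.Injective (fun q₀ : Q => (⟨_, h1Q q₀⟩ : Q)) := by
            intro c d hcd
            have h2 : β (Subgroup.inclusion le_sup_right c) =
                β (Subgroup.inclusion le_sup_right d) :=
              Subtype.ext (congrArg (fun z : Q => (z : Ω)) hcd)
            exact Subtype.ext (congrArg (fun z : ↥(P ⊔ Q) => (z : Ω)) (β.injective h2))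
          obtain ⟨q₀, hq₀⟩ := (Finite.injective_iff_surjective.mp hi) q
          have e1 : β (Subgroup.inclusion le_sup_right q₀) = Subgroup.inclusion le_sup_right q :=
            Subtype.ext (congrArg (fun z : Q => (z : Ω)) hq₀)
          rw [← e1, MulAut.inv_apply_self]
          exact q₀.2
        · have huP : u⁻¹ * (x : Ω) * u⁻¹⁻¹ ∈ P :=
            (Subgroup.mem_normalizer_iff.mp (hMP u⁻¹ (M.inv_mem hu)) _).mp x.2
          have e1 : β (Subgroup.inclusion le_sup_left ⟨_, huP⟩) =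
              Subgroup.inclusion le_sup_left x := by
            apply Subtype.ext
            rw [h1P]
            show u * (u⁻¹ * (x : Ω) * u⁻¹⁻¹) * u⁻¹ = x
            group
          rw [← e1, MulAut.inv_apply_self]
          rfl }
  let T : Subgroup (MulAut ↥(P ⊔ Q)) :=
    (M.subgroupOf (Subgroup.normalizer ((P ⊔ Q : Subgroup Ω) : Set Ω))).map
      (P ⊔ Q).normalizerMonoidHom
  have hTmem : ∀ β : MulAut ↥(P ⊔ Q), β ∈ T ↔
      ∃ u ∈ M, ∀ z : ↥(P ⊔ Q), ((β z : ↥(P ⊔ Q)) : Ω) = u * z * u⁻¹ := by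
    intro β
    constructor
    · rintro ⟨n, hn, rfl⟩
      exact ⟨n, Subgroup.mem_subgroupOf.mp hn, fun z => rfl⟩
    · rintro ⟨u, hu, hβ⟩
      refine ⟨⟨u, hMR u hu⟩, Subgroup.mem_subgroupOf.mpr hu, ?_⟩
      apply MulEquiv.ext
      intro z
      apply Subtype.ext
      exact (hβ z).symm
  have hTp : IsPGroup p T := ((hS.to_le hMS).comap_subtype).map _
  have hTL : T ≤ L := by
    intro β hβ
    obtain ⟨u, hu, hβu⟩ := (hTmem β).mp hβ
    refine ⟨?_, fun q => ?_, u, hu, fun x => hβu _⟩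
    · have hβeq : β = (P ⊔ Q).normalizerMonoidHom ⟨u, hMR u hu⟩ := by
        apply MulEquiv.ext
        intro z
        apply Subtype.ext
        exact hβu z
      rw [hβeq]
      exact fs_nmh_mem_autGroup F hRS ⟨u, hMR u hu⟩ (hMS hu)
    · rw [hβu]
      exact (Subgroup.mem_normalizer_iff.mp (hMQ u hu) _).mp q.2
  have haL : ∀ g : ↥(extender (normalizerIn S Q) P₀ φ), a g ∈ L := by
    intro g
    obtain ⟨hgN, hgP₀, h, hhN, hgh⟩ := fs_mem_extender _ _ _ g.2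
    have hgQ : (g : Ω) ∈ Subgroup.normalizer (Q : Set Ω) := (Subgroup.mem_inf.mp hgN).2
    have hhP : h ∈ Subgroup.normalizer (P : Set Ω) := by
      apply Cfsg.Agent.Lib.Helper6.sy_mem_normalizer_of_conj_le
      intro y hy
      rw [← hφr] at hy
      obtain ⟨x₀, rfl⟩ := hy
      have hx' : (g : Ω) * x₀ * (g : Ω)⁻¹ ∈ P₀ := (Subgroup.mem_normalizer_iff.mp hgP₀ _).mp x₀.2
      rw [← hgh x₀ hx', ← hφr]
      exact ⟨_, rfl⟩
    refine ⟨?_, fun q => ?_, h, Subgroup.mem_inf.mpr ⟨hhN, hhP⟩, fun x => ?_⟩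
    · exact fs_autGroup_congr F hR₀S hRS φb hφb e he _
        (fs_nmh_mem_autGroup F hR₀S ⟨g, hXnorm g.2⟩ (hNS hgN))
    · obtain ⟨q₀, hq₀⟩ := nrm_surj_on φb hφbinj hφbQ' q q.2
      have e1 : Subgroup.inclusion (le_sup_right : Q ≤ P ⊔ Q) q =
          e (Subgroup.inclusion le_sup_right q₀) := Subtype.ext hq₀.symm
      have hq' : (g : Ω) * q₀ * (g : Ω)⁻¹ ∈ Q := (Subgroup.mem_normalizer_iff.mp hgQ _).mp q₀.2
      rw [e1, ha g _ (Subgroup.mem_sup_right hq')]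
      exact hφbQ' ⟨_, hq'⟩
    · obtain ⟨x₀, hx₀⟩ := hφr.ge x.2
      have e1 : Subgroup.inclusion (le_sup_left : P ≤ P ⊔ Q) x =
          e (Subgroup.inclusion le_sup_left x₀) :=
        Subtype.ext (by rw [he, hφbP]; exact hx₀.symm)
      have hx' : (g : Ω) * x₀ * (g : Ω)⁻¹ ∈ P₀ := (Subgroup.mem_normalizer_iff.mp hgP₀ _).mp x₀.2
      rw [e1, ha g _ (Subgroup.mem_sup_left hx')]
      have e2 : (⟨(g : Ω) * ((Subgroup.inclusion (le_sup_left : P₀ ≤ P₀ ⊔ Q) x₀ : ↥(P₀ ⊔ Q)) : Ω) *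
          (g : Ω)⁻¹, Subgroup.mem_sup_left hx'⟩ : ↥(P₀ ⊔ Q)) =
          Subgroup.inclusion le_sup_left ⟨_, hx'⟩ := rfl
      rw [e2, hφbP, hgh x₀ hx', hx₀]
  have hAp : IsPGroup p a.range :=
    IsPGroup.of_surjective (hS.to_le (hXN.trans hNS)) a.rangeRestrict a.rangeRestrict_surjective
  have hAL : a.range ≤ L := by
    rintro _ ⟨g, rfl⟩
    exact haL g
  have hmax : ∀ n ∈ L, (∃ k : ℕ, n ^ (p ^ k) = 1) →
      n ∈ Subgroup.normalizer (T : Set (MulAut ↥(P ⊔ Q))) → n ∈ T := by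
    rintro θ ⟨hθF, hθQ, u, hu, hθP⟩ ⟨k, hk⟩ hθN
    have huP : ∀ x : P, u * (x : Ω) * u⁻¹ ∈ P :=
      fun x => (Subgroup.mem_normalizer_iff.mp (hMP u hu) _).mp x.2
    obtain ⟨c, hc, hθc⟩ := nrm_pelement p hS F hF Q hQ E hE P hPfn θ hθF
      (fun x => by rw [hθP]; exact huP x) hθQ k hk (by
        intro g hg
        have ht : (P ⊔ Q).normalizerMonoidHom ⟨g, hMR g hg⟩ ∈ T :=
          (hTmem _).mpr ⟨g, hg, fun z => rfl⟩
        have h3 := (Subgroup.mem_normalizer_iff.mp hθN _).mp ht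
        obtain ⟨h, hh, h4⟩ := (hTmem _).mp h3
        refine ⟨h, hMS hh, fun x hx => ?_⟩
        have h5 := h4 (θ x)
        rw [← h5]
        show _ = ((θ ((P ⊔ Q).normalizerMonoidHom ⟨g, hMR g hg⟩ (θ⁻¹ (θ x))) : ↥(P ⊔ Q)) : Ω)
        rw [MulAut.inv_apply_self]
        rfl)
    exact (hTmem θ).mpr ⟨c, hc, hθc⟩
  obtain ⟨χ, hχL, hχA⟩ := nrm_conj_into p L T a.range hTL hAL hAp hTp hmax
  obtain ⟨hχF, hχQ, u, hu, hχP⟩ := hχL
  have hχF' : (P ⊔ Q).subtype.comp χ.toMonoidHom ∈ F.Hom (P ⊔ Q) :=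
    (fs_mem_autGroup_iff F hRS χ).mp hχF
  let ζ : ↥(P₀ ⊔ Q) →* Ω := ((P ⊔ Q).subtype.comp χ.toMonoidHom).comp e.toMonoidHom
  have hζ : ζ ∈ F.Hom (P₀ ⊔ Q) := fs_comp' F hφb hχF' (fun x => (e x).2) ζ (fun x => rfl)
  have hζr : ζ.range = P ⊔ Q := by
    ext y
    constructor
    · rintro ⟨x, rfl⟩
      exact (χ (e x)).2
    · intro hy
      refine ⟨e.symm (χ⁻¹ ⟨y, hy⟩), ?_⟩
      show ((χ (e (e.symm (χ⁻¹ ⟨y, hy⟩))) : ↥(P ⊔ Q)) : Ω) = y
      rw [MulEquiv.apply_symm_apply, MulAut.apply_inv_self]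
  obtain ⟨ψb, hψb, hext⟩ := hRr.2 (P₀ ⊔ Q) ζ hζ hζr
  have hR₀X : P₀ ⊔ Q ≤ extender S (P₀ ⊔ Q) ζ := fs_le_extender F hζ
  have hXle : extender (normalizerIn S Q) P₀ φ ≤ extender S (P₀ ⊔ Q) ζ := by
    intro g hg
    have h3 := hχA (a ⟨g, hg⟩) ⟨⟨g, hg⟩, rfl⟩
    obtain ⟨h', hh', h4⟩ := (hTmem _).mp h3
    apply Subgroup.subset_closure
    refine ⟨hNS (hXN hg), hXnorm hg, h', hMS hh', fun x hx => ?_⟩
    have h5 := h4 (χ (e x))
    show ((χ (e ⟨g * x * g⁻¹, hx⟩) : ↥(P ⊔ Q)) : Ω) = h' * ((χ (e x) : ↥(P ⊔ Q)) : Ω) * h'⁻¹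
    rw [← h5]
    show _ = ((χ (a ⟨g, hg⟩ (χ⁻¹ (χ (e x)))) : ↥(P ⊔ Q)) : Ω)
    rw [MulAut.inv_apply_self]
    have e3 : a ⟨g, hg⟩ (e x) = e ⟨g * x * g⁻¹, hx⟩ := by
      apply Subtype.ext
      rw [ha ⟨g, hg⟩ x hx]
      rfl
    rw [e3]
  have hXQle : extender (normalizerIn S Q) P₀ φ ⊔ Q ≤ extender S (P₀ ⊔ Q) ζ :=
    sup_le hXle (le_sup_right.trans hR₀X)
  have huS : u ∈ S := hMS hu
  have huQ : u ∈ Subgroup.normalizer (Q : Set Ω) := hMQ u hu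
  let ψ : ↥(extender (normalizerIn S Q) P₀ φ ⊔ Q) →* Ω :=
    (MulAut.conj u⁻¹).toMonoidHom.comp (ψb.comp (Subgroup.inclusion hXQle))
  have hψ1 : ψb.comp (Subgroup.inclusion hXQle) ∈
      F.Hom (extender (normalizerIn S Q) P₀ φ ⊔ Q) := fs_restrict F hXQle hψb
  have hψ : ψ ∈ F.Hom (extender (normalizerIn S Q) P₀ φ ⊔ Q) :=
    fs_comp' F hψ1 (F.conj_mem (g := u⁻¹) le_rfl (S.inv_mem huS))
      (fun x => (F.le_of_mem hψ1).2 x) ψ (fun x => rfl)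
  have hψQ : ∀ q : Q, ψ (Subgroup.inclusion le_sup_right q) ∈ Q := by
    intro q
    have h0 : ψb ⟨q, hXQle (Subgroup.mem_sup_right q.2)⟩ =
        ((χ (e (Subgroup.inclusion le_sup_right q)) : ↥(P ⊔ Q)) : Ω) :=
      hext q (Subgroup.mem_sup_right q.2) _
    have e1 : e (Subgroup.inclusion le_sup_right q) =
        Subgroup.inclusion le_sup_right ⟨_, hφbQ' q⟩ := Subtype.ext rfl
    have h1 : ψb ⟨q, hXQle (Subgroup.mem_sup_right q.2)⟩ ∈ Q := by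
      rw [h0, e1]; exact hχQ _
    exact (Subgroup.mem_normalizer_iff.mp (Subgroup.inv_mem _ huQ) _).mp h1
  refine ⟨ψ.comp (Subgroup.inclusion le_sup_left),
    nrm_hom_of_ext F Q hQS E hE _ hXN ψ hψ hψQ, ?_⟩
  intro x hP hN
  have h0 : ψb ⟨x, hXQle (Subgroup.mem_sup_left hN)⟩ =
      ((χ (e (Subgroup.inclusion le_sup_left ⟨x, hP⟩)) : ↥(P ⊔ Q)) : Ω) :=
    hext x (Subgroup.mem_sup_left hP) _
  have hφxP : φ ⟨x, hP⟩ ∈ P := hφr.le ⟨_, rfl⟩
  have e1 : e (Subgroup.inclusion le_sup_left ⟨x, hP⟩) =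
      Subgroup.inclusion le_sup_left ⟨φ ⟨x, hP⟩, hφxP⟩ := Subtype.ext (hφbP ⟨x, hP⟩)
  show u⁻¹ * ψb ⟨x, hXQle (Subgroup.mem_sup_left hN)⟩ * u⁻¹⁻¹ = φ ⟨x, hP⟩
  rw [h0, e1, hχP]
  show u⁻¹ * (u * φ ⟨x, hP⟩ * u⁻¹) * u⁻¹⁻¹ = φ ⟨x, hP⟩
  group

end Cfsg.Agent.Lib.Helper1
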