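import Mathlib
import Cfsg.Prelude.Def_FusionComponents
import Cfsg.Agent.Lib.Helper1.FusRad

/-! Radical subgroups and conjugation. -/

set_option autoImplicit false

namespace Cfsg.Agent.Lib.Helper1

open Cfsg Cfsg.Agent.Lib.Helper8 Cfsg.Agent.Lib.Helper7 FusionSystem

variable {Ω : Type*} [Group Ω] {S : Subgroup Ω}

theorem congr_symm_congr {G H : Type*} [Group G] [Group H] (e : G ≃* H) (a : MulAut G) :
    MulAut.congr e.symm (MulAut.congr e a) = a := by
  ext x
  simp [MulAut.congr_apply]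

theorem congr_conj {G H : Type*} [Group G] [Group H] (e : G ≃* H) (q : G) :
    MulAut.congr e (MulAut.conj q) = MulAut.conj (e q) := by
  ext y
  simp [MulAut.congr_apply]

/-- radical subgroups: the conjugates have `O_p(Aut) ≤ Inn` too -/
theorem fs_pCore_le_inn_of_conj (p : ℕ) (F : FusionSystem S)
    {P : Subgroup Ω} (hrad : F.IsRadical p P) {φ : P →* Ω} (hφ : φ ∈ F.Hom P) :
    (pCore p ↥(F.autGroup φ.range)).map (F.autGroup φ.range).subtype ≤ Inn ↥φ.range := by
  have hPS := hrad.1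
  have hRS : φ.range ≤ S := fs_range_le F hφ
  have hinj := F.injective_of_mem hφ
  let φe : P ≃* φ.range := MonoidHom.ofInjective hinj
  have hφe : ∀ x : P, ((φe x : φ.range) : Ω) = φ x := fun x => rfl
  obtain ⟨ψ, hψ, hψφ, -⟩ := fs_inv F hφ rfl
  have hφe' : ∀ y : φ.range, ((φe.symm y : P) : Ω) = ψ y := by
    intro y
    obtain ⟨x, rfl⟩ := φe.surjective y
    rw [MulEquiv.symm_apply_apply]
    exact (hψφ x (φe x).2).symm
  have hfwd : ∀ α ∈ F.autGroup P, MulAut.congr φe α ∈ F.autGroup φ.range :=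
    fun α hα => fs_autGroup_congr F hPS hRS φ hφ φe hφe α hα
  have hbwd : ∀ κ ∈ F.autGroup φ.range, MulAut.congr φe.symm κ ∈ F.autGroup P :=
    fun κ hκ => fs_autGroup_congr F hRS hPS ψ hψ φe.symm hφe' κ hκ
  have hKA : ((pCore p ↥(F.autGroup φ.range)).map (F.autGroup φ.range).subtype).map
      (MulAut.congr φe.symm).toMonoidHom ≤ F.autGroup P := by
    rintro _ ⟨_, ⟨κ, -, rfl⟩, rfl⟩
    exact hbwd _ κ.2
  have hKn : ((((pCore p ↥(F.autGroup φ.range)).map (F.autGroup φ.range).subtype).map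
      (MulAut.congr φe.symm).toMonoidHom).subgroupOf (F.autGroup P)).Normal := by
    constructor
    intro w hw a
    rw [Subgroup.mem_subgroupOf] at hw ⊢
    obtain ⟨_, ⟨κ, hκ, rfl⟩, e⟩ := hw
    have hn := (pCore_normal p ↥(F.autGroup φ.range)).conj_mem κ hκ
      ⟨MulAut.congr φe a, hfwd a a.2⟩
    refine ⟨_, ⟨_, hn, rfl⟩, ?_⟩
    show MulAut.congr φe.symm (MulAut.congr φe (a : MulAut P) * (κ : MulAut φ.range) *
      (MulAut.congr φe (a : MulAut P))⁻¹) = (a : MulAut P) * (w : MulAut P) * (a : MulAut P)⁻¹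
    have e' : MulAut.congr φe.symm (κ : MulAut φ.range) = (w : MulAut P) := e
    rw [map_mul, map_mul, map_inv, e', congr_symm_congr]
  have hKp : IsPGroup p ↥(((pCore p ↥(F.autGroup φ.range)).map (F.autGroup φ.range).subtype).map
      (MulAut.congr φe.symm).toMonoidHom) :=
    ((Cfsg.Agent.Lib.Helper6.pc_isPGroup p _).map _).map _
  have hle := le_pCore hKn hKp.comap_subtype
  rintro _ ⟨κ, hκ, rfl⟩
  have h1 : MulAut.congr φe.symm (κ : MulAut φ.range) ∈
      ((pCore p ↥(F.autGroup φ.range)).map (F.autGroup φ.range).subtype).map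
        (MulAut.congr φe.symm).toMonoidHom := ⟨_, ⟨κ, hκ, rfl⟩, rfl⟩
  have h2 : MulAut.congr φe.symm (κ : MulAut φ.range) ∈ Inn P := by
    rw [← hrad.2]
    exact ⟨⟨_, hKA h1⟩, hle (Subgroup.mem_subgroupOf.mpr h1), rfl⟩
  obtain ⟨q, hq⟩ := h2
  refine ⟨φe q, ?_⟩
  have h3 := congrArg (MulAut.congr φe) hq
  rw [congr_conj] at h3
  rw [h3]
  have h4 := congr_symm_congr φe.symm (κ : MulAut φ.range)
  rw [MulEquiv.symm_symm] at h4
  exact h4

end Cfsg.Agent.Lib.Helper1
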