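import Mathlib
import Cfsg.Prelude.Def_FusionComponents
import Cfsg.Agent.Lib.Helper1.FusBasic

/-! The full subsystem of a fusion system on a subgroup. -/

set_option autoImplicit false

namespace Cfsg.Agent.Lib.Helper1

open Cfsg FusionSystem

variable {Ω : Type*} [Group Ω] {U : Subgroup Ω}

/-- the full subsystem of `F` on `T ≤ U`: all maps of `F` between subgroups of `T` -/
def fs_fullSub (F : FusionSystem U) (T : Subgroup Ω) (hTU : T ≤ U) : FusionSystem T where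
  Hom P := {φ | φ ∈ F.Hom P ∧ P ≤ T ∧ ∀ x : P, φ x ∈ T}
  le_of_mem h := ⟨h.2.1, h.2.2⟩
  injective_of_mem h := F.injective_of_mem h.1
  conj_mem := by
    intro P g hP hg
    exact ⟨F.conj_mem (hP.trans hTU) (hTU hg), hP,
      fun x => T.mul_mem (T.mul_mem hg (hP x.2)) (T.inv_mem hg)⟩
  comp_mem := by
    intro P Q φ ψ hφ hψ h
    exact ⟨F.comp_mem hφ.1 hψ.1 h, hφ.2.1, fun x => hψ.2.2 _⟩
  inv_mem := by
    intro P φ hφ
    obtain ⟨ψ, hψ, h⟩ := F.inv_mem hφ.1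
    refine ⟨ψ, ⟨hψ, ?_, ?_⟩, h⟩
    · rintro _ ⟨x, rfl⟩
      exact hφ.2.2 x
    · rintro ⟨_, x, rfl⟩
      rw [h x]
      exact hφ.2.1 x.2

theorem fs_fullSub_mem (F : FusionSystem U) (T : Subgroup Ω) (hTU : T ≤ U) {P : Subgroup Ω}
    {φ : P →* Ω} : φ ∈ (fs_fullSub F T hTU).Hom P ↔ φ ∈ F.Hom P ∧ P ≤ T ∧ ∀ x : P, φ x ∈ T :=
  Iff.rfl

end Cfsg.Agent.Lib.Helper1
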