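import Mathlib
import Cfsg.Agent.Lib.Helper1.MetaOdd
import Cfsg.Agent.Lib.Helper1.GenFit
import Cfsg.Agent.S0026
import Cfsg.Agent.S0027
import Cfsg.Agent.S0055

set_option autoImplicit false

universe u v

namespace Cfsg.Agent.Lib.Helper1

open scoped commutatorElement

theorem avg_fix {R : Type u} {A : Type v} [Group R] [Finite R] [Group A] [Finite A]
    (ρ : A →* MulAut R)
    (hgen : Subgroup.closure {g : R | ∃ a : A, ∃ x : R, g = x⁻¹ * ρ a x} = ⊤)
    (P : Subgroup R) (hab : ∀ x y : R, ⁅x, y⁆ ∈ P)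
    (x : R) (hx : ∀ a : A, x⁻¹ * ρ a x ∈ P) (hcop : (Nat.card A).Coprime (orderOf x)) :
    x ∈ P := by
  classical
  haveI := Fintype.ofFinite A
  have hcomP : commutator R ≤ P := by
    rw [commutator_def, Subgroup.commutator_le]
    intro g₁ _ g₂ _
    exact hab g₁ g₂
  obtain ⟨τ, hτ⟩ : ∃ τ : R →* Abelianization R,
      τ = ∏ a : A, (Abelianization.of).comp (ρ a).toMonoidHom := ⟨_, rfl⟩
  have hτap : ∀ r : R, τ r = ∏ a : A, Abelianization.of (ρ a r) := by
    intro r
    rw [hτ, MonoidHom.finset_prod_apply]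
    rfl
  have hτinv : ∀ (b : A) (r : R), τ (ρ b r) = τ r := by
    intro b r
    rw [hτap, hτap]
    refine Fintype.prod_equiv (Equiv.mulRight b) _ _ (fun a => ?_)
    rw [Equiv.coe_mulRight, map_mul]
    rfl
  have hker : τ.ker = ⊤ := by
    rw [eq_top_iff, ← hgen, Subgroup.closure_le]
    rintro g ⟨a, y, rfl⟩
    show τ (y⁻¹ * ρ a y) = 1
    rw [map_mul, hτinv, map_inv, inv_mul_cancel]
  have h1 : τ x = 1 := by
    have h0 : x ∈ τ.ker := by rw [hker]; exact Subgroup.mem_top x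
    exact h0
  have h2 : τ x = Abelianization.of x ^ Fintype.card A *
      ∏ a : A, Abelianization.of (x⁻¹ * ρ a x) := by
    rw [hτap]
    rw [show (∏ a : A, Abelianization.of (ρ a x)) =
      ∏ a : A, (Abelianization.of x * Abelianization.of (x⁻¹ * ρ a x)) from
      Finset.prod_congr rfl (fun a _ => by rw [← map_mul, mul_inv_cancel_left])]
    rw [Finset.prod_mul_distrib, Finset.prod_const, Finset.card_univ]
  have h3 : (∏ a : A, Abelianization.of (x⁻¹ * ρ a x)) ∈ P.map Abelianization.of :=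
    Subgroup.prod_mem _ (fun a _ => Subgroup.mem_map_of_mem _ (hx a))
  have h4 : Abelianization.of (x ^ Fintype.card A) ∈ P.map Abelianization.of := by
    rw [map_pow]
    have h5 : Abelianization.of x ^ Fintype.card A =
        (∏ a : A, Abelianization.of (x⁻¹ * ρ a x))⁻¹ := by
      rw [eq_inv_iff_mul_eq_one, ← h2, h1]
    rw [h5]; exact Subgroup.inv_mem _ h3
  obtain ⟨y, hy, hyx⟩ := h4
  have h6 : y⁻¹ * x ^ Fintype.card A ∈ commutator R := by
    rw [← Abelianization.ker_of, MonoidHom.mem_ker, map_mul, map_inv, hyx, inv_mul_cancel]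
  have h7 : x ^ Fintype.card A ∈ P := by
    have h8 := P.mul_mem hy (hcomP h6)
    rwa [mul_inv_cancel_left] at h8
  rw [Nat.card_eq_fintype_card] at hcop
  by_cases h1o : orderOf x = 1
  · rw [orderOf_eq_one_iff.mp h1o]; exact P.one_mem
  · have hlt : 1 < orderOf x := by
      have := orderOf_pos x
      omega
    obtain ⟨m, -, hm⟩ := Nat.exists_mul_mod_eq_one_of_coprime hcop hlt
    have h9 : x = (x ^ Fintype.card A) ^ m := by
      rw [← pow_mul, ← pow_mod_orderOf, hm, pow_one]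
    rw [h9]; exact P.pow_mem h7 m

theorem meta_act_core {R : Type u} {A : Type v} [Group R] [Finite R] [Group A] [Finite A] {p : ℕ}
    [Fact p.Prime] (hp2 : p ≠ 2) (hR : IsPGroup p R) (hm : Cfsg.IsMetacyclic R)
    (ρ : A →* MulAut R) (hcop : (Nat.card A).Coprime p)
    (hgen : Subgroup.closure {g : R | ∃ a : A, ∃ x : R, g = x⁻¹ * ρ a x} = ⊤)
    (hc : Nat.card (commutator R) = p) : False := by
  classical
  have hp := (Fact.out : p.Prime)
  have hcomcen : commutator R ≤ Subgroup.center R :=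
    Cfsg.Agent.Lib.Helper8.h8_normal_card_prime_le_center hR (commutator R) hc
  have hcm : ∀ x y : R, ⁅x, y⁆ ∈ commutator R := by
    intro x y
    rw [commutator_def]
    exact Subgroup.commutator_mem_commutator (Subgroup.mem_top x) (Subgroup.mem_top y)
  have hcen : ∀ x y z : R, Commute ⁅x, y⁆ z := by
    intro x y z
    exact (Subgroup.mem_center_iff.mp (hcomcen (hcm x y)) z).symm
  have hcompow : ∀ w ∈ commutator R, w ^ p = 1 := by
    intro w hw
    have h1 : (⟨w, hw⟩ : commutator R) ^ p = 1 := by rw [← hc]; exact pow_card_eq_one'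
    exact congrArg Subtype.val h1
  have hcp : ∀ x y : R, ⁅x, y⁆ ^ p = 1 := fun x y => hcompow _ (hcm x y)
  obtain ⟨φ, hφ⟩ : ∃ φ : R →* R, ∀ x, φ x = x ^ p :=
    ⟨{ toFun := fun x => x ^ p
       map_one' := one_pow p
       map_mul' := fun x y => c2_mul_pow_p hp hp2 x y (hcen y x) (hcp y x) }, fun x => rfl⟩
  have hpowmul : ∀ (i : ℕ) (x y : R), (x * y) ^ (p ^ i) = x ^ (p ^ i) * y ^ (p ^ i) := by
    intro i
    induction i with
    | zero => intro x y; simp
    | succ i ih =>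
      intro x y
      rw [pow_succ, pow_mul, pow_mul, pow_mul, ih, ← hφ, ← hφ, ← hφ, map_mul]
  obtain ⟨Φ, hΦ⟩ : ∃ Φ : ℕ → (R →* R), ∀ i x, Φ i x = x ^ (p ^ i) :=
    ⟨fun i => { toFun := fun x => x ^ (p ^ i)
                map_one' := one_pow _
                map_mul' := hpowmul i }, fun i x => rfl⟩
  have hpc : ∀ x : R, x ^ p ∈ Subgroup.center R := by
    intro x
    rw [Subgroup.mem_center_iff]
    intro g
    have h1 : ⁅x ^ p, g⁆ = 1 := by
      have h2 := map_pow (c2_commL hcen g) x p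
      rw [c2_commL_apply, c2_commL_apply, hcp] at h2
      exact h2
    exact (commutatorElement_eq_one_iff_commute.mp h1).eq.symm
  have hker : Nat.card φ.ker ≤ p ^ 2 :=
    meta_exp_card hm p hp.pos φ.ker (fun x hx => by rw [← hφ]; exact hx)
  have hBle : φ.range ≤ Subgroup.center R := by
    rintro _ ⟨x, rfl⟩
    rw [hφ]; exact hpc x
  have hcomne : commutator R ≠ ⊥ := by
    intro h
    rw [h, Subgroup.card_bot] at hc
    exact hp.one_lt.ne hc
  have hnonab : ¬ ∀ a b : R, a * b = b * a := by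
    intro hab
    apply hcomne
    rw [commutator_def, Subgroup.commutator_eq_bot_iff_le_centralizer]
    intro x _
    rw [Subgroup.mem_centralizer_iff]
    intro y _
    exact hab y x
  have hidx : (Subgroup.center R).index = p ^ 2 ∧ φ.range = Subgroup.center R := by
    have h1 : Nat.card φ.ker = φ.range.index := by
      have e1 := φ.range.card_mul_index
      have e2 := φ.ker.card_mul_index
      rw [Subgroup.index_ker] at e2
      have h0 : 0 < Nat.card φ.range := Nat.card_pos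
      have h00 : Nat.card φ.range * φ.range.index = Nat.card φ.range * Nat.card φ.ker := by
        rw [e1, mul_comm, e2]
      exact (Nat.eq_of_mul_eq_mul_left h0 h00).symm
    have h2 : (Subgroup.center R).index ∣ φ.range.index := Subgroup.index_dvd_of_le hBle
    obtain ⟨k, hk⟩ : ∃ k, (Subgroup.center R).index = p ^ k := by
      obtain ⟨m, hm'⟩ := IsPGroup.iff_card.mp hR
      obtain ⟨k, -, hk⟩ := (Nat.dvd_prime_pow hp).mp (hm' ▸ (Subgroup.center R).index_dvd_card)
      exact ⟨k, hk⟩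
    have hpos : 0 < φ.range.index := by rw [← h1]; exact Nat.card_pos
    have hk2 : 2 ≤ k := by
      by_contra hcon
      have hk1 : k = 0 ∨ k = 1 := by omega
      apply hnonab
      haveI : IsCyclic (R ⧸ Subgroup.center R) := by
        rcases hk1 with rfl | rfl
        · haveI : Subsingleton (R ⧸ Subgroup.center R) :=
            (Nat.card_eq_one_iff_unique.mp (by rw [← Subgroup.index_eq_card]; simpa using hk)).1
          exact isCyclic_of_subsingleton
        · exact isCyclic_of_prime_card (p := p) (by rw [← Subgroup.index_eq_card]; simpa using hk)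
      exact commutative_of_cyclic_center_quotient (QuotientGroup.mk' (Subgroup.center R))
        (by rw [QuotientGroup.ker_mk'])
    have h3 : p ^ k ≤ p ^ 2 := by
      rw [← hk]
      exact le_trans (Nat.le_of_dvd hpos h2) (h1 ▸ hker)
    have hk3 : k ≤ 2 := (Nat.pow_le_pow_iff_right hp.one_lt).mp h3
    have hk4 : k = 2 := le_antisymm hk3 hk2
    subst hk4
    refine ⟨hk, ?_⟩
    have h4 : φ.range.index = p ^ 2 := by
      apply le_antisymm (h1 ▸ hker)
      rw [← hk]; exact Nat.le_of_dvd hpos h2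
    apply Subgroup.eq_of_le_of_card_ge hBle
    have e1 := φ.range.card_mul_index
    have e2 := (Subgroup.center R).card_mul_index
    rw [h4] at e1; rw [hk] at e2
    have h5 : Nat.card φ.range = Nat.card (Subgroup.center R) :=
      Nat.eq_of_mul_eq_mul_right (pow_pos hp.pos 2) (e1.trans e2.symm)
    exact h5.ge
  haveI hcyc : IsCyclic (commutator R) := isCyclic_of_prime_card (p := p) hc
  obtain ⟨z, hzmem, hzgen⟩ : ∃ z : R, z ∈ commutator R ∧
      ∀ w ∈ commutator R, ∃ j : ℕ, w = z ^ j := by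
    obtain ⟨g, hg⟩ := IsCyclic.exists_generator (α := commutator R)
    refine ⟨g, g.2, fun w hw => ?_⟩
    have h1 := (mem_powers_iff_mem_zpowers).mpr (hg ⟨w, hw⟩)
    obtain ⟨j, hj⟩ := (Submonoid.mem_powers_iff _ _).mp h1
    refine ⟨j, ?_⟩
    have h2 := congrArg Subtype.val hj
    rw [Subgroup.coe_pow] at h2
    exact h2.symm
  have hz1 : z ≠ 1 := by
    intro h
    apply hcomne
    rw [eq_bot_iff]
    intro w hw
    obtain ⟨j, rfl⟩ := hzgen w hw
    rw [h, one_pow]; exact Subgroup.one_mem _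
  have hzp : z ^ p = 1 := hcompow z hzmem
  have hcomz : ∀ x y : R, ∃ j : ℕ, ⁅x, y⁆ = z ^ j := fun x y => hzgen _ (hcm x y)
  have hchar : ∀ (ψ : R ≃* R) (w : R), w ∈ commutator R → ψ w ∈ commutator R := by
    intro ψ w hw
    exact (Subgroup.characteristic_iff_map_le.mp
      (inferInstance : (commutator R).Characteristic) ψ) (Subgroup.mem_map_of_mem _ hw)
  have hAz : ∀ a : A, ∃ k : ℕ, ρ a z = z ^ k ∧ k.Coprime p := by
    intro a
    obtain ⟨k, hk⟩ := hzgen _ (hchar (ρ a) z hzmem)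
    refine ⟨k, hk, ?_⟩
    rw [Nat.coprime_comm, hp.coprime_iff_not_dvd]
    rintro ⟨m, rfl⟩
    rw [pow_mul, hzp, one_pow] at hk
    exact hz1 ((ρ a).injective (hk.trans (map_one (ρ a)).symm))
  have hkill : ∀ k : ℕ, k.Coprime p → ∀ w : R, w ^ p = 1 → w ^ k = 1 → w = 1 := by
    intro k hk w hwp hwk
    have h1 : orderOf w ∣ p := orderOf_dvd_of_pow_eq_one hwp
    have h2 : orderOf w ∣ k := orderOf_dvd_of_pow_eq_one hwk
    have h3 : orderOf w ∣ 1 := by
      have h4 := Nat.dvd_gcd h2 h1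
      rwa [hk.gcd_eq_one] at h4
    exact orderOf_eq_one_iff.mp (Nat.dvd_one.mp h3)
  have hzB : z ∈ φ.range := by rw [hidx.2]; exact hcomcen hzmem
  have hex : ∃ j, z ∉ (Φ j).range := by
    obtain ⟨m, hm'⟩ := IsPGroup.iff_card.mp hR
    refine ⟨m, ?_⟩
    rintro ⟨x, hx⟩
    rw [hΦ, ← hm', pow_card_eq_one'] at hx
    exact hz1 hx.symm
  obtain ⟨j₀, hj₀⟩ : ∃ j₀, j₀ = Nat.find hex := ⟨_, rfl⟩
  have hj₀n : z ∉ (Φ j₀).range := by rw [hj₀]; exact Nat.find_spec hex
  have hj₀min : ∀ j < j₀, z ∈ (Φ j).range := by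
    intro j hj
    rw [hj₀] at hj
    exact not_not.mp (Nat.find_min hex hj)
  have hj₀2 : 2 ≤ j₀ := by
    by_contra hcon
    have h01 : j₀ = 0 ∨ j₀ = 1 := by omega
    rcases h01 with h | h
    · apply hj₀n; rw [h]; exact ⟨z, by rw [hΦ, pow_zero, pow_one]⟩
    · apply hj₀n; rw [h]
      obtain ⟨x, hx⟩ := hzB
      exact ⟨x, by rw [hΦ, pow_one, ← hφ]; exact hx⟩
  obtain ⟨i, hi⟩ : ∃ i, j₀ = i + 1 := ⟨j₀ - 1, by omega⟩
  obtain ⟨u, hu⟩ := hj₀min i (by omega)
  rw [hi] at hj₀n
  have hΦs : ∀ v : R, Φ (i + 1) v = Φ i (v ^ p) := by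
    intro v; rw [hΦ, hΦ, ← pow_mul, pow_succ']
  have hρΦ : ∀ (a : A) (j : ℕ) (x : R), ρ a (Φ j x) = Φ j (ρ a x) := by
    intro a j x; rw [hΦ, hΦ, map_pow]
  have hu_act : ∀ a : A, ∃ k : ℕ, k.Coprime p ∧ ρ a z = z ^ k ∧
      (u ^ k)⁻¹ * ρ a u ∈ (Φ i).ker := by
    intro a
    obtain ⟨k, hk, hkc⟩ := hAz a
    refine ⟨k, hkc, hk, ?_⟩
    rw [MonoidHom.mem_ker, map_mul, map_inv, map_pow, ← hρΦ, hu, hk, inv_mul_cancel]
  have hcomm_act : ∀ (a : A) (k : ℕ), ρ a z = z ^ k → ∀ x y : R,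
      ρ a ⁅x, y⁆ = ⁅x, y⁆ ^ k := by
    intro a k hk x y
    obtain ⟨j, hj⟩ := hcomz x y
    rw [hj, map_pow, hk, ← pow_mul, ← pow_mul, mul_comm]
  have hu_nc : u ∉ Subgroup.center R := by
    rw [← hidx.2]
    rintro ⟨v, hv⟩
    apply hj₀n
    exact ⟨v, by rw [hΦs, ← hφ, hv]; exact hu⟩
  have hcomZ : ∀ x y : R, ⁅x, y⁆ ∈ Subgroup.center R := fun x y => hcomcen (hcm x y)
  by_cases hcase : (Φ i).ker ≤ Subgroup.center R
  · apply hu_nc
    have hall : Subgroup.closure {g : R | ∃ a : A, ∃ x : R, g = x⁻¹ * ρ a x} ≤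
        (c2_commL hcen u).ker := by
      rw [Subgroup.closure_le]
      rintro g ⟨a, y, rfl⟩
      obtain ⟨k, hkc, hk, hw⟩ := hu_act a
      have hwc := hcase hw
      have h1 : ρ a ⁅y, u⁆ = ⁅y, u⁆ ^ k := hcomm_act a k hk y u
      have h2 : ρ a ⁅y, u⁆ = ⁅ρ a y, ρ a u⁆ := map_commutatorElement (ρ a) y u
      have h3 : ρ a u = u ^ k * ((u ^ k)⁻¹ * ρ a u) := by rw [mul_inv_cancel_left]
      have h4 : ⁅ρ a y, ρ a u⁆ = ⁅ρ a y, u⁆ ^ k := by
        have h40 : ⁅ρ a y, (u ^ k)⁻¹ * ρ a u⁆ = 1 := by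
          rw [commutatorElement_eq_one_iff_commute]
          exact Subgroup.mem_center_iff.mp hwc (ρ a y)
        rw [h3, ← c2_commR_apply hcen, map_mul, map_pow, c2_commR_apply, c2_commR_apply, h40,
          mul_one]
      have h5 : (c2_commL hcen u (y⁻¹ * ρ a y)) ^ k = 1 := by
        rw [map_mul, map_inv, c2_commL_apply, c2_commL_apply,
          ((hcen y u _).inv_left).mul_pow, inv_pow, ← h1, h2, h4, inv_mul_cancel]
      exact hkill k hkc _ (by rw [c2_commL_apply]; exact hcp _ _) h5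
    rw [hgen] at hall
    rw [Subgroup.mem_center_iff]
    intro g
    have h1 : c2_commL hcen u g = 1 := hall (Subgroup.mem_top g)
    rw [c2_commL_apply, commutatorElement_eq_one_iff_commute] at h1
    exact h1.eq
  · obtain ⟨w₀, hw₀k, hw₀c⟩ := SetLike.not_le_iff_exists.mp hcase
    obtain ⟨M₀, hM₀⟩ : ∃ M₀ : Subgroup R, M₀ = (Φ i).ker ⊔ Subgroup.center R := ⟨_, rfl⟩
    haveI hM₀n : M₀.Normal := by rw [hM₀]; infer_instance
    have hkM : (Φ i).ker ≤ M₀ := by rw [hM₀]; exact le_sup_left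
    have hZM : Subgroup.center R ≤ M₀ := by rw [hM₀]; exact le_sup_right
    have huM : u ∉ M₀ := by
      intro h
      have hle : M₀ ≤ ((Φ (i + 1)).range).comap (Φ i) := by
        rw [hM₀, sup_le_iff]
        constructor
        · intro x hx
          rw [Subgroup.mem_comap, MonoidHom.mem_ker.mp hx]
          exact Subgroup.one_mem _
        · rw [← hidx.2]
          rintro _ ⟨v, rfl⟩
          rw [Subgroup.mem_comap, hφ, ← hΦs]
          exact ⟨v, rfl⟩
      have h1 := hle h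
      rw [Subgroup.mem_comap, hu] at h1
      exact hj₀n h1
    have hrel : (Subgroup.center R).relIndex M₀ * M₀.index = p ^ 2 := by
      rw [Subgroup.relIndex_mul_index hZM, hidx.1]
    have hM₀i : M₀.index ≠ 1 := by
      rw [Ne, Subgroup.index_eq_one]
      intro h; apply huM; rw [h]; exact Subgroup.mem_top u
    have hreli : (Subgroup.center R).relIndex M₀ ≠ 1 := by
      rw [Ne, Subgroup.relIndex_eq_one]
      intro h; exact hw₀c (h (hkM hw₀k))
    have hboth : (Subgroup.center R).relIndex M₀ = p ∧ M₀.index = p := by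
      have hd : M₀.index ∣ p ^ 2 := Dvd.intro_left _ hrel
      obtain ⟨e, he2, he⟩ := (Nat.dvd_prime_pow hp).mp hd
      interval_cases e
      · exact absurd (by simpa using he) hM₀i
      · rw [he, pow_one] at hrel ⊢
        refine ⟨?_, rfl⟩
        have h0 : (Subgroup.center R).relIndex M₀ * p = p * p := by rw [hrel, sq]
        exact Nat.eq_of_mul_eq_mul_right hp.pos h0
      · rw [he] at hrel
        have h0 : (Subgroup.center R).relIndex M₀ * p ^ 2 = 1 * p ^ 2 := by rw [hrel, one_mul]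
        exact absurd (Nat.eq_of_mul_eq_mul_right (pow_pos hp.pos 2) h0) hreli
    have hM₀ab : ∀ x ∈ M₀, ∀ y ∈ M₀, x * y = y * x := by
      haveI : IsCyclic (M₀ ⧸ (Subgroup.center R).subgroupOf M₀) :=
        isCyclic_of_prime_card (p := p) (by rw [← Subgroup.index_eq_card]; exact hboth.1)
      intro x hx y hy
      have h1 := commutative_of_cyclic_center_quotient
        (QuotientGroup.mk' ((Subgroup.center R).subgroupOf M₀)) (by
          rw [QuotientGroup.ker_mk']
          intro t ht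
          rw [Subgroup.mem_subgroupOf] at ht
          rw [Subgroup.mem_center_iff]
          intro g
          apply Subtype.ext
          exact Subgroup.mem_center_iff.mp ht g) (⟨x, hx⟩ : M₀) ⟨y, hy⟩
      have h2 := congrArg Subtype.val h1
      exact h2
    have hgenu : ∀ x : R, ∃ s : ℤ, (u ^ s)⁻¹ * x ∈ M₀ := by
      intro x
      have hcard : Nat.card (R ⧸ M₀) = p := by rw [← Subgroup.index_eq_card]; exact hboth.2
      have hne : (QuotientGroup.mk u : R ⧸ M₀) ≠ 1 := by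
        rw [Ne, QuotientGroup.eq_one_iff]; exact huM
      have htop := zpowers_eq_top_of_prime_card hcard hne
      have hx : (QuotientGroup.mk x : R ⧸ M₀) ∈
          Subgroup.zpowers (QuotientGroup.mk u : R ⧸ M₀) := by
        rw [htop]; exact Subgroup.mem_top _
      obtain ⟨s, hs⟩ := Subgroup.mem_zpowers_iff.mp hx
      refine ⟨s, ?_⟩
      rw [← QuotientGroup.mk_zpow] at hs
      exact QuotientGroup.eq.mp hs
    have hcentral : ∀ t ∈ (Φ i).ker, Commute u t → t ∈ Subgroup.center R := by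
      intro t ht hut
      rw [Subgroup.mem_center_iff]
      intro g
      obtain ⟨s, hs⟩ := hgenu g
      have h1 : g = u ^ s * ((u ^ s)⁻¹ * g) := by rw [mul_inv_cancel_left]
      have h2 : ((u ^ s)⁻¹ * g) * t = t * ((u ^ s)⁻¹ * g) := hM₀ab _ hs _ (hkM ht)
      have h3 : u ^ s * t = t * u ^ s := (hut.zpow_left s).eq
      calc g * t = u ^ s * (((u ^ s)⁻¹ * g) * t) := by rw [← mul_assoc, ← h1]
        _ = (u ^ s * t) * ((u ^ s)⁻¹ * g) := by rw [h2, mul_assoc]
        _ = t * (u ^ s * ((u ^ s)⁻¹ * g)) := by rw [h3, mul_assoc]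
        _ = t * g := by rw [← h1]
    apply hw₀c
    apply avg_fix ρ hgen (Subgroup.center R) hcomZ w₀
    · intro a
      obtain ⟨k, hkc, hk, hw⟩ := hu_act a
      have hw' : ρ a w₀ ∈ (Φ i).ker := by
        rw [MonoidHom.mem_ker, ← hρΦ, MonoidHom.mem_ker.mp hw₀k, map_one]
      have ht : w₀⁻¹ * ρ a w₀ ∈ (Φ i).ker :=
        Subgroup.mul_mem _ (Subgroup.inv_mem _ hw₀k) hw'
      apply hcentral _ ht
      rw [← commutatorElement_eq_one_iff_commute]
      have h1 : ρ a ⁅u, w₀⁆ = ⁅u, w₀⁆ ^ k := hcomm_act a k hk u w₀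
      have h2 : ρ a ⁅u, w₀⁆ = ⁅ρ a u, ρ a w₀⁆ := map_commutatorElement (ρ a) u w₀
      have h3 : ρ a u = u ^ k * ((u ^ k)⁻¹ * ρ a u) := by rw [mul_inv_cancel_left]
      have h4 : ⁅ρ a u, ρ a w₀⁆ = ⁅u, ρ a w₀⁆ ^ k := by
        have h40 : ⁅(u ^ k)⁻¹ * ρ a u, ρ a w₀⁆ = 1 := by
          rw [commutatorElement_eq_one_iff_commute]
          exact hM₀ab _ (hkM hw) _ (hkM hw')
        rw [h3, ← c2_commL_apply hcen, map_mul, map_pow, c2_commL_apply, c2_commL_apply, h40,
          mul_one]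
      have h5 : (c2_commR hcen u (w₀⁻¹ * ρ a w₀)) ^ k = 1 := by
        rw [map_mul, map_inv, c2_commR_apply, c2_commR_apply,
          ((hcen u w₀ _).inv_left).mul_pow, inv_pow, ← h1, h2, h4, inv_mul_cancel]
      have h6 := hkill k hkc _ (by rw [c2_commR_apply]; exact hcp _ _) h5
      rw [c2_commR_apply] at h6
      exact h6
    · obtain ⟨m, hm'⟩ := (IsPGroup.iff_orderOf.mp hR) w₀
      rw [hm']
      exact Nat.Coprime.pow_right m hcop

theorem meta_act_abelian {A : Type v} [Group A] [Finite A] (p : ℕ) [Fact p.Prime] (hp2 : p ≠ 2)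
    (hcop : (Nat.card A).Coprime p) : ∀ n : ℕ, ∀ (R : Type u) [Group R] [Finite R],
    Nat.card R = n → IsPGroup p R → Cfsg.IsMetacyclic R → ∀ ρ : A →* MulAut R,
    Subgroup.closure {g : R | ∃ a : A, ∃ x : R, g = x⁻¹ * ρ a x} = ⊤ →
    ∀ a b : R, a * b = b * a := by
  have hp := (Fact.out : p.Prime)
  intro n
  induction n using Nat.strong_induction_on with
  | _ n ih =>
  intro R _ _ hcard hR hm ρ hgen
  by_contra hnab
  have hcm : ∀ x y : R, ⁅x, y⁆ ∈ commutator R := by
    intro x y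
    rw [commutator_def]
    exact Subgroup.commutator_mem_commutator (Subgroup.mem_top x) (Subgroup.mem_top y)
  have hcomne : commutator R ≠ ⊥ := by
    intro h
    apply hnab
    intro a b
    have h1 := hcm a b
    rw [h, Subgroup.mem_bot, commutatorElement_eq_one_iff_commute] at h1
    exact h1.eq
  haveI hcyc : IsCyclic (commutator R) := by
    obtain ⟨N, hN, hNc, hQc⟩ := hm
    haveI := hN; haveI := hNc; haveI := hQc
    have hle : commutator R ≤ N := by
      rw [commutator_def, Subgroup.commutator_le]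
      intro x _ y _
      rw [← QuotientGroup.eq_one_iff, commutatorElement_def]
      simp only [QuotientGroup.mk_mul, QuotientGroup.mk_inv]
      have hc := commutative_of_cyclic_center_quotient (MonoidHom.id (R ⧸ N)) (by simp)
        (QuotientGroup.mk x) (QuotientGroup.mk y)
      rw [hc]; group
    exact isCyclic_of_injective (Subgroup.inclusion hle) (Subgroup.inclusion_injective hle)
  have hcomcomm : ∀ x ∈ commutator R, ∀ y ∈ commutator R, x * y = y * x := by
    intro x hx y hy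
    have h1 := commutative_of_cyclic_center_quotient (MonoidHom.id (commutator R)) (by simp)
      ⟨x, hx⟩ ⟨y, hy⟩
    have h2 := congrArg Subtype.val h1
    exact h2
  obtain ⟨D, hD⟩ : ∃ D : Subgroup R, ∀ x, x ∈ D ↔ x ∈ commutator R ∧ x ^ p = 1 :=
    ⟨{ carrier := {x | x ∈ commutator R ∧ x ^ p = 1}
       one_mem' := ⟨Subgroup.one_mem _, one_pow p⟩
       mul_mem' := by
         rintro a b ⟨ha, ha'⟩ ⟨hb, hb'⟩
         refine ⟨Subgroup.mul_mem _ ha hb, ?_⟩
         rw [(show Commute a b from hcomcomm a ha b hb).mul_pow, ha', hb', mul_one]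
       inv_mem' := by
         rintro a ⟨ha, ha'⟩
         exact ⟨Subgroup.inv_mem _ ha, by rw [inv_pow, ha', inv_one]⟩ }, fun x => Iff.rfl⟩
  have hDchar : ∀ (ψ : R ≃* R) (x : R), x ∈ D → ψ x ∈ D := by
    intro ψ x hx
    rw [hD] at hx ⊢
    refine ⟨(Subgroup.characteristic_iff_map_le.mp
      (inferInstance : (commutator R).Characteristic) ψ) (Subgroup.mem_map_of_mem _ hx.1), ?_⟩
    rw [← map_pow, hx.2, map_one]
  haveI hDn : D.Normal := ⟨fun x hx g => by
    have h1 := hDchar (MulAut.conj g) x hx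
    rw [MulAut.conj_apply] at h1
    exact h1⟩
  have hDle : D ≤ commutator R := fun x hx => ((hD x).mp hx).1
  have hDne : D ≠ ⊥ := by
    have hpg := hR.to_subgroup (commutator R)
    obtain ⟨k, hk⟩ := IsPGroup.iff_card.mp hpg
    have hk0 : k ≠ 0 := by
      rintro rfl
      rw [pow_zero] at hk
      exact hcomne (Subgroup.card_eq_one.mp hk)
    obtain ⟨c, hc⟩ := exists_prime_orderOf_dvd_card' (G := commutator R) p
      (by rw [hk]; exact dvd_pow_self p hk0)
    intro h
    have hcD : (c : R) ∈ D := by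
      rw [hD]
      refine ⟨c.2, ?_⟩
      have h1 : c ^ p = 1 := by rw [← hc]; exact pow_orderOf_eq_one c
      have h2 := congrArg Subtype.val h1
      rw [Subgroup.coe_pow] at h2
      exact h2
    rw [h, Subgroup.mem_bot] at hcD
    have h3 : c = 1 := Subtype.ext hcD
    rw [h3, orderOf_one] at hc
    exact hp.one_lt.ne hc
  have hDp : Nat.card D ≤ p := by
    have h1 : Nat.card (D.subgroupOf (commutator R)) ≤ p := cyc_exp_card p hp.pos _ (by
      intro x hx
      rw [Subgroup.mem_subgroupOf, hD] at hx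
      apply Subtype.ext
      rw [Subgroup.coe_pow]; exact hx.2)
    rw [Nat.card_congr (Subgroup.subgroupOfEquivOfLe hDle).toEquiv] at h1
    exact h1
  have hcq : Nat.card (R ⧸ D) < n := by
    have h1 := Subgroup.card_eq_card_quotient_mul_card_subgroup D
    rw [hcard] at h1
    have hq : 0 < Nat.card (R ⧸ D) := Nat.card_pos
    have hD2 : 2 ≤ Nat.card D := by
      have h2 := (Subgroup.one_lt_card_iff_ne_bot (H := D)).mpr hDne
      omega
    nlinarith
  have hDmap : ∀ a : A, D.map ((ρ a : R ≃* R) : R →* R) = D := by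
    intro a
    apply le_antisymm
    · rintro _ ⟨x, hx, rfl⟩
      exact hDchar (ρ a) x hx
    · intro x hx
      refine ⟨(ρ a).symm x, hDchar (ρ a).symm x hx, ?_⟩
      exact (ρ a).apply_symm_apply x
  obtain ⟨ρb, hρb⟩ : ∃ ρb : A →* MulAut (R ⧸ D),
      ∀ a x, ρb a (QuotientGroup.mk x) = QuotientGroup.mk (ρ a x) :=
    ⟨{ toFun := fun a => QuotientGroup.congr D D (ρ a) (hDmap a)
       map_one' := by
         apply MulEquiv.ext
         intro q
         obtain ⟨x, rfl⟩ := QuotientGroup.mk_surjective q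
         simp [QuotientGroup.congr_mk]
       map_mul' := by
         intro a b
         apply MulEquiv.ext
         intro q
         obtain ⟨x, rfl⟩ := QuotientGroup.mk_surjective q
         simp [QuotientGroup.congr_mk, map_mul] }, fun a x => QuotientGroup.congr_mk D D (ρ a) (hDmap a) x⟩
  have hgenb : Subgroup.closure {g : R ⧸ D | ∃ a : A, ∃ x : R ⧸ D, g = x⁻¹ * ρb a x} = ⊤ := by
    rw [eq_top_iff]
    intro q _
    obtain ⟨x, rfl⟩ := QuotientGroup.mk_surjective q
    have hx : x ∈ Subgroup.closure {g : R | ∃ a : A, ∃ x : R, g = x⁻¹ * ρ a x} := by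
      rw [hgen]; exact Subgroup.mem_top x
    have h1 : Subgroup.closure {g : R | ∃ a : A, ∃ x : R, g = x⁻¹ * ρ a x} ≤
        (Subgroup.closure {g : R ⧸ D | ∃ a : A, ∃ x : R ⧸ D, g = x⁻¹ * ρb a x}).comap
          (QuotientGroup.mk' D) := by
      rw [Subgroup.closure_le]
      rintro g ⟨a, y, rfl⟩
      show (QuotientGroup.mk' D) (y⁻¹ * ρ a y) ∈ Subgroup.closure _
      apply Subgroup.subset_closure
      refine ⟨a, QuotientGroup.mk y, ?_⟩
      rw [hρb]; rfl
    exact h1 hx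
  have habq := ih _ hcq (R ⧸ D) rfl (hR.to_quotient D)
    (meta_of_surjective (QuotientGroup.mk' D) (QuotientGroup.mk'_surjective D) hm) ρb hgenb
  have hcomD : commutator R ≤ D := by
    rw [commutator_def, Subgroup.commutator_le]
    intro x _ y _
    rw [← QuotientGroup.eq_one_iff, commutatorElement_def]
    simp only [QuotientGroup.mk_mul, QuotientGroup.mk_inv]
    rw [habq (QuotientGroup.mk x) (QuotientGroup.mk y)]; group
  have hDeq : commutator R = D := le_antisymm hcomD hDle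
  have hcardc : Nat.card (commutator R) = p := by
    rw [hDeq]
    obtain ⟨k, hk⟩ := IsPGroup.iff_card.mp (hR.to_subgroup D)
    rw [hk] at hDp ⊢
    have hk0 : k ≠ 0 := by
      rintro rfl
      rw [pow_zero] at hk
      exact hDne (Subgroup.card_eq_one.mp hk)
    have hk1 : k ≤ 1 := by
      by_contra hcon
      push_neg at hcon
      have h1 : p ^ 2 ≤ p ^ k := Nat.pow_le_pow_right hp.pos hcon
      have h2 : p < p ^ 2 := by nlinarith [hp.one_lt]
      omega
    have hk2 : k = 1 := by omega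
    rw [hk2, pow_one]
  exact meta_act_core hp2 hR hm ρ hcop hgen hcardc

/-- conjugation action of a subgroup on a subgroup it normalizes -/
def conjActHom {G : Type*} [Group G] (A K : Subgroup G)
    (h : A ≤ Subgroup.normalizer (K : Set G)) : A →* MulAut K where
  toFun a :=
    { toFun := fun k => ⟨a * k * a⁻¹, (Subgroup.mem_normalizer_iff.mp (h a.2) k).mp k.2⟩
      invFun := fun k => ⟨a⁻¹ * k * a, by
        have h1 := (Subgroup.mem_normalizer_iff.mp (h (A.inv_mem a.2)) k).mp k.2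
        simpa using h1⟩
      left_inv := fun k => Subtype.ext (by simp [mul_assoc])
      right_inv := fun k => Subtype.ext (by simp [mul_assoc])
      map_mul' := fun k k' => Subtype.ext (by simp [mul_assoc]) }
  map_one' := by
    apply MulEquiv.ext
    intro k
    apply Subtype.ext
    simp
  map_mul' a b := by
    apply MulEquiv.ext
    intro k
    apply Subtype.ext
    simp [mul_assoc]

theorem conjActHom_apply {G : Type*} [Group G] (A K : Subgroup G)
    (h : A ≤ Subgroup.normalizer (K : Set G)) (a : A) (k : K) :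
    ((conjActHom A K h a k : K) : G) = a * k * a⁻¹ := rfl

theorem meta_coprime_main {G : Type*} [Group G] [Finite G] (p : ℕ) [Fact p.Prime] (hp : p ≠ 2)
    (R A : Subgroup G) (hR : IsPGroup p R) (hRm : Cfsg.IsMetacyclic R)
    (hA : (A ≤ Subgroup.normalizer (R : Set G))) (hcop : (Nat.card A).Coprime p) :
    IsMulCommutative ↥⁅R, A⁆ ∧ ⁅R, A⁆ ⊔ (R ⊓ Subgroup.centralizer (A : Set G)) = R ∧
      ⁅R, A⁆ ⊓ (R ⊓ Subgroup.centralizer (A : Set G)) = ⊥ ∧
      (¬ IsMulCommutative R → ¬ A ≤ Subgroup.centralizer (R : Set G) →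
        ⁅R, A⁆ ≠ ⊥ ∧ IsCyclic ↥⁅R, A⁆ ∧ (R ⊓ Subgroup.centralizer (A : Set G)) ≠ ⊥ ∧
        IsCyclic ↥(R ⊓ Subgroup.centralizer (A : Set G)) ∧ ⁅R, R⁆ ≤ ⁅R, A⁆) := by
  have hpp := (Fact.out : p.Prime)
  have hcopR : (Nat.card A).Coprime (Nat.card R) := by
    obtain ⟨m, hm⟩ := IsPGroup.iff_card.mp hR
    rw [hm]; exact Nat.Coprime.pow_right m hcop
  have hsolv : Group.IsSolvable A ∨ Group.IsSolvable R := by
    right
    haveI := hR.isNilpotent
    infer_instance
  obtain ⟨K, hK⟩ : ∃ K : Subgroup G, K = ⁅R, A⁆ := ⟨_, rfl⟩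
  rw [← hK]
  have hKR : K ≤ R := by
    rw [hK, Subgroup.commutator_le]
    intro r hr a ha
    have h1 := (Subgroup.mem_normalizer_iff.mp (hA ha) r⁻¹).mp (R.inv_mem hr)
    have h2 : ⁅r, a⁆ = r * (a * r⁻¹ * a⁻¹) := by rw [commutatorElement_def]; group
    rw [h2]; exact R.mul_mem hr h1
  have hconjA : ∀ a ∈ A, ∀ k ∈ K, a * k * a⁻¹ ∈ K := by
    intro a ha
    have h1 : K ≤ K.comap (MulAut.conj a).toMonoidHom := by
      rw [hK, Subgroup.commutator_le]
      intro r hr b hb
      rw [Subgroup.mem_comap]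
      show (MulAut.conj a) ⁅r, b⁆ ∈ ⁅R, A⁆
      rw [map_commutatorElement]
      refine Subgroup.commutator_mem_commutator ?_ ?_
      · rw [MulAut.conj_apply]; exact (Subgroup.mem_normalizer_iff.mp (hA ha) r).mp hr
      · rw [MulAut.conj_apply]; exact A.mul_mem (A.mul_mem ha hb) (A.inv_mem ha)
    intro k hk
    exact h1 hk
  have hconjR : ∀ r' ∈ R, ∀ k ∈ K, r' * k * r'⁻¹ ∈ K := by
    intro r' hr'
    have h1 : K ≤ K.comap (MulAut.conj r').toMonoidHom := by
      rw [hK, Subgroup.commutator_le]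
      intro r hr b hb
      rw [Subgroup.mem_comap]
      show (MulAut.conj r') ⁅r, b⁆ ∈ ⁅R, A⁆
      have h2 : (MulAut.conj r') ⁅r, b⁆ = ⁅r' * r, b⁆ * ⁅r', b⁆⁻¹ := by
        rw [MulAut.conj_apply]; simp only [commutatorElement_def]; group
      rw [h2]
      exact Subgroup.mul_mem _ (Subgroup.commutator_mem_commutator (R.mul_mem hr' hr) hb)
        (Subgroup.inv_mem _ (Subgroup.commutator_mem_commutator hr' hb))
    intro k hk
    exact h1 hk
  have hAK : A ≤ Subgroup.normalizer (K : Set G) := by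
    intro a ha
    rw [Subgroup.mem_normalizer_iff]
    intro k
    constructor
    · exact hconjA a ha k
    · intro h
      have h1 := hconjA a⁻¹ (A.inv_mem ha) _ h
      simpa [mul_assoc] using h1
  have hRK : R ≤ Subgroup.normalizer (K : Set G) := by
    intro a ha
    rw [Subgroup.mem_normalizer_iff]
    intro k
    constructor
    · exact hconjR a ha k
    · intro h
      have h1 := hconjR a⁻¹ (R.inv_mem ha) _ h
      simpa [mul_assoc] using h1
  have hKK : ⁅K, A⁆ = K := by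
    rw [hK]; exact Cfsg.Agent.S0027.result A R hA hcopR hsolv
  have hKp : IsPGroup p K := hR.to_le hKR
  have hKm : Cfsg.IsMetacyclic K :=
    meta_of_injective (Subgroup.inclusion hKR) (Subgroup.inclusion_injective hKR) hRm
  have hgenK : Subgroup.closure
      {g : K | ∃ a : A, ∃ x : K, g = x⁻¹ * conjActHom A K hAK a x} = ⊤ := by
    rw [eq_top_iff]
    intro k _
    have h1 : ⁅K, A⁆ ≤ (Subgroup.closure
        {g : K | ∃ a : A, ∃ x : K, g = x⁻¹ * conjActHom A K hAK a x}).map K.subtype := by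
      rw [Subgroup.commutator_le]
      intro k' hk' a ha
      refine ⟨(⟨k', hk'⟩ : K)⁻¹⁻¹ * conjActHom A K hAK ⟨a, ha⟩ (⟨k', hk'⟩ : K)⁻¹,
        Subgroup.subset_closure ⟨⟨a, ha⟩, (⟨k', hk'⟩ : K)⁻¹, rfl⟩, ?_⟩
      rw [Subgroup.coe_subtype, Subgroup.coe_mul, conjActHom_apply, commutatorElement_def]
      simp only [Subgroup.coe_inv, inv_inv]
      group
    have h2 : (k : G) ∈ ⁅K, A⁆ := by rw [hKK]; exact k.2
    obtain ⟨y, hy, hyk⟩ := h1 h2
    have h3 : y = k := Subtype.ext hyk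
    rw [← h3]; exact hy
  have hKab : ∀ a b : K, a * b = b * a :=
    meta_act_abelian p hp hcop _ K rfl hKp hKm (conjActHom A K hAK) hgenK
  haveI hKcomm : IsMulCommutative K := ⟨⟨hKab⟩⟩
  have h2 : K ⊔ (R ⊓ Subgroup.centralizer (A : Set G)) = R := by
    rw [hK]; exact Cfsg.Agent.S0026.result A R hA hcopR hsolv
  have hKC : K ⊓ Subgroup.centralizer (A : Set G) = ⊥ := by
    have hcopK : (Nat.card A).Coprime (Nat.card K) := by
      obtain ⟨m, hm⟩ := IsPGroup.iff_card.mp hKp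
      rw [hm]; exact Nat.Coprime.pow_right m hcop
    have h55 := (Cfsg.Agent.S0055.result A K hAK hcopK).1
    rw [hKK] at h55
    rw [← h55, inf_comm (K ⊓ _) K, ← inf_assoc, inf_idem]
  have h3 : K ⊓ (R ⊓ Subgroup.centralizer (A : Set G)) = ⊥ := by
    rw [← inf_assoc, inf_eq_left.mpr hKR, hKC]
  refine ⟨hKcomm, h2, h3, ?_⟩
  intro hna hnc
  obtain ⟨C, hC⟩ : ∃ C : Subgroup G, C = R ⊓ Subgroup.centralizer (A : Set G) := ⟨_, rfl⟩
  rw [← hC] at h2 h3 ⊢
  have hCR : C ≤ R := by rw [hC]; exact inf_le_left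
  have hKne : K ≠ ⊥ := by
    intro h
    apply hnc
    rw [hK, Subgroup.commutator_eq_bot_iff_le_centralizer] at h
    exact Subgroup.le_centralizer_iff.mp h
  have hCne : C ≠ ⊥ := by
    intro h
    apply hna
    rw [h, sup_bot_eq] at h2
    refine ⟨⟨fun a b => ?_⟩⟩
    have ha : (a : G) ∈ K := by rw [h2]; exact a.2
    have hb : (b : G) ∈ K := by rw [h2]; exact b.2
    apply Subtype.ext
    have h5 := congrArg Subtype.val (hKab ⟨a, ha⟩ ⟨b, hb⟩)
    exact h5
  obtain ⟨ΩR, hΩR, hΩRc, -⟩ := omega_lemma p hp _ R rfl hR hRm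
  obtain ⟨ΩK, hΩK, -, hΩKcyc⟩ := omega_lemma p hp _ K rfl hKp hKm
  have hCp : IsPGroup p C := hR.to_le hCR
  have hCm : Cfsg.IsMetacyclic C :=
    meta_of_injective (Subgroup.inclusion hCR) (Subgroup.inclusion_injective hCR) hRm
  obtain ⟨ΩC, hΩC, -, hΩCcyc⟩ := omega_lemma p hp _ C rfl hCp hCm
  have hinj : Nat.card ΩK * Nat.card ΩC ≤ Nat.card ΩR := by
    rw [← Nat.card_prod]
    have hmem : ∀ q : ΩK × ΩC, (⟨((q.1 : K) : G) * ((q.2 : C) : G),
        R.mul_mem (hKR (q.1 : K).2) (hCR (q.2 : C).2)⟩ : R) ∈ ΩR := by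
      intro q
      have h1 : (⟨((q.1 : K) : G), hKR (q.1 : K).2⟩ : R) ∈ ΩR := by
        rw [hΩR]
        apply Subtype.ext
        have h4 := (hΩK (q.1 : K)).mp q.1.2
        have h5 := congrArg Subtype.val h4
        rw [Subgroup.coe_pow] at h5
        rw [Subgroup.coe_pow]
        exact h5
      have h2' : (⟨((q.2 : C) : G), hCR (q.2 : C).2⟩ : R) ∈ ΩR := by
        rw [hΩR]
        apply Subtype.ext
        have h4 := (hΩC (q.2 : C)).mp q.2.2
        have h5 := congrArg Subtype.val h4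
        rw [Subgroup.coe_pow] at h5
        rw [Subgroup.coe_pow]
        exact h5
      exact ΩR.mul_mem h1 h2'
    refine Nat.card_le_card_of_injective (fun q : ΩK × ΩC => (⟨_, hmem q⟩ : ΩR)) ?_
    intro q1 q2 h12
    have h5 := congrArg (fun w : ΩR => ((w : R) : G)) h12
    have h6 : ((q1.1 : K) : G) * ((q1.2 : C) : G) = ((q2.1 : K) : G) * ((q2.2 : C) : G) := h5
    have h7 : ((q2.1 : K) : G)⁻¹ * ((q1.1 : K) : G) =
        ((q2.2 : C) : G) * ((q1.2 : C) : G)⁻¹ := by
      rw [inv_mul_eq_iff_eq_mul, ← mul_assoc, ← h6, mul_inv_cancel_right]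
    have h8 : ((q2.1 : K) : G)⁻¹ * ((q1.1 : K) : G) ∈ K ⊓ C := by
      refine ⟨K.mul_mem (K.inv_mem (q2.1 : K).2) (q1.1 : K).2, ?_⟩
      rw [h7]; exact C.mul_mem (q2.2 : C).2 (C.inv_mem (q1.2 : C).2)
    rw [h3, Subgroup.mem_bot] at h8
    have h9 : ((q1.1 : K) : G) = ((q2.1 : K) : G) := by
      rw [inv_mul_eq_one] at h8; exact h8.symm
    have h10 : ((q1.2 : C) : G) = ((q2.2 : C) : G) := by
      rw [h9] at h6; exact mul_left_cancel h6
    exact Prod.ext (Subtype.ext (Subtype.ext h9)) (Subtype.ext (Subtype.ext h10))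
  have hΩKp : p ≤ Nat.card ΩK := by
    obtain ⟨k, hk⟩ := IsPGroup.iff_card.mp hKp
    have hk0 : k ≠ 0 := by
      rintro rfl
      rw [pow_zero] at hk
      exact hKne (Subgroup.card_eq_one.mp hk)
    obtain ⟨c, hc⟩ := exists_prime_orderOf_dvd_card' (G := K) p
      (by rw [hk]; exact dvd_pow_self p hk0)
    have hcΩ : c ∈ ΩK := by rw [hΩK, ← hc]; exact pow_orderOf_eq_one c
    have h1 : Nat.card (Subgroup.zpowers c) ≤ Nat.card ΩK :=
      Subgroup.card_le_of_le (Subgroup.zpowers_le.mpr hcΩ)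
    rw [Nat.card_zpowers, hc] at h1
    exact h1
  have hΩCp : p ≤ Nat.card ΩC := by
    obtain ⟨k, hk⟩ := IsPGroup.iff_card.mp hCp
    have hk0 : k ≠ 0 := by
      rintro rfl
      rw [pow_zero] at hk
      exact hCne (Subgroup.card_eq_one.mp hk)
    obtain ⟨c, hc⟩ := exists_prime_orderOf_dvd_card' (G := C) p
      (by rw [hk]; exact dvd_pow_self p hk0)
    have hcΩ : c ∈ ΩC := by rw [hΩC, ← hc]; exact pow_orderOf_eq_one c
    have h1 : Nat.card (Subgroup.zpowers c) ≤ Nat.card ΩC :=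
      Subgroup.card_le_of_le (Subgroup.zpowers_le.mpr hcΩ)
    rw [Nat.card_zpowers, hc] at h1
    exact h1
  have hΩRc' : Nat.card ΩK * Nat.card ΩC ≤ p ^ 2 := le_trans hinj hΩRc
  have hK1 : Nat.card ΩK ≤ p := by
    by_contra hcon
    push_neg at hcon
    have h := le_trans (Nat.mul_le_mul (Nat.succ_le_of_lt hcon) hΩCp) hΩRc'
    have h' : (p + 1) * p = p ^ 2 + p := by ring
    rw [h'] at h
    have h0 := hpp.pos
    omega
  have hC1 : Nat.card ΩC ≤ p := by
    by_contra hcon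
    push_neg at hcon
    have h := le_trans (Nat.mul_le_mul hΩKp (Nat.succ_le_of_lt hcon)) hΩRc'
    have h' : p * (p + 1) = p ^ 2 + p := by ring
    rw [h'] at h
    have h0 := hpp.pos
    omega
  haveI hKcyc : IsCyclic K := hΩKcyc hK1
  haveI hCcyc : IsCyclic C := hΩCcyc hC1
  refine ⟨hKne, hKcyc, hCne, hCcyc, ?_⟩
  rw [Subgroup.commutator_le]
  intro r₁ hr₁ r₂ hr₂
  have hCK : C ≤ Subgroup.normalizer (K : Set G) := le_trans hCR hRK
  rw [← h2] at hr₁ hr₂
  obtain ⟨k₁, hk₁, c₁, hc₁, rfl⟩ := mem_sup_of_le_normalizer' hCK hr₁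
  obtain ⟨k₂, hk₂, c₂, hc₂, rfl⟩ := mem_sup_of_le_normalizer' hCK hr₂
  have hcc : c₂ * c₁⁻¹ = c₁⁻¹ * c₂ := by
    have h5 := commutative_of_cyclic_center_quotient (MonoidHom.id C) (by simp)
      (⟨c₂, hc₂⟩ : C) (⟨c₁, hc₁⟩ : C)⁻¹
    have h6 := congrArg Subtype.val h5
    exact h6
  have h6 : ⁅k₁ * c₁, k₂ * c₂⁆ = k₁ * (c₁ * k₂ * c₁⁻¹) * (c₂ * k₁⁻¹ * c₂⁻¹) * k₂⁻¹ := by
    calc ⁅k₁ * c₁, k₂ * c₂⁆ = k₁ * c₁ * k₂ * (c₂ * c₁⁻¹) * k₁⁻¹ * c₂⁻¹ * k₂⁻¹ := by
          rw [commutatorElement_def]; group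
      _ = k₁ * (c₁ * k₂ * c₁⁻¹) * (c₂ * k₁⁻¹ * c₂⁻¹) * k₂⁻¹ := by rw [hcc]; group
  rw [h6]
  exact K.mul_mem (K.mul_mem (K.mul_mem hk₁ (hconjR c₁ (hCR hc₁) k₂ hk₂))
    (hconjR c₂ (hCR hc₂) k₁⁻¹ (K.inv_mem hk₁))) (K.inv_mem hk₂)

end Cfsg.Agent.Lib.Helper1
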