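import Mathlib
import Cfsg.Agent.Lib.Helper6.FixedPts

set_option autoImplicit false

namespace Cfsg.Agent.Lib.Helper1

/-- Lifts of the standard generators of a quaternion quotient generate modulo the kernel. -/
theorem qq_gen {S : Type*} [Group S] (N : Subgroup S) [hN : N.Normal] (m : ℕ) [NeZero m]
    (e : S ⧸ N ≃* QuaternionGroup m) (a b : S)
    (ha : e (QuotientGroup.mk a) = QuaternionGroup.a 1)
    (hb : e (QuotientGroup.mk b) = QuaternionGroup.xa 0)
    (K : Subgroup S) (haK : a ∈ K) (hbK : b ∈ K) (hNK : N ≤ K) (s : S) : s ∈ K := by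
  have key : ∀ t : S, e (QuotientGroup.mk t) = e (QuotientGroup.mk s) → t ∈ K → s ∈ K := by
    intro t ht htK
    have h1 : (QuotientGroup.mk t : S ⧸ N) = QuotientGroup.mk s := e.injective ht
    have h2 : t⁻¹ * s ∈ N := QuotientGroup.eq.mp h1
    have : s = t * (t⁻¹ * s) := by group
    rw [this]
    exact K.mul_mem htK (hNK h2)
  have hpow : ∀ j : ZMod (2 * m), e (QuotientGroup.mk (a ^ j.val)) = QuaternionGroup.a j := by
    intro j
    rw [QuotientGroup.mk_pow, map_pow, ha, QuaternionGroup.a_one_pow, ZMod.natCast_zmod_val]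
  rcases h : e (QuotientGroup.mk s) with j | j
  · exact key (a ^ j.val) (by rw [hpow, h]) (K.pow_mem haK _)
  · refine key (b * a ^ j.val) ?_ (K.mul_mem hbK (K.pow_mem haK _))
    rw [QuotientGroup.mk_mul, map_mul, hb, hpow, h, QuaternionGroup.xa_mul_a, zero_add]

/-- If `S / N` is a quaternion group with `N` central, the commutator subgroup of `S` is cyclic. -/
theorem qq_commutator_le_zpowers {S : Type*} [Group S] [Finite S] (N : Subgroup S) [hN : N.Normal]
    (hNZ : N ≤ Subgroup.center S) (m : ℕ) [NeZero m] (e : S ⧸ N ≃* QuaternionGroup m) :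
    ∃ c : S, commutator S ≤ Subgroup.zpowers c := by
  classical
  obtain ⟨a, ha⟩ : ∃ a : S, e (QuotientGroup.mk a) = QuaternionGroup.a 1 := by
    obtain ⟨q, hq⟩ := e.surjective (QuaternionGroup.a 1)
    obtain ⟨a, rfl⟩ := QuotientGroup.mk_surjective q
    exact ⟨a, hq⟩
  obtain ⟨b, hb⟩ : ∃ b : S, e (QuotientGroup.mk b) = QuaternionGroup.xa 0 := by
    obtain ⟨q, hq⟩ := e.surjective (QuaternionGroup.xa 0)
    obtain ⟨b, rfl⟩ := QuotientGroup.mk_surjective q
    exact ⟨b, hq⟩
  have hgen := qq_gen N m e a b ha hb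
  -- the central element d₀ = b⁻¹ * (a * b * a)
  have hd₀N : b⁻¹ * (a * b * a) ∈ N := by
    apply QuotientGroup.eq.mp
    apply e.injective
    rw [QuotientGroup.mk_mul, QuotientGroup.mk_mul, map_mul, map_mul, ha, hb,
      QuaternionGroup.a_mul_xa, QuaternionGroup.xa_mul_a]
    congr 1
    ring
  have hd₀ : ∀ g : S, g * (b⁻¹ * (a * b * a)) = (b⁻¹ * (a * b * a)) * g :=
    fun g => Subgroup.mem_center_iff.mp (hNZ hd₀N) g
  set d₀ := b⁻¹ * (a * b * a) with hd₀def
  set u := b⁻¹ * a * b with hu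
  have hua : u * a = d₀ := by rw [hu, hd₀def]; group
  have hau : a * u = d₀ := by
    have h1 := hd₀ a
    rw [← hua] at h1
    have : a * u = a * (u * a) * a⁻¹ := by group
    rw [this, h1, mul_inv_cancel_right]; exact hua
  have hcomm : a * u = u * a := hau.trans hua.symm
  set c := u * a⁻¹ with hc
  -- conjugation relations
  have hac : a * c * a⁻¹ = c := by
    rw [hc]
    calc a * (u * a⁻¹) * a⁻¹ = (a * u) * a⁻¹ * a⁻¹ := by group
      _ = (u * a) * a⁻¹ * a⁻¹ := by rw [hcomm]
      _ = u * a⁻¹ := by group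
  have hbu : b⁻¹ * u * b = d₀ * u⁻¹ := by
    have h1 : u = d₀ * a⁻¹ := by rw [← hua]; group
    have h2 : b⁻¹ * (d₀ * a⁻¹) * b = d₀ * (b⁻¹ * a⁻¹ * b) := by
      calc b⁻¹ * (d₀ * a⁻¹) * b = (b⁻¹ * d₀) * a⁻¹ * b := by group
        _ = (d₀ * b⁻¹) * a⁻¹ * b := by rw [hd₀ b⁻¹]
        _ = d₀ * (b⁻¹ * a⁻¹ * b) := by group
    have h3 : b⁻¹ * a⁻¹ * b = u⁻¹ := by rw [hu]; group
    calc b⁻¹ * u * b = b⁻¹ * (d₀ * a⁻¹) * b := by rw [← h1]
      _ = d₀ * u⁻¹ := by rw [h2, h3]
  have hbc : b⁻¹ * c * b⁻¹⁻¹ = c⁻¹ := by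
    rw [hc, inv_inv]
    have h3 : b⁻¹ * a⁻¹ * b = u⁻¹ := by rw [hu]; group
    calc b⁻¹ * (u * a⁻¹) * b = (b⁻¹ * u * b) * (b⁻¹ * a⁻¹ * b) := by group
      _ = d₀ * u⁻¹ * u⁻¹ := by rw [hbu, h3]
      _ = (a * u) * u⁻¹ * u⁻¹ := by rw [hau]
      _ = (u * a⁻¹)⁻¹ := by group
  have hnorm : ∀ g : S, g * c * g⁻¹ ∈ Subgroup.zpowers c → g ∈ Subgroup.normalizer
      ((Subgroup.zpowers c : Subgroup S) : Set S) := by
    intro g hg
    apply Cfsg.Agent.Lib.Helper6.sy_mem_normalizer_of_conj_le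
    intro h hh
    obtain ⟨k, rfl⟩ := Subgroup.mem_zpowers_iff.mp hh
    rw [← conj_zpow]
    exact Subgroup.zpow_mem _ hg k
  have hCn : (Subgroup.zpowers c).Normal := by
    rw [← Subgroup.normalizer_eq_top_iff, eq_top_iff]
    intro s _
    apply hgen _ (hnorm a (by rw [hac]; exact Subgroup.mem_zpowers c)) ?_ ?_ s
    · have : b⁻¹ ∈ Subgroup.normalizer ((Subgroup.zpowers c : Subgroup S) : Set S) :=
        hnorm b⁻¹ (by rw [hbc]; exact Subgroup.inv_mem _ (Subgroup.mem_zpowers c))
      simpa using Subgroup.inv_mem _ this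
    · intro d hd
      apply hnorm
      have : d * c * d⁻¹ = c := by
        rw [← Subgroup.mem_center_iff.mp (hNZ hd) c]; group
      rw [this]; exact Subgroup.mem_zpowers c
  -- the quotient by `⟨c⟩` is commutative
  set π := QuotientGroup.mk' (Subgroup.zpowers c) with hπ
  have hπab : π a * π b = π b * π a := by
    have h1 : π (b⁻¹ * a * b * a⁻¹) = 1 := by
      rw [hπ, QuotientGroup.mk'_apply, QuotientGroup.eq_one_iff]
      exact Subgroup.mem_zpowers c
    have h2 : π (b⁻¹ * a * b * a⁻¹) = (π b)⁻¹ * π a * π b * (π a)⁻¹ := by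
      simp only [map_mul, map_inv]
    rw [h2] at h1
    calc π a * π b = π b * ((π b)⁻¹ * π a * π b * (π a)⁻¹) * π a := by group
      _ = π b * π a := by rw [h1, mul_one]
  have hπN : ∀ d ∈ N, ∀ x : S ⧸ Subgroup.zpowers c, π d * x = x * π d := by
    intro d hd x
    obtain ⟨s, rfl⟩ := QuotientGroup.mk'_surjective (Subgroup.zpowers c) x
    rw [← hπ, ← map_mul, ← map_mul, Subgroup.mem_center_iff.mp (hNZ hd) s]
  have hcenta : ∀ s : S, π s * π a = π a * π s := by
    intro s
    have := hgen ((Subgroup.centralizer ({π a} : Set (S ⧸ Subgroup.zpowers c))).comap π)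
      (by rw [Subgroup.mem_comap, Subgroup.mem_centralizer_singleton_iff])
      (by rw [Subgroup.mem_comap, Subgroup.mem_centralizer_singleton_iff]; exact hπab.symm)
      (by
        intro d hd
        rw [Subgroup.mem_comap, Subgroup.mem_centralizer_singleton_iff]
        exact hπN d hd _) s
    rw [Subgroup.mem_comap, Subgroup.mem_centralizer_singleton_iff] at this
    exact this
  have hcentb : ∀ s : S, π s * π b = π b * π s := by
    intro s
    have := hgen ((Subgroup.centralizer ({π b} : Set (S ⧸ Subgroup.zpowers c))).comap π)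
      (by rw [Subgroup.mem_comap, Subgroup.mem_centralizer_singleton_iff]; exact hπab)
      (by rw [Subgroup.mem_comap, Subgroup.mem_centralizer_singleton_iff])
      (by
        intro d hd
        rw [Subgroup.mem_comap, Subgroup.mem_centralizer_singleton_iff]
        exact hπN d hd _) s
    rw [Subgroup.mem_comap, Subgroup.mem_centralizer_singleton_iff] at this
    exact this
  have hcomm2 : ∀ s t : S, π s * π t = π t * π s := by
    intro s t
    have := hgen ((Subgroup.centralizer ({π t} : Set (S ⧸ Subgroup.zpowers c))).comap π)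
      (by rw [Subgroup.mem_comap, Subgroup.mem_centralizer_singleton_iff]; exact (hcenta t).symm)
      (by rw [Subgroup.mem_comap, Subgroup.mem_centralizer_singleton_iff]; exact (hcentb t).symm)
      (by
        intro d hd
        rw [Subgroup.mem_comap, Subgroup.mem_centralizer_singleton_iff]
        exact hπN d hd _) s
    rw [Subgroup.mem_comap, Subgroup.mem_centralizer_singleton_iff] at this
    exact this
  refine ⟨c, ?_⟩
  rw [commutator_def, Subgroup.commutator_le]
  intro x _ y _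
  show x * y * x⁻¹ * y⁻¹ ∈ Subgroup.zpowers c
  rw [← QuotientGroup.eq_one_iff (N := Subgroup.zpowers c)]
  have h1 : π (x * y * x⁻¹ * y⁻¹) = π x * π y * (π x)⁻¹ * (π y)⁻¹ := by
    simp only [map_mul, map_inv]
  show π (x * y * x⁻¹ * y⁻¹) = 1
  rw [h1, hcomm2 x y]; group

end Cfsg.Agent.Lib.Helper1
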