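import Mathlib
import Cfsg.Agent.Lib.Helper1.UniqueInv

set_option autoImplicit false

namespace Cfsg.Agent.Lib.Helper1

universe u

/-- Every element is `a^j d` or `b a^j d` with `d` in the kernel. -/
theorem qq_decomp {S : Type*} [Group S] (N : Subgroup S) [hN : N.Normal] (m : ℕ) [NeZero m]
    (e : S ⧸ N ≃* QuaternionGroup m) (a b : S)
    (ha : e (QuotientGroup.mk a) = QuaternionGroup.a 1)
    (hb : e (QuotientGroup.mk b) = QuaternionGroup.xa 0) (s : S) :
    ∃ j : ℕ, ∃ d ∈ N, s = a ^ j * d ∨ s = b * a ^ j * d := by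
  have key : ∀ t : S, e (QuotientGroup.mk t) = e (QuotientGroup.mk s) → t⁻¹ * s ∈ N := by
    intro t ht
    exact QuotientGroup.eq.mp (e.injective ht)
  have hpow : ∀ j : ZMod (2 * m), e (QuotientGroup.mk (a ^ j.val)) = QuaternionGroup.a j := by
    intro j
    rw [QuotientGroup.mk_pow, map_pow, ha, QuaternionGroup.a_one_pow, ZMod.natCast_zmod_val]
  rcases h : e (QuotientGroup.mk s) with j | j
  · refine ⟨j.val, _, key (a ^ j.val) (by rw [hpow, h]), Or.inl ?_⟩
    group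
  · refine ⟨j.val, _, key (b * a ^ j.val) ?_, Or.inr ?_⟩
    · rw [QuotientGroup.mk_mul, map_mul, hb, hpow, h, QuaternionGroup.xa_mul_a, zero_add]
    · group

theorem qq_comm_of_gen {S H : Type*} [Group S] [Group H] (a b : S)
    (hgen : ∀ K : Subgroup S, a ∈ K → b ∈ K → Subgroup.center S ≤ K → ∀ s : S, s ∈ K)
    (π : S →* H) (hab : π a * π b = π b * π a) : ∀ s t : S, π s * π t = π t * π s := by
  have hπZ : ∀ d ∈ Subgroup.center S, ∀ t : S, π d * π t = π t * π d := by
    intro d hd t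
    rw [← map_mul, ← map_mul, Subgroup.mem_center_iff.mp hd t]
  have key : ∀ t : S, (π a * π t = π t * π a) → (π b * π t = π t * π b) →
      ∀ s, π s * π t = π t * π s := by
    intro t h1 h2 s
    have := hgen ((Subgroup.centralizer ({π t} : Set H)).comap π)
      (by rw [Subgroup.mem_comap, Subgroup.mem_centralizer_singleton_iff]; exact h1)
      (by rw [Subgroup.mem_comap, Subgroup.mem_centralizer_singleton_iff]; exact h2)
      (by
        intro d hd
        rw [Subgroup.mem_comap, Subgroup.mem_centralizer_singleton_iff]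
        exact hπZ d hd t) s
    rw [Subgroup.mem_comap, Subgroup.mem_centralizer_singleton_iff] at this
    exact this
  have ha : ∀ s, π s * π a = π a * π s := key a rfl hab.symm
  have hb : ∀ s, π s * π b = π b * π s := key b hab rfl
  intro s t
  exact key t (ha t).symm (hb t).symm s

theorem qq_gen_of_dec {S : Type*} [Group S] (a b : S)
    (hdec : ∀ s : S, ∃ j : ℕ, ∃ d ∈ Subgroup.center S, s = a ^ j * d ∨ s = b * a ^ j * d)
    (K : Subgroup S) (haK : a ∈ K) (hbK : b ∈ K) (hZK : Subgroup.center S ≤ K) (s : S) : s ∈ K := by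
  obtain ⟨j, d, hd, hs | hs⟩ := hdec s
  · rw [hs]; exact K.mul_mem (K.pow_mem haK j) (hZK hd)
  · rw [hs]; exact K.mul_mem (K.mul_mem hbK (K.pow_mem haK j)) (hZK hd)

/-- In a finite commutative `2`-group, squares lie in every maximal subgroup. -/
theorem qq_coatom_sq {Z : Type*} [CommGroup Z] (hZ : IsPGroup 2 Z) (H : Subgroup Z)
    (hH : IsCoatom H) (ζ : Z) : ζ ^ 2 ∈ H := by
  by_contra hnot
  have hlt : H < H ⊔ Subgroup.zpowers (ζ ^ 2) := by
    apply lt_of_le_of_ne le_sup_left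
    intro h
    apply hnot
    rw [h]
    exact Subgroup.mem_sup_right (Subgroup.mem_zpowers _)
  have htop := hH.2 _ hlt
  have hζ : ζ ∈ H ⊔ Subgroup.zpowers (ζ ^ 2) := by rw [htop]; exact Subgroup.mem_top ζ
  obtain ⟨h, hh, y, hy, hhy⟩ := Subgroup.mem_sup.mp hζ
  obtain ⟨j, rfl⟩ := Subgroup.mem_zpowers_iff.mp hy
  have h1 : h = ζ ^ (1 - 2 * j) := by
    have e1 : h = ζ * ((ζ ^ 2) ^ j)⁻¹ := eq_mul_inv_of_mul_eq hhy
    rw [e1, zpow_sub, zpow_one, zpow_mul]
    norm_cast
  obtain ⟨t, ht⟩ := hZ ζ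
  have hcop : IsCoprime (1 - 2 * j) ((2:ℤ) ^ t) := IsCoprime.pow_right ⟨1, j, by ring⟩
  obtain ⟨u, v, huv⟩ := hcop
  have e3 : ζ ^ ((2:ℤ) ^ t) = 1 := by
    have : ((2:ℤ) ^ t) = ((2 ^ t : ℕ) : ℤ) := by push_cast; rfl
    rw [this, zpow_natCast, ht]
  have h2 : ζ = h ^ u := by
    have e4 : ζ = ζ ^ (u * (1 - 2 * j) + v * 2 ^ t) := by rw [huv, zpow_one]
    rw [e4, zpow_add, zpow_mul', zpow_mul', e3, one_zpow, mul_one, ← h1]
  apply hnot
  rw [h2]
  exact H.pow_mem (H.zpow_mem hh u) 2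

/-- A homomorphism from the quaternion group, from the defining relations. -/
theorem qq_hom {G : Type*} [Group G] (n : ℕ) [NeZero n] (a x : G)
    (ha : orderOf a = 2 * n) (hinv : x * a * x⁻¹ = a⁻¹) (hx2 : x ^ 2 = a ^ n) :
    ∃ f : QuaternionGroup n →* G, (∀ i : ZMod (2 * n), f (QuaternionGroup.a i) = a ^ i.val) ∧
      (∀ i : ZMod (2 * n), f (QuaternionGroup.xa i) = x * a ^ i.val) := by
  have hn : 0 < n := Nat.pos_of_ne_zero (NeZero.ne n)
  haveI : NeZero (2 * n) := ⟨by omega⟩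
  set E : ZMod (2 * n) → G := fun i => a ^ i.val with hE
  have E_add : ∀ i j, E (i + j) = E i * E j := by
    intro i j
    simp only [hE]
    have h := pow_mod_orderOf a (i.val + j.val)
    rw [ha] at h
    rw [ZMod.val_add, ← pow_add]
    exact h
  have E_n : E (n : ZMod (2 * n)) = a ^ n := by
    simp only [hE]
    rw [ZMod.val_natCast_of_lt (by omega)]
  have E_comm : ∀ i j, E i * E j = E j * E i := fun i j => by
    rw [← E_add, ← E_add, add_comm]
  have E_sub : ∀ i j, E (j - i) = (E i)⁻¹ * E j := by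
    intro i j
    have h1 : E (j - i) * E i = E j := by rw [← E_add, sub_add_cancel]
    rw [← h1, E_comm (j - i) i]; group
  have xE : ∀ i, E i * x = x * (E i)⁻¹ := by
    intro i
    simp only [hE]
    have h1 : x * a ^ i.val * x⁻¹ = (a ^ i.val)⁻¹ := by rw [← conj_pow, hinv, inv_pow]
    calc a ^ i.val * x = (x * a ^ i.val * x⁻¹)⁻¹ * x := by rw [h1, inv_inv]
      _ = x * (a ^ i.val)⁻¹ := by group
  let f : QuaternionGroup n → G := fun q => match q with
    | QuaternionGroup.a i => E i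
    | QuaternionGroup.xa i => x * E i
  have hf_mul : ∀ q r, f (q * r) = f q * f r := by
    rintro (i | i) (j | j)
    · show E (i + j) = E i * E j
      exact E_add i j
    · show x * E (j - i) = E i * (x * E j)
      rw [E_sub, ← mul_assoc (E i), xE]; group
    · show x * E (i + j) = x * E i * E j
      rw [E_add, mul_assoc]
    · show E ((n : ZMod (2 * n)) + j - i) = x * E i * (x * E j)
      have e1 : (n : ZMod (2 * n)) + j - i = n + (j - i) := by ring
      rw [e1, E_add, E_n, E_sub, ← hx2]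
      calc x ^ 2 * ((E i)⁻¹ * E j) = x * (x * (E i)⁻¹) * E j := by rw [pow_two]; group
        _ = x * (E i * x) * E j := by rw [xE]
        _ = x * E i * (x * E j) := by group
  exact ⟨MonoidHom.mk' f hf_mul, fun i => rfl, fun i => rfl⟩

/-- The key step: in a quotient `S / N` with a unique involution, lifts of standard generators
of another quaternion quotient satisfy the quaternion relations modulo `N`. -/
theorem qq_step {S : Type u} [Group S] [Finite S] (hS : IsPGroup 2 S) (N : Subgroup S)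
    [hN : N.Normal] (hZ2 : ∀ d ∈ Subgroup.center S, d ^ 2 = 1)
    (hna : ¬ IsMulCommutative (S ⧸ N)) (z : S ⧸ N) (hz : orderOf z = 2)
    (huniq : ∀ y : S ⧸ N, orderOf y = 2 → y = z)
    (a b : S) (k : ℕ)
    (h0 : b⁻¹ * a * b * a ∈ Subgroup.center S)
    (h1 : (a ^ 2 ^ k)⁻¹ * b ^ 2 ∈ Subgroup.center S)
    (h2 : a ^ 2 ^ (k + 1) ∈ Subgroup.center S)
    (hdec : ∀ s : S, ∃ j : ℕ, ∃ d ∈ Subgroup.center S, s = a ^ j * d ∨ s = b * a ^ j * d)
    (hcard : Nat.card (S ⧸ N) = 2 ^ (k + 2)) :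
    b⁻¹ * a * b * a ∈ N ∧ (a ^ 2 ^ k)⁻¹ * b ^ 2 ∈ N ∧ a ^ 2 ^ (k + 1) ∈ N := by
  classical
  set π := QuotientGroup.mk' N with hπ
  have huniq' : ∀ y : S ⧸ N, y ^ 2 = 1 → y = 1 ∨ y = z := by
    intro y hy
    have h1 : orderOf y ∣ 2 := orderOf_dvd_of_pow_eq_one hy
    rcases (Nat.dvd_prime Nat.prime_two).mp h1 with h | h
    · left; exact orderOf_eq_one_iff.mp h
    · right; exact huniq y h
  have hz2 : z ^ 2 = 1 := by
    have := pow_orderOf_eq_one z
    rw [hz] at this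
    exact this
  have hz1 : z ≠ 1 := by
    intro h
    rw [h, orderOf_one] at hz
    omega
  have hcen : ∀ d ∈ Subgroup.center S, π d = 1 ∨ π d = z := fun d hd =>
    huniq' _ (by rw [← map_pow, hZ2 d hd, map_one])
  have hgen := qq_gen_of_dec a b hdec
  have hnc : π a * π b ≠ π b * π a := by
    intro hab
    apply hna
    have hc := qq_comm_of_gen a b hgen π hab
    refine ⟨⟨fun x y => ?_⟩⟩
    obtain ⟨s, rfl⟩ := QuotientGroup.mk'_surjective N x
    obtain ⟨t, rfl⟩ := QuotientGroup.mk'_surjective N y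
    exact hc s t
  have hα1 : π a ≠ 1 := by
    intro h
    apply hnc
    rw [h, one_mul, mul_one]
  obtain ⟨m, hm⟩ : ∃ m, orderOf (π a) = 2 ^ m := by
    obtain ⟨t, ht⟩ := (hS.to_quotient N) (π a)
    obtain ⟨m, -, hm⟩ := (Nat.dvd_prime_pow Nat.prime_two).mp (orderOf_dvd_of_pow_eq_one ht)
    exact ⟨m, hm⟩
  have hm1 : 1 ≤ m := by
    by_contra h
    have h0 : m = 0 := by omega
    rw [h0, pow_zero, orderOf_eq_one_iff] at hm
    exact hα1 hm
  have hzα : π a ^ 2 ^ (m - 1) = z := ui_z_eq huniq' hm hm1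
  have hzA : z ∈ Subgroup.zpowers (π a) := by
    rw [← hzα]
    exact Subgroup.pow_mem _ (Subgroup.mem_zpowers _) _
  have hcenA : ∀ d ∈ Subgroup.center S, π d ∈ Subgroup.zpowers (π a) := by
    intro d hd
    rcases hcen d hd with h | h
    · rw [h]; exact Subgroup.one_mem _
    · rw [h]; exact hzA
  have e0 : (π b)⁻¹ * π a * (π b)⁻¹⁻¹ = π (b⁻¹ * a * b * a) * (π a)⁻¹ := by
    simp only [map_mul, map_inv]
    group
  have hxa : (π b)⁻¹ * π a * (π b)⁻¹⁻¹ ∈ Subgroup.zpowers (π a) := by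
    rw [e0]
    exact Subgroup.mul_mem _ (hcenA _ h0) (Subgroup.inv_mem _ (Subgroup.mem_zpowers _))
  have e1 : (π b) ^ 2 = (π a) ^ 2 ^ k * π ((a ^ 2 ^ k)⁻¹ * b ^ 2) := by
    simp only [map_mul, map_inv, map_pow]
    group
  have hx2 : ((π b)⁻¹) ^ 2 ∈ Subgroup.zpowers (π a) := by
    rw [inv_pow, e1]
    exact Subgroup.inv_mem _ (Subgroup.mul_mem _
      (Subgroup.pow_mem _ (Subgroup.mem_zpowers _) _) (hcenA _ h1))
  have hxA : (π b)⁻¹ ∉ Subgroup.zpowers (π a) := by
    intro h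
    have hb : π b ∈ Subgroup.zpowers (π a) := by simpa using Subgroup.inv_mem _ h
    obtain ⟨j, hj⟩ := Subgroup.mem_zpowers_iff.mp hb
    apply hnc
    rw [← hj]
    exact (Commute.zpow_right (Commute.refl (π a)) j).eq
  have hcomm : (π b)⁻¹ * π a * (π b)⁻¹⁻¹ ≠ π a := by
    intro h
    apply hnc
    rw [inv_inv] at h
    calc π a * π b = π b * ((π b)⁻¹ * π a * π b) := by group
      _ = π b * π a := by rw [h]
  obtain ⟨hinv, hxz⟩ := ui_invert huniq' hm hzA hxa hx2 hxA hm1 hcomm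
  have hd0 : π (b⁻¹ * a * b * a) = 1 := by
    rw [e0] at hinv
    exact mul_eq_right.mp hinv
  have hcov : ∀ g : S ⧸ N, ∃ i : Fin 2, ∃ y ∈ Subgroup.zpowers (π a), g = π b ^ (i : ℕ) * y := by
    intro g
    obtain ⟨s, rfl⟩ := QuotientGroup.mk'_surjective N g
    obtain ⟨j, d, hd, hs | hs⟩ := hdec s
    · refine ⟨0, π a ^ j * π d,
        Subgroup.mul_mem _ (Subgroup.pow_mem _ (Subgroup.mem_zpowers _) _) (hcenA d hd), ?_⟩
      rw [hs]
      show π (a ^ j * d) = π b ^ ((0 : Fin 2) : ℕ) * (π a ^ j * π d)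
      rw [map_mul, map_pow]
      simp
    · refine ⟨1, π a ^ j * π d,
        Subgroup.mul_mem _ (Subgroup.pow_mem _ (Subgroup.mem_zpowers _) _) (hcenA d hd), ?_⟩
      rw [hs]
      show π (b * a ^ j * d) = π b ^ ((1 : Fin 2) : ℕ) * (π a ^ j * π d)
      rw [map_mul, map_mul, map_pow]
      simp [mul_assoc]
  have hle : Nat.card (S ⧸ N) ≤ 2 * 2 ^ m := by
    let F : Fin 2 × ↥(Subgroup.zpowers (π a)) → S ⧸ N :=
      fun p => π b ^ (p.1 : ℕ) * (p.2 : S ⧸ N)
    have hF : Function.Surjective F := by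
      intro g
      obtain ⟨i, y, hy, rfl⟩ := hcov g
      exact ⟨(i, ⟨y, hy⟩), rfl⟩
    have := Nat.card_le_card_of_surjective F hF
    rwa [Nat.card_prod, Nat.card_fin, Nat.card_zpowers, hm] at this
  rw [hcard] at hle
  have hkm : k + 1 ≤ m := by
    by_contra h
    have h3 : m ≤ k := by omega
    have h4 : 2 * 2 ^ m ≤ 2 * 2 ^ k :=
      Nat.mul_le_mul_left 2 (Nat.pow_le_pow_right (by norm_num) h3)
    have h5 : 2 ^ (k + 2) = 4 * 2 ^ k := by ring
    have h6 : 0 < 2 ^ k := by positivity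
    omega
  have hd2 : π (a ^ 2 ^ (k + 1)) = 1 := by
    rcases hcen _ h2 with h | h
    · exact h
    · exfalso
      have e2 : π a ^ 2 ^ (k + 1) = z := by rw [← map_pow]; exact h
      have e3 : π a ^ 2 ^ (k + 2) = 1 := by
        rw [pow_succ 2 (k + 1), pow_mul, e2, hz2]
      have h4 : 2 ^ m ∣ 2 ^ (k + 2) := by rw [← hm]; exact orderOf_dvd_of_pow_eq_one e3
      have h5 : ¬ 2 ^ m ∣ 2 ^ (k + 1) := by
        intro hd
        rw [← hm] at hd
        exact hz1 (by rw [← e2]; exact orderOf_dvd_iff_pow_eq_one.mp hd)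
      have hm2 : m = k + 2 := by
        have h6 : m ≤ k + 2 := (Nat.pow_dvd_pow_iff_le_right (by norm_num)).mp h4
        have h7 : ¬ m ≤ k + 1 := fun h => h5 (Nat.pow_dvd_pow 2 h)
        omega
      have htop : Subgroup.zpowers (π a) = ⊤ := by
        apply Subgroup.eq_top_of_card_eq
        rw [Nat.card_zpowers, hm, hm2, hcard]
      apply hxA
      rw [htop]
      exact Subgroup.mem_top _
  have hmk : m = k + 1 := by
    have e2 : π a ^ 2 ^ (k + 1) = 1 := by rw [← map_pow]; exact hd2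
    have h4 : 2 ^ m ∣ 2 ^ (k + 1) := by rw [← hm]; exact orderOf_dvd_of_pow_eq_one e2
    have := (Nat.pow_dvd_pow_iff_le_right (by norm_num)).mp h4
    omega
  have e4 : π a ^ 2 ^ k = z := by
    have : m - 1 = k := by omega
    rw [← this]; exact hzα
  have hzinv : z⁻¹ = z := by
    apply inv_eq_of_mul_eq_one_left
    rw [← pow_two]; exact hz2
  have e5 : (π b) ^ 2 = z := by
    have h6 : ((π b) ^ 2)⁻¹ = z := by rw [← inv_pow]; exact hxz
    rw [← inv_inv ((π b) ^ 2), h6, hzinv]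
  have hd1 : π ((a ^ 2 ^ k)⁻¹ * b ^ 2) = 1 := by
    simp only [map_mul, map_inv, map_pow]
    rw [e4, e5, inv_mul_cancel]
  exact ⟨(QuotientGroup.eq_one_iff _).mp hd0, (QuotientGroup.eq_one_iff _).mp hd1,
    (QuotientGroup.eq_one_iff _).mp hd2⟩

end Cfsg.Agent.Lib.Helper1
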