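import Mathlib
import Cfsg.Prelude.Def_TwoFusion
import Cfsg.Prelude.Def_Transfer
import Cfsg.Agent.Lib.Helper1.QuatQuot2
import Cfsg.Agent.Lib.Helper3.EA

set_option autoImplicit false

namespace Cfsg.Agent.Lib.Helper1

universe u

/-- A maximal subgroup of a commutative `2`-group has index `2`. -/
theorem qq_coatom_index {Z : Type*} [CommGroup Z] (hZ : IsPGroup 2 Z) (H : Subgroup Z)
    (hH : IsCoatom H) : H.index = 2 := by
  obtain ⟨ζ, hζ⟩ : ∃ ζ, ζ ∉ H := by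
    by_contra h
    exact hH.1 (eq_top_iff.mpr (fun x _ => by_contra (fun hx => h ⟨x, hx⟩)))
  have hsq := qq_coatom_sq hZ H hH
  have htop : H ⊔ Subgroup.zpowers ζ = ⊤ := by
    apply hH.2
    apply lt_of_le_of_ne le_sup_left
    intro h
    apply hζ
    rw [h]
    exact Subgroup.mem_sup_right (Subgroup.mem_zpowers _)
  have hs2 : ζ ^ (2:ℤ) ∈ H := by exact_mod_cast hsq ζ
  rw [Subgroup.index_eq_two_iff]
  refine ⟨ζ⁻¹, fun w => ?_⟩
  have hw : w ∈ H ⊔ Subgroup.zpowers ζ := by rw [htop]; exact Subgroup.mem_top w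
  obtain ⟨h, hh, y, hy, rfl⟩ := Subgroup.mem_sup.mp hw
  obtain ⟨j, rfl⟩ := Subgroup.mem_zpowers_iff.mp hy
  rcases Int.even_or_odd' j with ⟨t, rfl | rfl⟩
  · have h1 : ζ ^ (2 * t) ∈ H := by rw [zpow_mul]; exact H.zpow_mem hs2 t
    have hwH : h * ζ ^ (2 * t) ∈ H := H.mul_mem hh h1
    refine Or.inr ⟨hwH, fun hc => hζ ?_⟩
    have : ζ = (h * ζ ^ (2 * t) * ζ⁻¹)⁻¹ * (h * ζ ^ (2 * t)) := by group
    rw [this]
    exact H.mul_mem (H.inv_mem hc) hwH
  · have h1 : ζ ^ (2 * t) ∈ H := by rw [zpow_mul]; exact H.zpow_mem hs2 t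
    have h2 : h * ζ ^ (2 * t + 1) * ζ⁻¹ = h * ζ ^ (2 * t) := by
      rw [zpow_add, zpow_one]; group
    refine Or.inl ⟨by rw [h2]; exact H.mul_mem hh h1, fun hc => hζ ?_⟩
    have : ζ = (h * ζ ^ (2 * t))⁻¹ * (h * ζ ^ (2 * t + 1)) := by
      rw [zpow_add, zpow_one]; group
    rw [this]
    exact H.mul_mem (H.inv_mem (H.mul_mem hh h1)) hc

theorem qq_coatom_sq' {Z : Type*} [Group Z] (hcomm : ∀ x y : Z, x * y = y * x)
    (hZ : IsPGroup 2 Z) (H : Subgroup Z) (hH : IsCoatom H) (ζ : Z) : ζ ^ 2 ∈ H := by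
  letI : CommGroup Z := { ‹Group Z› with mul_comm := hcomm }
  exact qq_coatom_sq hZ H hH ζ

theorem qq_coatom_index' {Z : Type*} [Group Z] (hcomm : ∀ x y : Z, x * y = y * x)
    (hZ : IsPGroup 2 Z) (H : Subgroup Z) (hH : IsCoatom H) : H.index = 2 := by
  letI : CommGroup Z := { ‹Group Z› with mul_comm := hcomm }
  exact qq_coatom_index hZ H hH

/-- The main splitting theorem: a `2`-group with central subgroups `N i` of equal index,
trivial intersection, and all quotients nonabelian with a unique involution, is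
`E × Q`. -/
theorem qq_main {S : Type u} [Group S] [Finite S] (hS : IsPGroup 2 S)
    {ι : Type*} (N : ι → Subgroup S) (hNZ : ∀ i, N i ≤ Subgroup.center S)
    (hbot : ∀ d : S, (∀ i, d ∈ N i) → d = 1)
    (hidx : ∀ i j, (N i).index = (N j).index)
    (hZ2 : ∀ d ∈ Subgroup.center S, d ^ 2 = 1)
    (hq : ∀ i, ∃ (_ : (N i).Normal), ¬ IsMulCommutative (S ⧸ N i) ∧
      ∃! x : S ⧸ N i, orderOf x = 2)
    (i₀ : ι) :
    ∃ E Q : Subgroup S, Cfsg.IsInternalDirectProduct E Q ⊤ ∧ Cfsg.IsElementaryAbelian 2 E ∧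
      ¬ IsMulCommutative ↥Q ∧ ∃! x : ↥Q, orderOf x = 2 := by
  classical
  obtain ⟨hN₀, hna₀, z₀, hz₀, hzu₀⟩ := hq i₀
  rcases ui_cyclic_or_quat (hS.to_quotient (N i₀)) z₀ hz₀ (fun y hy => hzu₀ y hy) with
    hcyc | ⟨k, -, ⟨e⟩⟩
  · exfalso
    apply hna₀
    exact ⟨⟨fun x y => (IsCyclic.commGroup (α := S ⧸ N i₀)).mul_comm x y⟩⟩
  haveI : NeZero (2 ^ k) := ⟨by positivity⟩
  obtain ⟨a, ha⟩ : ∃ a : S, e (QuotientGroup.mk a) = QuaternionGroup.a 1 := by
    obtain ⟨q, hq⟩ := e.surjective (QuaternionGroup.a 1)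
    obtain ⟨a, rfl⟩ := QuotientGroup.mk_surjective q
    exact ⟨a, hq⟩
  obtain ⟨b, hb⟩ : ∃ b : S, e (QuotientGroup.mk b) = QuaternionGroup.xa 0 := by
    obtain ⟨q, hq⟩ := e.surjective (QuaternionGroup.xa 0)
    obtain ⟨b, rfl⟩ := QuotientGroup.mk_surjective q
    exact ⟨b, hq⟩
  have hdec : ∀ s : S, ∃ j : ℕ, ∃ d ∈ Subgroup.center S, s = a ^ j * d ∨ s = b * a ^ j * d := by
    intro s
    obtain ⟨j, d, hd, h⟩ := qq_decomp (N i₀) (2 ^ k) e a b ha hb s
    exact ⟨j, d, hNZ i₀ hd, h⟩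
  have hpowa : ∀ j : ℕ, e (QuotientGroup.mk (a ^ j)) = QuaternionGroup.a (j : ZMod (2 * 2 ^ k)) := by
    intro j
    rw [QuotientGroup.mk_pow, map_pow, ha, QuaternionGroup.a_one_pow]
  -- the three central elements
  have hd0N : b⁻¹ * a * b * a ∈ N i₀ := by
    have h1 : b⁻¹ * (a * b * a) ∈ N i₀ := by
      apply QuotientGroup.eq.mp
      apply e.injective
      rw [QuotientGroup.mk_mul, QuotientGroup.mk_mul, map_mul, map_mul, ha, hb,
        QuaternionGroup.a_mul_xa, QuaternionGroup.xa_mul_a]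
      congr 1
      ring
    have h2 : b⁻¹ * a * b * a = b⁻¹ * (a * b * a) := by group
    rw [h2]; exact h1
  have hd1N : (a ^ 2 ^ k)⁻¹ * b ^ 2 ∈ N i₀ := by
    apply QuotientGroup.eq.mp
    apply e.injective
    rw [hpowa, QuotientGroup.mk_pow, map_pow, hb, pow_two, QuaternionGroup.xa_mul_xa]
    congr 1
    ring
  have hd2N : a ^ 2 ^ (k + 1) ∈ N i₀ := by
    rw [← QuotientGroup.eq_one_iff]
    apply e.injective
    rw [hpowa, map_one]
    have : ((2 ^ (k + 1) : ℕ) : ZMod (2 * 2 ^ k)) = 0 := by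
      rw [pow_succ']; exact ZMod.natCast_self (2 * 2 ^ k)
    rw [this]; rfl
  have hcard₀ : Nat.card (S ⧸ N i₀) = 2 ^ (k + 2) := by
    rw [Nat.card_congr e.toEquiv, Nat.card_eq_fintype_card, QuaternionGroup.card]
    ring
  have hstep : ∀ i, b⁻¹ * a * b * a ∈ N i ∧ (a ^ 2 ^ k)⁻¹ * b ^ 2 ∈ N i ∧
      a ^ 2 ^ (k + 1) ∈ N i := by
    intro i
    obtain ⟨hNi, hnai, zi, hzi, hzui⟩ := hq i
    have hcardi : Nat.card (S ⧸ N i) = 2 ^ (k + 2) := by
      rw [← Subgroup.index_eq_card, hidx i i₀, Subgroup.index_eq_card]; exact hcard₀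
    exact qq_step hS (N i) hZ2 hnai zi hzi (fun y hy => hzui y hy) a b k
      (hNZ i₀ hd0N) (hNZ i₀ hd1N) (hNZ i₀ hd2N) hdec hcardi
  have hd0 : b⁻¹ * a * b * a = 1 := hbot _ (fun i => (hstep i).1)
  have hd1 : (a ^ 2 ^ k)⁻¹ * b ^ 2 = 1 := hbot _ (fun i => (hstep i).2.1)
  have hd2 : a ^ 2 ^ (k + 1) = 1 := hbot _ (fun i => (hstep i).2.2)
  have hu : b⁻¹ * a * b = a⁻¹ := eq_inv_of_mul_eq_one_left hd0
  have hinv : b * a * b⁻¹ = a⁻¹ := by
    have h1 : a = (b⁻¹ * a * b)⁻¹ := by rw [hu, inv_inv]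
    calc b * a * b⁻¹ = b * (b⁻¹ * a * b)⁻¹ * b⁻¹ := by rw [← h1]
      _ = a⁻¹ := by group
  have hx2 : b ^ 2 = a ^ 2 ^ k := (inv_mul_eq_one.mp hd1).symm
  have hord : orderOf a = 2 * 2 ^ k := by
    apply Nat.dvd_antisymm
    · rw [← pow_succ']; exact orderOf_dvd_of_pow_eq_one hd2
    · have h1 : orderOf (QuotientGroup.mk' (N i₀) a) ∣ orderOf a :=
        orderOf_map_dvd (QuotientGroup.mk' (N i₀)) a
      have h2 : orderOf (e (QuotientGroup.mk' (N i₀) a)) = orderOf (QuotientGroup.mk' (N i₀) a) :=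
        MulEquiv.orderOf_eq e _
      have h3 : e (QuotientGroup.mk' (N i₀) a) = QuaternionGroup.a 1 := ha
      rw [h3, QuaternionGroup.orderOf_a_one] at h2
      rw [h2]; exact h1
  obtain ⟨f, hfa, hfxa⟩ := qq_hom (2 ^ k) a b hord hinv hx2
  have hsec : ∀ q : QuaternionGroup (2 ^ k), e (QuotientGroup.mk (f q)) = q := by
    rintro (i | i)
    · rw [hfa, hpowa, ZMod.natCast_zmod_val]
    · rw [hfxa, QuotientGroup.mk_mul, map_mul, hb, hpowa, ZMod.natCast_zmod_val,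
        QuaternionGroup.xa_mul_a, zero_add]
  have hmk : ∀ s : S, (QuotientGroup.mk (f (e (QuotientGroup.mk s))) : S ⧸ N i₀) =
      QuotientGroup.mk s := fun s => e.injective (hsec _)
  have hinf : N i₀ ⊓ f.range = ⊥ := by
    rw [eq_bot_iff]
    rintro x ⟨hxN, q, rfl⟩
    have h1 : (QuotientGroup.mk (f q) : S ⧸ N i₀) = 1 := (QuotientGroup.eq_one_iff _).mpr hxN
    have h2 : q = 1 := by
      rw [← hsec q, h1, map_one]
    rw [h2, map_one]
    exact Subgroup.mem_bot.mpr rfl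
  have hsup : N i₀ ⊔ f.range = ⊤ := by
    rw [eq_top_iff]
    intro s _
    have h1 : (f (e (QuotientGroup.mk s)))⁻¹ * s ∈ N i₀ := QuotientGroup.eq.mp (hmk s)
    have h2 : s = f (e (QuotientGroup.mk s)) * ((f (e (QuotientGroup.mk s)))⁻¹ * s) := by group
    rw [h2]
    exact Subgroup.mul_mem _ (Subgroup.mem_sup_right (MonoidHom.mem_range.mpr ⟨_, rfl⟩))
      (Subgroup.mem_sup_left h1)
  refine ⟨N i₀, f.range, ⟨le_top, le_top, ?_, hinf, hsup⟩, ?_, ?_, ?_⟩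
  · intro x hx y _
    exact (Subgroup.mem_center_iff.mp (hNZ i₀ hx) y).symm
  · rw [Cfsg.Agent.Lib.Helper3.isEA_iff]
    refine ⟨fun x hx y _ => (Subgroup.mem_center_iff.mp (hNZ i₀ hx) y).symm,
      fun x hx => hZ2 x (hNZ i₀ hx)⟩
  · intro hc
    apply hna₀
    refine ⟨⟨fun x y => ?_⟩⟩
    apply e.injective
    rw [map_mul, map_mul]
    have h1 := hc.is_comm.comm (⟨f (e x), MonoidHom.mem_range.mpr ⟨_, rfl⟩⟩ : ↥f.range)
      ⟨f (e y), MonoidHom.mem_range.mpr ⟨_, rfl⟩⟩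
    have h2 : f (e x) * f (e y) = f (e y) * f (e x) := congrArg Subtype.val h1
    have h3 : f (e x * e y) = f (e y * e x) := by rw [map_mul, map_mul]; exact h2
    calc e x * e y = e (QuotientGroup.mk (f (e x * e y))) := (hsec _).symm
      _ = e (QuotientGroup.mk (f (e y * e x))) := by rw [h3]
      _ = e y * e x := hsec _
  · -- the unique involution
    set ψ : ↥f.range →* S ⧸ N i₀ := (QuotientGroup.mk' (N i₀)).comp f.range.subtype with hψ
    have hψinj : Function.Injective ψ := by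
      rw [injective_iff_map_eq_one]
      intro x hx
      have h1 : (x : S) ∈ N i₀ := (QuotientGroup.eq_one_iff _).mp hx
      have h2 : (x : S) ∈ N i₀ ⊓ f.range := ⟨h1, x.2⟩
      rw [hinf, Subgroup.mem_bot] at h2
      exact Subtype.ext h2
    have hψsurj : Function.Surjective ψ := by
      intro y
      obtain ⟨s, rfl⟩ := QuotientGroup.mk_surjective y
      exact ⟨⟨f (e (QuotientGroup.mk s)), MonoidHom.mem_range.mpr ⟨_, rfl⟩⟩, hmk s⟩
    obtain ⟨x₀, hx₀⟩ := hψsurj z₀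
    refine ⟨x₀, ?_, ?_⟩
    · show orderOf x₀ = 2
      rw [← orderOf_injective ψ hψinj x₀, hx₀]; exact hz₀
    · intro y hy
      apply hψinj
      rw [hx₀]
      apply hzu₀
      rw [orderOf_injective ψ hψinj y]; exact hy

end Cfsg.Agent.Lib.Helper1
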