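import Mathlib
import Cfsg.Prelude.Def_OddOrderLocal
import Cfsg.Prelude.Def_Transfer
import Cfsg.Agent.Lib.Helper1.SL23
import Cfsg.Agent.Lib.Helper1.MetaSub
import Cfsg.Agent.Lib.Helper1.Metacyclic2
import Cfsg.Agent.Lib.Helper1.UniqueInv
import Cfsg.Agent.Lib.Helper1.FusStab
import Cfsg.Agent.Lib.Helper8.Wr3
import Cfsg.Agent.S0071

set_option autoImplicit false

universe u

namespace Cfsg.Agent.Lib.Helper1

local notation "Q8" => QuaternionGroup 2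

theorem q8d_ord (x y : Q8) : x ^ 2 ≠ 1 → y ^ 2 ≠ 1 → y ≠ x → y ≠ x⁻¹ →
    (y ^ 2 = x ^ 2 ∧ y * x * y⁻¹ = x⁻¹ ∧ x * (x * y) = y⁻¹ ∧ x * y * x⁻¹ = y⁻¹ ∧
      x⁻¹ * y⁻¹ = x * y ∧ y * x * y = x) := by
  revert x y; decide

theorem q8d_gen (x y : Q8) : x ^ 2 ≠ 1 → y ^ 2 ≠ 1 → y ≠ x → y ≠ x⁻¹ →
    ∀ w : Q8, ∃ a < 4, ∃ b < 2, w = x ^ a * y ^ b := by
  revert x y; decide

theorem q8d_six (x y : Q8) : x ^ 2 ≠ 1 → y ^ 2 ≠ 1 → y ≠ x → y ≠ x⁻¹ →
    ∀ w : Q8, w ^ 2 ≠ 1 → w = x ∨ w = x⁻¹ ∨ w = y ∨ w = y⁻¹ ∨ w = x * y ∨ w = (x * y)⁻¹ := by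
  revert x y; decide

theorem q8d_other (x : Q8) : x ^ 2 ≠ 1 → ∃ y : Q8, y ^ 2 ≠ 1 ∧ y ≠ x ∧ y ≠ x⁻¹ := by
  revert x; decide

theorem q8d_four (x : Q8) : x ^ 4 = 1 := by
  revert x; decide

theorem q8_aut_ext (θ η : MulAut Q8) (x y : Q8) (hx : x ^ 2 ≠ 1) (hy : y ^ 2 ≠ 1) (hyx : y ≠ x)
    (hyx' : y ≠ x⁻¹) (h1 : θ x = η x) (h2 : θ y = η y) : θ = η := by
  apply MulEquiv.ext
  intro w
  obtain ⟨a, -, b, -, rfl⟩ := q8d_gen x y hx hy hyx hyx' w
  rw [map_mul, map_mul, map_pow, map_pow, map_pow, map_pow, h1, h2]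

theorem odd_pow2_one {A : Type*} [Group A] (η : A) (m k : ℕ) (hm : Odd m) (h1 : η ^ m = 1)
    (h2 : η ^ (2 ^ k) = 1) : η = 1 := by
  have hd1 : orderOf η ∣ m := orderOf_dvd_of_pow_eq_one h1
  have hd2 : orderOf η ∣ 2 ^ k := orderOf_dvd_of_pow_eq_one h2
  have hcop : Nat.Coprime m (2 ^ k) :=
    Nat.Coprime.pow_right k
      ((Nat.Prime.coprime_iff_not_dvd Nat.prime_two).mpr hm.not_two_dvd_nat).symm
  exact orderOf_eq_one_iff.mp (Nat.eq_one_of_dvd_coprimes hcop hd1 hd2)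

theorem q8_aut_fix (η : MulAut Q8) (m : ℕ) (hm : Odd m) (hηm : η ^ m = 1) (x : Q8)
    (hx : x ^ 2 ≠ 1) (hfix : η x = x) : η = 1 := by
  obtain ⟨y, hy, hyx, hyx'⟩ := q8d_other x hx
  obtain ⟨-, -, h3, h4, -, -⟩ := q8d_ord x y hx hy hyx hyx'
  have hηy2 : (η y) ^ 2 ≠ 1 := by
    rw [← map_pow]; intro h; exact hy (η.injective (h.trans (map_one η).symm))
  have hηyx : η y ≠ x := by
    intro h; rw [← hfix] at h; exact hyx (η.injective h)
  have hηyx' : η y ≠ x⁻¹ := by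
    intro h
    have h5 : η y = η x⁻¹ := by rw [map_inv, hfix]; exact h
    exact hyx' (η.injective h5)
  have hηη : η (η y) = y ∨ η (η y) = y⁻¹ := by
    rcases q8d_six x y hx hy hyx hyx' (η y) hηy2 with h | h | h | h | h | h
    · exact absurd h hηyx
    · exact absurd h hηyx'
    · left; rw [h, h]
    · left; rw [h, map_inv, h, inv_inv]
    · right; rw [h, map_mul, hfix, h, h3]
    · right; rw [h, map_inv, map_mul, hfix, h, mul_inv_rev, inv_inv, h4]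
  have h4y : (η ^ 4) y = y := by
    have e : (η ^ 4) y = η (η (η (η y))) := rfl
    rw [e]
    rcases hηη with h | h
    · rw [h, h]
    · rw [h, map_inv, map_inv, h, inv_inv]
  have h4x : (η ^ 4) x = x := by
    have e : (η ^ 4) x = η (η (η (η x))) := rfl
    rw [e, hfix, hfix, hfix, hfix]
  have h44 : η ^ 4 = 1 := q8_aut_ext (η ^ 4) 1 x y hx hy hyx hyx' h4x h4y
  exact odd_pow2_one η m 2 hm hηm h44

theorem q8_aut3 (θ : MulAut Q8) (m : ℕ) (hm : Odd m) (hθm : θ ^ m = 1) (hθ1 : θ ≠ 1) :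
    θ ^ 3 = 1 ∧ ∃ u : Q8, u ^ 4 = 1 ∧ u ^ 2 ≠ 1 ∧ (θ u) ^ 2 = u ^ 2 ∧
      θ u * u * (θ u)⁻¹ = u⁻¹ ∧ θ (θ u) = u * θ u := by
  have hpowm : ∀ k : ℕ, (θ ^ k) ^ m = 1 := fun k => by
    rw [← pow_mul, mul_comm, pow_mul, hθm, one_pow]
  have hord4 : ∀ x : Q8, x ^ 2 ≠ 1 → (θ x) ^ 2 ≠ 1 := by
    intro x hx h
    rw [← map_pow] at h
    exact hx (θ.injective (h.trans (map_one θ).symm))
  have hne : ∀ x : Q8, x ^ 2 ≠ 1 → θ x ≠ x := fun x hx h =>
    hθ1 (q8_aut_fix θ m hm hθm x hx h)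
  have hθ2 : θ ^ 2 ≠ 1 := fun h => hθ1 (odd_pow2_one θ m 1 hm hθm (by simpa using h))
  have hθ4 : θ ^ 4 ≠ 1 := fun h => hθ1 (odd_pow2_one θ m 2 hm hθm (by simpa using h))
  have hne' : ∀ x : Q8, x ^ 2 ≠ 1 → θ x ≠ x⁻¹ := by
    intro x hx h
    apply hθ2
    apply q8_aut_fix (θ ^ 2) m hm (hpowm 2) x hx
    show θ (θ x) = x
    rw [h, map_inv, h, inv_inv]
  have hkey : ∀ u : Q8, u ^ 2 ≠ 1 → θ (θ u) = u * θ u ∨ θ (θ u) = (u * θ u)⁻¹ := by
    intro u hu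
    have hv := hord4 u hu
    have hw := hord4 _ hv
    rcases q8d_six u (θ u) hu hv (hne u hu) (hne' u hu) (θ (θ u)) hw with h | h | h | h | h | h
    · exfalso; apply hθ2
      exact q8_aut_fix (θ ^ 2) m hm (hpowm 2) u hu h
    · exfalso; apply hθ4
      apply q8_aut_fix (θ ^ 4) m hm (hpowm 4) u hu
      show θ (θ (θ (θ u))) = u
      rw [h, map_inv, map_inv, h, inv_inv]
    · exact absurd h (hne _ hv)
    · exact absurd h (hne' _ hv)
    · exact Or.inl h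
    · exact Or.inr h
  have hcube : ∀ u : Q8, u ^ 2 ≠ 1 → θ (θ u) = u * θ u → θ ^ 3 = 1 := by
    intro u hu h
    have hv := hord4 u hu
    obtain ⟨-, -, -, -, -, h6⟩ := q8d_ord u (θ u) hu hv (hne u hu) (hne' u hu)
    have h3u : (θ ^ 3) u = u := by
      show θ (θ (θ u)) = u
      rw [h, map_mul, h, ← mul_assoc, h6]
    have h3v : (θ ^ 3) (θ u) = θ u := by
      show θ (θ (θ (θ u))) = θ u
      have h7 : θ (θ (θ u)) = u := h3u
      rw [h7]
    exact q8_aut_ext (θ ^ 3) 1 u (θ u) hu hv (hne u hu) (hne' u hu) h3u h3v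
  have hu0 : (QuaternionGroup.a 1 : Q8) ^ 2 ≠ 1 := by decide
  rcases hkey _ hu0 with h | h
  · refine ⟨hcube _ hu0 h, QuaternionGroup.a 1, q8d_four _, hu0, ?_, ?_, h⟩
    · exact (q8d_ord _ _ hu0 (hord4 _ hu0) (hne _ hu0) (hne' _ hu0)).1
    · exact (q8d_ord _ _ hu0 (hord4 _ hu0) (hne _ hu0) (hne' _ hu0)).2.1
  · have hu1 : ((QuaternionGroup.a 1 : Q8)⁻¹) ^ 2 ≠ 1 := by decide
    have h' : θ (θ (QuaternionGroup.a 1 : Q8)⁻¹) =
        (QuaternionGroup.a 1 : Q8)⁻¹ * θ (QuaternionGroup.a 1 : Q8)⁻¹ := by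
      rw [map_inv, map_inv, h, inv_inv]
      exact ((q8d_ord _ _ hu0 (hord4 _ hu0) (hne _ hu0) (hne' _ hu0)).2.2.2.2.1).symm
    refine ⟨hcube _ hu1 h', (QuaternionGroup.a 1)⁻¹, q8d_four _, hu1, ?_, ?_, h'⟩
    · exact (q8d_ord _ _ hu1 (hord4 _ hu1) (hne _ hu1) (hne' _ hu1)).1
    · exact (q8d_ord _ _ hu1 (hord4 _ hu1) (hne _ hu1) (hne' _ hu1)).2.1

theorem quat_metacyclic (m : ℕ) (hm : 1 ≤ m) : Cfsg.IsMetacyclic (QuaternionGroup m) := by
  haveI : NeZero m := ⟨by omega⟩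
  have hidx : (Subgroup.zpowers (QuaternionGroup.a 1 : QuaternionGroup m)).index = 2 := by
    have h1 := Subgroup.card_mul_index (Subgroup.zpowers (QuaternionGroup.a 1 : QuaternionGroup m))
    rw [Nat.card_zpowers, QuaternionGroup.orderOf_a_one, Nat.card_eq_fintype_card,
      QuaternionGroup.card] at h1
    have h2 : 2 * m * (Subgroup.zpowers (QuaternionGroup.a 1 : QuaternionGroup m)).index
        = 2 * m * 2 := by rw [h1]; ring
    exact Nat.eq_of_mul_eq_mul_left (by omega) h2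
  haveI hnorm : (Subgroup.zpowers (QuaternionGroup.a 1 : QuaternionGroup m)).Normal :=
    Subgroup.normal_of_index_eq_two hidx
  refine ⟨_, hnorm, inferInstance, ?_⟩
  haveI : Fact (Nat.Prime 2) := ⟨Nat.prime_two⟩
  exact isCyclic_of_prime_card (p := 2) (by rw [← Subgroup.index_eq_card]; exact hidx)

theorem quat_sylow_main {G : Type u} [Group G] [Finite G] (T : Sylow 2 G) (n : ℕ) (hn : 1 ≤ n)
    (hT : Nonempty ((T : Subgroup G) ≃* QuaternionGroup (2 ^ n))) :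
    Cfsg.HasNormalPComplement 2 G ∨ ∃ (H K : Subgroup G) (hK : (K.subgroupOf H).Normal),
      Nonempty ((H ⧸ K.subgroupOf H) ≃* Matrix.SpecialLinearGroup (Fin 2) (ZMod 3)) := by
  classical
  haveI : Fact (Nat.Prime 2) := ⟨Nat.prime_two⟩
  obtain ⟨eT⟩ := hT
  by_cases hcomp : ∃ N : Subgroup G, N.Normal ∧ N.IsComplement' (T : Subgroup G)
  · left
    obtain ⟨N, hN, hc⟩ := hcomp
    exact ⟨T, N, hN, hc⟩
  right
  rw [Cfsg.Agent.S0071.result T] at hcomp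
  push Not at hcomp
  obtain ⟨Q, hQT, g, hgn, hgodd, hgc⟩ := hcomp
  have hT2 : IsPGroup 2 ↥(T : Subgroup G) := T.isPGroup'
  have hQ2 : IsPGroup 2 ↥Q := hT2.to_le hQT
  have hm1 : 1 ≤ 2 ^ n := Nat.one_le_two_pow
  have hTm : Cfsg.IsMetacyclic ↥(T : Subgroup G) :=
    meta_of_injective eT.toMonoidHom eT.injective (quat_metacyclic (2 ^ n) hm1)
  have hQm : Cfsg.IsMetacyclic ↥Q :=
    meta_of_injective (Subgroup.inclusion hQT) (Subgroup.inclusion_injective hQT) hTm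
  obtain ⟨m, hmdef⟩ : ∃ m, m = orderOf g := ⟨_, rfl⟩
  have hmodd : Odd m := by rw [hmdef]; exact hgodd.odd_of_right
  have hgm : g ^ m = 1 := by rw [hmdef]; exact pow_orderOf_eq_one g
  obtain ⟨cg, hcg⟩ : ∃ cg : MulAut ↥Q, cg = Q.normalizerMonoidHom ⟨g, hgn⟩ := ⟨_, rfl⟩
  have hcgapp : ∀ x : ↥Q, ((cg x : ↥Q) : G) = g * x * g⁻¹ := fun x => by rw [hcg]; rfl
  have hcgm : cg ^ m = 1 := by
    rw [hcg, ← map_pow]
    have h1 : (⟨g, hgn⟩ : Subgroup.normalizer (Q : Set G)) ^ m = 1 := by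
      apply Subtype.ext
      simpa using hgm
    rw [h1, map_one]
  have hcg1 : cg ≠ 1 := by
    intro h
    apply hgc
    rw [Subgroup.mem_centralizer_iff]
    intro x hx
    have h1 := hcgapp ⟨x, hx⟩
    rw [h, MulAut.one_apply] at h1
    exact (mul_inv_eq_iff_eq_mul.mp h1.symm).symm
  have hA : ¬ IsPGroup 2 (MulAut ↥Q) := by
    intro h
    obtain ⟨k, hk⟩ := h cg
    exact hcg1 (odd_pow2_one cg m k hmodd hcgm hk)
  rcases meta2_main hQ2 hQm hA with he | ⟨k, he⟩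
  swap
  · exfalso
    obtain ⟨e⟩ := he
    obtain ⟨hQab, hQexp, hQcard, -⟩ := homo_facts k e
    obtain ⟨f, hf⟩ : ∃ f : ↥Q →* QuaternionGroup (2 ^ n), Function.Injective f :=
      ⟨eT.toMonoidHom.comp (Subgroup.inclusion hQT),
        eT.injective.comp (Subgroup.inclusion_injective hQT)⟩
    have huniq : ∃ z : ↥Q, ∀ y : ↥Q, y ^ 2 = 1 → y = 1 ∨ y = z := by
      by_cases hex : ∃ z : ↥Q, z ^ 2 = 1 ∧ z ≠ 1
      · obtain ⟨z, hz2, hz1⟩ := hex
        refine ⟨z, fun y hy => ?_⟩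
        by_cases hy1 : y = 1
        · exact Or.inl hy1
        · right
          apply hf
          have hfy : f y * f y = 1 := by rw [← map_mul, ← pow_two, hy, map_one]
          have hfz : f z * f z = 1 := by rw [← map_mul, ← pow_two, hz2, map_one]
          rcases Cfsg.Agent.Lib.Helper8.h8_quat_invol (2 ^ n) hm1 (f y) hfy with h | h
          · exact absurd (hf (h.trans (map_one f).symm)) hy1
          · rcases Cfsg.Agent.Lib.Helper8.h8_quat_invol (2 ^ n) hm1 (f z) hfz with h' | h'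
            · exact absurd (hf (h'.trans (map_one f).symm)) hz1
            · rw [h, h']
      · refine ⟨1, fun y hy => ?_⟩
        left
        by_contra hy1
        exact hex ⟨y, hy, hy1⟩
    obtain ⟨z, hz⟩ := huniq
    obtain ⟨a, -, ha⟩ := ui_abelian_cyclic hQ2 hz ⊤ (fun x _ y _ => hQab x y)
    have hord : orderOf a = 2 ^ k * 2 ^ k := by
      rw [← hQcard, ← Nat.card_zpowers, ← ha, Subgroup.card_top]
    have hdv : orderOf a ∣ 2 ^ k := orderOf_dvd_of_pow_eq_one (hQexp a)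
    rw [hord] at hdv
    have hk0 : 2 ^ k = 1 := by
      have hpos : 0 < 2 ^ k := by positivity
      have h5 := Nat.le_of_dvd hpos hdv
      nlinarith
    apply hcg1
    have hc1 : Nat.card ↥Q = 1 := by rw [hQcard, hk0]
    apply MulEquiv.ext
    intro x
    haveI : Subsingleton ↥Q := (Nat.card_eq_one_iff_unique.mp hc1).1
    exact Subsingleton.elim _ _
  obtain ⟨e⟩ := he
  obtain ⟨θ, hθ⟩ : ∃ θ : MulAut (QuaternionGroup 2), ∀ q, θ q = e (cg (e.symm q)) :=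
    ⟨(e.symm.trans cg).trans e, fun q => rfl⟩
  have hθpow : ∀ k : ℕ, ∀ q, (θ ^ k) q = e ((cg ^ k) (e.symm q)) := by
    intro k
    induction k with
    | zero => intro q; simp
    | succ k ih =>
      intro q
      rw [pow_succ', MulAut.mul_apply, ih, hθ, MulEquiv.symm_apply_apply, pow_succ',
        MulAut.mul_apply]
  have hθm : θ ^ m = 1 := by
    apply MulEquiv.ext; intro q
    rw [hθpow, hcgm]; simp
  have hθ1 : θ ≠ 1 := by
    intro h
    apply hcg1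
    apply MulEquiv.ext; intro x
    have h1 := hθ (e x)
    rw [h, MulAut.one_apply, MulEquiv.symm_apply_apply] at h1
    exact (e.injective h1).symm
  obtain ⟨hθ3, u, hu4, hu2, hv2, hvu, hθv⟩ := q8_aut3 θ m hmodd hθm hθ1
  obtain ⟨i, hi⟩ : ∃ i : ↥Q, i = e.symm u := ⟨_, rfl⟩
  obtain ⟨j, hj⟩ : ∃ j : ↥Q, j = cg i := ⟨_, rfl⟩
  have hej : e j = θ u := by rw [hj, hi, hθ]
  have hei : e i = u := by rw [hi, MulEquiv.apply_symm_apply]
  have hi4 : i ^ 4 = 1 := by rw [hi, ← map_pow, hu4, map_one]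
  have hi2 : i ^ 2 ≠ 1 := by
    rw [hi, ← map_pow]; intro h
    exact hu2 (e.symm.injective (h.trans (map_one e.symm).symm))
  have hj2 : j ^ 2 = i ^ 2 := by
    apply e.injective
    rw [map_pow, map_pow, hej, hei, hv2]
  have hji : j * i * j⁻¹ = i⁻¹ := by
    apply e.injective
    rw [map_mul, map_mul, map_inv, map_inv, hej, hei, hvu]
  have hcj : cg j = i * j := by
    apply e.injective
    rw [map_mul, hej, hei, ← hθv, ← hej, hθ, MulEquiv.symm_apply_apply]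
  have hcg3 : cg ^ 3 = 1 := by
    apply MulEquiv.ext; intro x
    have h1 := hθpow 3 (e x)
    rw [hθ3, MulAut.one_apply, MulEquiv.symm_apply_apply] at h1
    exact (e.injective h1).symm
  -- relations in G
  have hGi4 : (i : G) ^ 4 = 1 := by
    have := congrArg Subtype.val hi4
    simpa using this
  have hGi2 : (i : G) ^ 2 ≠ 1 := by
    intro h
    apply hi2
    apply Subtype.ext
    simpa using h
  have hGj2 : (j : G) ^ 2 = (i : G) ^ 2 := by
    have := congrArg Subtype.val hj2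
    simpa using this
  have hGji : (j : G) * i * (j : G)⁻¹ = (i : G)⁻¹ := by
    have := congrArg Subtype.val hji
    simpa using this
  have hGci : g * (i : G) * g⁻¹ = j := by rw [hj]; exact (hcgapp i).symm
  have hGcj : g * (j : G) * g⁻¹ = i * j := by
    rw [← hcgapp j, hcj]; rfl
  have hg3 : ∀ x ∈ Q, g ^ 3 * x = x * g ^ 3 := by
    intro x hx
    have e3 : cg ^ 3 = Q.normalizerMonoidHom ⟨g ^ 3, Subgroup.pow_mem _ hgn 3⟩ := by
      rw [hcg, ← map_pow]; rfl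
    have h1 : (((cg ^ 3) ⟨x, hx⟩ : ↥Q) : G) = g ^ 3 * x * (g ^ 3)⁻¹ := by rw [e3]; rfl
    rw [hcg3, MulAut.one_apply] at h1
    exact (mul_inv_eq_iff_eq_mul.mp h1.symm)
  -- H, K
  obtain ⟨H, hH⟩ : ∃ H : Subgroup G, H = Subgroup.zpowers g ⊔ Q := ⟨_, rfl⟩
  obtain ⟨K, hKdef⟩ : ∃ K : Subgroup G, K = Subgroup.zpowers (g ^ 3) := ⟨_, rfl⟩
  have hQH : Q ≤ H := by rw [hH]; exact le_sup_right
  have hgH : g ∈ H := by rw [hH]; exact Subgroup.mem_sup_left (Subgroup.mem_zpowers g)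
  have hcent : ∀ h ∈ H, Commute h (g ^ 3) := by
    have hle : H ≤ Subgroup.centralizer ({g ^ 3} : Set G) := by
      rw [hH]
      apply sup_le
      · rw [Subgroup.zpowers_le]
        exact Subgroup.mem_centralizer_singleton_iff.mpr ((Commute.refl g).pow_right 3).eq
      · intro x hx
        exact Subgroup.mem_centralizer_singleton_iff.mpr (hg3 x hx).symm
    intro h hh
    exact (Subgroup.mem_centralizer_singleton_iff.mp (hle hh))
  have hKn : (K.subgroupOf H).Normal := by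
    constructor
    intro k hk h
    rw [Subgroup.mem_subgroupOf] at hk ⊢
    have hk' := hk
    rw [hKdef] at hk'
    obtain ⟨zz, hzz⟩ := Subgroup.mem_zpowers_iff.mp hk'
    have hc : Commute (h : G) (k : G) := by rw [← hzz]; exact (hcent h h.2).zpow_right zz
    have e5 : ((h * k * h⁻¹ : ↥H) : G) = (k : G) := by
      show (h : G) * k * (h : G)⁻¹ = k
      rw [hc.eq, mul_inv_cancel_right]
    rw [e5]; exact hk
  haveI := hKn
  obtain ⟨π, hπ⟩ : ∃ π : ↥H →* ↥H ⧸ K.subgroupOf H, π = QuotientGroup.mk' (K.subgroupOf H) :=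
    ⟨_, rfl⟩
  have hπker : ∀ h : ↥H, π h = 1 ↔ (h : G) ∈ K := by
    intro h
    rw [hπ, QuotientGroup.mk'_apply, QuotientGroup.eq_one_iff, Subgroup.mem_subgroupOf]
  obtain ⟨iH, hiH⟩ : ∃ iH : ↥H, iH = ⟨(i : G), hQH i.2⟩ := ⟨_, rfl⟩
  obtain ⟨jH, hjH⟩ : ∃ jH : ↥H, jH = ⟨(j : G), hQH j.2⟩ := ⟨_, rfl⟩
  obtain ⟨gH, hgHd⟩ : ∃ gH : ↥H, gH = ⟨g, hgH⟩ := ⟨_, rfl⟩
  have r1 : (π iH) ^ 4 = 1 := by
    rw [← map_pow]
    have : iH ^ 4 = 1 := by rw [hiH]; apply Subtype.ext; simpa using hGi4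
    rw [this, map_one]
  have hKodd : ∀ x ∈ K, x ^ m = 1 := by
    intro x hx
    rw [hKdef] at hx
    obtain ⟨zz, rfl⟩ := Subgroup.mem_zpowers_iff.mp hx
    rw [← zpow_natCast, ← zpow_mul, mul_comm, zpow_mul, zpow_natCast, ← pow_mul, mul_comm,
      pow_mul, hgm, one_pow, one_zpow]
  have r2 : (π iH) ^ 2 ≠ 1 := by
    rw [← map_pow, Ne, hπker]
    intro h
    apply hGi2
    have h1 : ((iH ^ 2 : ↥H) : G) = (i : G) ^ 2 := by rw [hiH]; rfl
    rw [h1] at h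
    have h2 := hKodd _ h
    have h3 : ((i : G) ^ 2) ^ (2 ^ 1) = 1 := by rw [← pow_mul]; exact hGi4
    exact odd_pow2_one _ m 1 hmodd h2 h3
  have r3 : (π jH) ^ 2 = (π iH) ^ 2 := by
    rw [← map_pow, ← map_pow]
    congr 1
    rw [hiH, hjH]; apply Subtype.ext; exact hGj2
  have r4 : π jH * π iH * (π jH)⁻¹ = (π iH)⁻¹ := by
    rw [← map_inv, ← map_mul, ← map_mul, ← map_inv]
    congr 1
    rw [hiH, hjH]; apply Subtype.ext; exact hGji
  have r5 : (π gH) ^ 3 = 1 := by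
    rw [← map_pow, hπker]
    have h1 : ((gH ^ 3 : ↥H) : G) = g ^ 3 := by rw [hgHd]; rfl
    rw [h1, hKdef]; exact Subgroup.mem_zpowers _
  have r6 : π gH * π iH * (π gH)⁻¹ = π jH := by
    rw [← map_inv, ← map_mul, ← map_mul]
    congr 1
    rw [hiH, hjH, hgHd]; apply Subtype.ext; exact hGci
  have r7 : π gH * π jH * (π gH)⁻¹ = π iH * π jH := by
    rw [← map_inv, ← map_mul, ← map_mul, ← map_mul]
    congr 1
    rw [hiH, hjH, hgHd]; apply Subtype.ext; exact hGcj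
  have hcard : Nat.card (↥H ⧸ K.subgroupOf H) ≤ 24 := by
    let Fd : ↥Q × Fin 3 → ↥H ⧸ K.subgroupOf H :=
      fun v => (π gH) ^ (v.2 : ℕ) * π ⟨(v.1 : G), hQH v.1.2⟩
    have hFd : Function.Surjective Fd := by
      intro x
      obtain ⟨h, rfl⟩ := QuotientGroup.mk_surjective x
      have hh : (h : G) ∈ Subgroup.zpowers g ⊔ Q := by rw [← hH]; exact h.2
      obtain ⟨y, hy, q, hq, hyq⟩ := mem_sup_of_le_normalizer
        (by rw [Subgroup.zpowers_le]; exact hgn) hh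
      obtain ⟨zz, rfl⟩ := Subgroup.mem_zpowers_iff.mp hy
      have h3 : (π gH) ^ zz = (π gH) ^ (zz % ((3 : ℕ) : ℤ)) := zpow_eq_zpow_emod' zz r5
      have hnn : 0 ≤ zz % ((3 : ℕ) : ℤ) := Int.emod_nonneg _ (by norm_num)
      have hlt : zz % ((3 : ℕ) : ℤ) < 3 := Int.emod_lt_of_pos _ (by norm_num)
      obtain ⟨r, hr⟩ := Int.eq_ofNat_of_zero_le hnn
      refine ⟨(⟨q, hq⟩, ⟨r, by omega⟩), ?_⟩
      show (π gH) ^ r * π ⟨q, hQH hq⟩ = QuotientGroup.mk h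
      rw [← zpow_natCast, ← hr, ← h3, ← map_zpow, ← map_mul, hπ, QuotientGroup.mk'_apply]
      congr 1
      apply Subtype.ext
      rw [hgHd]
      exact hyq.symm
    calc Nat.card (↥H ⧸ K.subgroupOf H) ≤ Nat.card (↥Q × Fin 3) :=
          Nat.card_le_card_of_surjective Fd hFd
      _ = 24 := by
          rw [Nat.card_prod, Nat.card_congr e.toEquiv, Nat.card_eq_fintype_card,
            QuaternionGroup.card, Nat.card_eq_fintype_card, Fintype.card_fin]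
  obtain ⟨Ψ₁⟩ := sl23_model (π iH) (π jH) (π gH) r1 r2 r3 r4 r5 r6 r7 hcard
  obtain ⟨Ψ₂⟩ := sl23_iso
  exact ⟨H, K, hKn, ⟨Ψ₁.symm.trans Ψ₂⟩⟩

end Cfsg.Agent.Lib.Helper1
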