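import Cfsg.Agent.Lib.Helper1.TIFamily
import Cfsg.Prelude.Def_EvenType

set_option autoImplicit false

namespace Cfsg.Agent.Lib.Helper1

/-- Two commuting elements of order `p` of `H`, the second not a power of the first, generate an
elementary abelian subgroup of order at least `p²`. -/
theorem prankAtLeast_two_of_commuting {G : Type*} [Group G] [Finite G] {p : ℕ} [Fact p.Prime]
    (H : Subgroup G) {a b : G} (ha : a ∈ H) (hb : b ∈ H) (hao : orderOf a = p)
    (hbo : orderOf b = p) (hab : a * b = b * a) (hnot : b ∉ Subgroup.zpowers a) :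
    Cfsg.PRankAtLeast p 2 ↥H := by
  classical
  have hp : p.Prime := Fact.out
  set a' : ↥H := ⟨a, ha⟩ with ha'
  set b' : ↥H := ⟨b, hb⟩ with hb'
  have hab' : a' * b' = b' * a' := Subtype.ext hab
  set A : Subgroup ↥H := Subgroup.closure {a', b'} with hA
  have hcomm0 : ∀ x ∈ ({a', b'} : Set ↥H), ∀ y ∈ ({a', b'} : Set ↥H), x * y = y * x := by
    intro x hx y hy
    rcases hx with rfl | rfl <;> rcases hy with rfl | rfl
    · rfl
    · exact hab'
    · exact hab'.symm
    · rfl
  have hcomm := closure_comm_of_comm _ hcomm0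
  have hap : a' ^ p = 1 := by
    apply Subtype.ext
    rw [Subgroup.coe_pow, Subgroup.coe_one, ← hao]
    exact pow_orderOf_eq_one a
  have hbp : b' ^ p = 1 := by
    apply Subtype.ext
    rw [Subgroup.coe_pow, Subgroup.coe_one, ← hbo]
    exact pow_orderOf_eq_one b
  have hexp : ∀ x ∈ A, x ^ p = 1 := by
    intro x hx
    induction hx using Subgroup.closure_induction with
    | mem x hx =>
      rcases hx with rfl | rfl
      · exact hap
      · exact hbp
    | one => exact one_pow p
    | mul x y hx hy ihx ihy =>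
      have h1 : Commute x y := hcomm x hx y hy
      rw [h1.mul_pow, ihx, ihy, one_mul]
    | inv x hx ih => rw [inv_pow, ih, inv_one]
  refine ⟨A, ⟨⟨fun x y => Subtype.ext (hcomm x.1 x.2 y.1 y.2)⟩⟩, hexp, ?_⟩
  have hAp : IsPGroup p A := by
    intro x
    refine ⟨1, ?_⟩
    apply Subtype.ext
    rw [pow_one, Subgroup.coe_pow]
    exact hexp x x.2
  obtain ⟨k, hk⟩ := IsPGroup.iff_card.mp hAp
  have haA : a' ∈ A := Subgroup.subset_closure (Set.mem_insert _ _)
  have hbA : b' ∈ A := Subgroup.subset_closure (Set.mem_insert_of_mem _ rfl)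
  have hzle : Subgroup.zpowers a' ≤ A := Subgroup.zpowers_le.mpr haA
  have hzc : Nat.card (Subgroup.zpowers a') = p := by
    rw [Nat.card_zpowers, ← hao]
    exact Subgroup.orderOf_mk a ha
  have hbz : b' ∉ Subgroup.zpowers a' := by
    intro hmem
    obtain ⟨i, hi⟩ := Subgroup.mem_zpowers_iff.mp hmem
    apply hnot
    rw [Subgroup.mem_zpowers_iff]
    refine ⟨i, ?_⟩
    have h1 := congrArg Subtype.val hi
    rw [Subgroup.coe_zpow] at h1
    exact h1
  rw [hk]
  have hk2 : 2 ≤ k := by
    by_contra hlt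
    have hk1 : k ≤ 1 := by omega
    have h1 : Nat.card A ≤ Nat.card (Subgroup.zpowers a') := by
      rw [hk, hzc]
      calc p ^ k ≤ p ^ 1 := Nat.pow_le_pow_right hp.pos hk1
        _ = p := pow_one p
    have h2 := Subgroup.eq_of_le_of_card_ge hzle h1
    apply hbz
    rw [h2]; exact hbA
  exact Nat.pow_le_pow_right hp.pos hk2

end Cfsg.Agent.Lib.Helper1
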