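import Mathlib

/-! A trace (transfer) argument producing a direct factor. -/

set_option autoImplicit false

namespace Cfsg.Agent.Lib.Helper1

open scoped IsMulCommutative

theorem aut_mem_center {P : Type*} [Group P] (a : MulAut P) {z : P}
    (hz : z ∈ Subgroup.center P) : a z ∈ Subgroup.center P := by
  rw [Subgroup.mem_center_iff] at hz ⊢
  intro g
  have h := congrArg a (hz (a⁻¹ g))
  simpa using h

/-- Let `A` be a finite group of automorphisms of `P` and `U ≤ A`. If `Zq` is the subgroup of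
central elements of `P` fixed by `U`, and the index of `U` in `A` is prime to the order of
`Zq`, then the subgroup of `A`-fixed points of `Zq` has a complement in `Zq`. -/
theorem trace_direct_factor {P : Type*} [Group P] [Finite P] (A : Subgroup (MulAut P))
    (U : Subgroup ↥A) (Zq : Subgroup P) (hZc : Zq ≤ Subgroup.center P)
    (hU : ∀ u ∈ U, ∀ z ∈ Zq, (u : MulAut P) z = z)
    (hZq : ∀ z ∈ Subgroup.center P, (∀ u ∈ U, (u : MulAut P) z = z) → z ∈ Zq)
    (hcop : (Nat.card Zq).Coprime U.index) :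
    ∃ K : Subgroup P, K ≤ Zq ∧ (∀ z ∈ K, (∀ a ∈ A, a z = z) → z = 1) ∧
      ∀ z ∈ Zq, ∃ w ∈ Zq, ∃ k ∈ K, (∀ a ∈ A, a w = w) ∧ z = w * k := by
  classical
  haveI : Fintype (↥A ⧸ U) := Fintype.ofFinite _
  let f : Zq → ↥A ⧸ U → ↥(Subgroup.center P) := fun z c =>
    Quotient.liftOn' c (fun a => (⟨(a : MulAut P) z, aut_mem_center _ (hZc z.2)⟩ :
      ↥(Subgroup.center P))) (by
        intro a b hab
        have h1 : a⁻¹ * b ∈ U := QuotientGroup.leftRel_apply.mp hab
        apply Subtype.ext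
        show (a : MulAut P) z = (b : MulAut P) z
        have h2 := hU _ h1 z z.2
        have h3 : ((a⁻¹ * b : ↥A) : MulAut P) z = (a : MulAut P)⁻¹ ((b : MulAut P) z) := rfl
        rw [h3] at h2
        have h4 := congrArg (a : MulAut P) h2
        simpa using h4.symm)
  have hfmk : ∀ (z : Zq) (a : ↥A), f z (QuotientGroup.mk a) =
      ⟨(a : MulAut P) z, aut_mem_center _ (hZc z.2)⟩ := fun z a => rfl
  have hfmul : ∀ (z z' : Zq) (c : ↥A ⧸ U), f (z * z') c = f z c * f z' c := by
    intro z z' c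
    induction c using Quotient.inductionOn' with
    | _ a =>
      apply Subtype.ext
      show (a : MulAut P) ((z : P) * (z' : P)) = (a : MulAut P) z * (a : MulAut P) z'
      rw [map_mul]
  let τ : ↥Zq →* ↥(Subgroup.center P) := MonoidHom.mk' (fun z => ∏ c : ↥A ⧸ U, f z c) (by
    intro z z'
    simp only [hfmul]
    exact Finset.prod_mul_distrib)
  have hτ : ∀ z : Zq, τ z = ∏ c : ↥A ⧸ U, f z c := fun z => rfl
  -- restriction of an automorphism to the centre
  let rC : MulAut P → (↥(Subgroup.center P) →* ↥(Subgroup.center P)) := fun a =>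
    (a.toMonoidHom.comp (Subgroup.center P).subtype).codRestrict (Subgroup.center P)
      (fun z => aut_mem_center a z.2)
  have hrC : ∀ (a : MulAut P) (z : ↥(Subgroup.center P)), ((rC a z : ↥(Subgroup.center P)) : P)
      = a z := fun a z => rfl
  have hτfix : ∀ (a : ↥A) (z : Zq), (a : MulAut P) ((τ z : ↥(Subgroup.center P)) : P) =
      ((τ z : ↥(Subgroup.center P)) : P) := by
    intro a z
    rw [← hrC]
    congr 1
    rw [hτ, map_prod]
    have h1 : ∀ c : ↥A ⧸ U, rC (a : MulAut P) (f z c) = f z (a • c) := by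
      intro c
      induction c using Quotient.inductionOn' with
      | _ b => rfl
    simp only [h1]
    exact Fintype.prod_equiv (MulAction.toPerm a) _ _ (fun c => rfl)
  have hτfixed : ∀ z : Zq, (∀ a ∈ A, a (z : P) = z) →
      τ z = (⟨(z : P), hZc z.2⟩ : ↥(Subgroup.center P)) ^ U.index := by
    intro z hz
    rw [hτ]
    have h1 : ∀ c : ↥A ⧸ U, f z c = ⟨(z : P), hZc z.2⟩ := by
      intro c
      induction c using Quotient.inductionOn' with
      | _ b => exact Subtype.ext (hz b b.2)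
    simp only [h1]
    rw [Finset.prod_const, Finset.card_univ, Subgroup.index_eq_card, Nat.card_eq_fintype_card]
  have hτZq : ∀ z : Zq, ((τ z : ↥(Subgroup.center P)) : P) ∈ Zq := by
    intro z
    exact hZq _ (τ z).2 (fun u hu => hτfix u z)
  refine ⟨τ.ker.map Zq.subtype, ?_, ?_, ?_⟩
  · rintro _ ⟨z, -, rfl⟩; exact z.2
  · rintro _ ⟨z, hz, rfl⟩ hfix
    have h1 := hτfixed z hfix
    rw [MonoidHom.mem_ker.mp hz] at h1
    have h2 : z ^ U.index = 1 := by
      apply Subtype.ext
      have := congrArg (fun y : ↥(Subgroup.center P) => (y : P)) h1.symm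
      simpa using this
    have h3 : z = 1 := by
      apply (powCoprime hcop).injective
      show z ^ U.index = 1 ^ U.index
      rw [h2, one_pow]
    show ((z : Zq) : P) = 1
    rw [h3]; rfl
  · intro z hz
    set t' : Zq := ⟨((τ ⟨z, hz⟩ : ↥(Subgroup.center P)) : P), hτZq ⟨z, hz⟩⟩ with ht'
    set w₀ : Zq := (powCoprime hcop).symm t' with hw₀
    have hw₀pow : w₀ ^ U.index = t' := (powCoprime hcop).apply_symm_apply t'
    have hco : U.index.Coprime (orderOf w₀) :=
      (Nat.Coprime.coprime_dvd_left (orderOf_dvd_natCard w₀) hcop).symm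
    obtain ⟨m', hm'⟩ := exists_pow_eq_self_of_coprime hco
    rw [hw₀pow] at hm'
    have hw₀fix : ∀ a ∈ A, a (w₀ : P) = w₀ := by
      intro a ha
      have e : (w₀ : P) = ((τ ⟨z, hz⟩ : ↥(Subgroup.center P)) : P) ^ m' := by
        have := congrArg (fun y : Zq => (y : P)) hm'.symm
        simpa using this
      rw [e, map_pow, hτfix ⟨a, ha⟩ ⟨z, hz⟩]
    have hτw : τ w₀ = τ ⟨z, hz⟩ := by
      rw [hτfixed w₀ hw₀fix]
      apply Subtype.ext
      have := congrArg (fun y : Zq => (y : P)) hw₀pow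
      simpa using this
    refine ⟨w₀, w₀.2, ((w₀⁻¹ * ⟨z, hz⟩ : Zq) : P), ⟨w₀⁻¹ * ⟨z, hz⟩, ?_, rfl⟩, hw₀fix, ?_⟩
    · rw [SetLike.mem_coe, MonoidHom.mem_ker, map_mul, map_inv, hτw, inv_mul_cancel]
    · show z = (w₀ : P) * ((w₀ : P)⁻¹ * z)
      group

end Cfsg.Agent.Lib.Helper1
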